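import Cfsg.Agent.Lib.Forms.SpOre1
import Cfsg.Agent.Lib.SLn.HessComm
import Mathlib.LinearAlgebra.Matrix.GeneralLinearGroup.Card

/-!
Pole placement: a linear automorphism which is not primary is a quotient of two maps with
prescribed characteristic polynomials.
-/

set_option autoImplicit false

namespace Cfsg.Agent.Forms.Lev

open Module Polynomial Submodule

universe u

variable {F : Type*} [Field F] {V W : Type*} [AddCommGroup V] [Module F V]
  [AddCommGroup W] [Module F W]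

/-- Krylov subspaces -/
def Kr (D : End F V) (x : V) : ℕ → Submodule F V
  | 0 => ⊥
  | k + 1 => (F ∙ x) ⊔ (Kr D x k).map D

theorem Kr_congr {D D' : End F V} {x x' : V} (hx : (F ∙ x') = F ∙ x) (h : ∀ v, D' v - D v ∈ F ∙ x)
    (k : ℕ) : Kr D' x' k = Kr D x k := by
  induction k with
  | zero => rfl
  | succ k ih =>
    rw [Kr, Kr, ih, hx]
    refine le_antisymm (sup_le le_sup_left ?_) (sup_le le_sup_left ?_) <;> rintro _ ⟨v, hv, rfl⟩
    · rw [← sub_add_cancel (D' v) (D v)]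
      exact add_mem_sup (h v) ⟨v, hv, rfl⟩
    · rw [show D v = -(D' v - D v) + D' v by abel]
      exact add_mem_sup (neg_mem (h v)) ⟨v, hv, rfl⟩

theorem Kr_lift {π : V →ₗ[F] W} (hπ : Function.Surjective π) {e : V} (he : LinearMap.ker π = F ∙ e)
    {D : End F V} {E : End F W} {x : W} {ψ : V →ₗ[F] F} (h1 : ψ e = 1)
    (h : ∀ v, π (D v) = E (π v) + ψ v • x) (k : ℕ) : Kr D e (k + 1) = (Kr E x k).comap π := by
  have h0 : π e = 0 := by rw [← LinearMap.mem_ker, he]; exact mem_span_singleton_self e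
  induction k with
  | zero => simp [Kr, he]
  | succ k ih =>
    rw [Kr, ih, ← he, sup_comm, ← comap_map_eq, Kr]
    congr 1
    refine le_antisymm ?_ (sup_le ((span_singleton_le_iff_mem _ _).2 ?_) ?_)
    · rintro _ ⟨_, ⟨v, hv, rfl⟩, rfl⟩
      rw [h, add_comm]
      exact add_mem_sup (smul_mem _ _ (mem_span_singleton_self x)) ⟨_, hv, rfl⟩
    · exact ⟨_, ⟨e, by simp [h0], rfl⟩, by simp [h, h0, h1]⟩
    · rintro _ ⟨w, hw, rfl⟩
      obtain ⟨v, rfl⟩ := hπ w
      exact ⟨_, ⟨v - ψ v • e, by simpa [h0] using hw, rfl⟩, by rw [h]; simp [h0, h1]⟩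

theorem Kr_eq (D : End F V) (x : V) (k : ℕ) : Kr D x k = (degreeLT F k).map (evalAt D x) := by
  induction k with
  | zero => classical rw [degreeLT_eq_span_X_pow]; simp [Kr]
  | succ k ih =>
    rw [Kr, ih]
    refine le_antisymm (sup_le ((span_singleton_le_iff_mem _ _).2 ⟨1, ?_, by simp [evalAt_apply]⟩) ?_) ?_
    · exact SLn.mem_dlt.2 fun i hi => by rw [coeff_one, if_neg (by omega)]
    · rintro _ ⟨_, ⟨p, hp, rfl⟩, rfl⟩
      refine ⟨X * p, SLn.mem_dlt.2 fun i hi => ?_, by simp [evalAt_apply]⟩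
      obtain ⟨i, rfl⟩ : ∃ j, i = j + 1 := ⟨i - 1, by omega⟩
      rw [coeff_X_mul, SLn.mem_dlt.1 hp i (by omega)]
    · rintro _ ⟨p, hp, rfl⟩
      rw [← X_mul_divX_add p, map_add, add_comm]
      refine add_mem_sup (mem_span_singleton.2 ⟨p.coeff 0, by simp [evalAt_apply]⟩)
        ⟨_, ⟨p.divX, SLn.mem_dlt.2 fun i hi => ?_, rfl⟩, by simp [evalAt_apply]⟩
      rw [coeff_divX, SLn.mem_dlt.1 hp _ (by omega)]

theorem Kr_mono (D : End F V) (x : V) {k l : ℕ} (h : k ≤ l) : Kr D x k ≤ Kr D x l := by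
  rw [Kr_eq, Kr_eq]
  exact map_mono fun _ => SLn.dlt_mono h

theorem coeff_iterate_divX (p : F[X]) (j i : ℕ) : (divX^[j] p).coeff i = p.coeff (i + j) := by
  induction j generalizing i with
  | zero => rfl
  | succ j ih => rw [Function.iterate_succ_apply', coeff_divX, ih, add_right_comm, add_assoc]

/-- an adapted basis of the polynomials of degree `< m` -/
noncomputable def bet (p : F[X]) (m t i : ℕ) : F[X] := if i < t then X ^ i else divX^[m - i] p

theorem bet_lead {p : F[X]} (hp : p.Monic) {t i : ℕ} (hi : i ≤ p.natDegree) :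
    SLn.PLead (bet p p.natDegree t i) i := by
  unfold bet
  split_ifs
  · exact ⟨SLn.mem_dlt.2 fun j hj => by rw [coeff_X_pow, if_neg (by omega)], by simp⟩
  · exact ⟨SLn.mem_dlt.2 fun j hj => by
      rw [coeff_iterate_divX, coeff_eq_zero_of_natDegree_lt (by omega)], by
      rw [coeff_iterate_divX, add_tsub_cancel_of_le hi, hp.coeff_natDegree]⟩

theorem bet_succ {p : F[X]} (hp : p.Monic) {t i : ℕ} (hi : i < p.natDegree) :
    X * bet p p.natDegree (t + 1) i - bet p p.natDegree (t + 1) (i + 1) ∈ degreeLT F (t + 1) := by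
  refine SLn.mem_dlt.2 fun j hj => ?_
  obtain ⟨j, rfl⟩ : ∃ k, j = k + 1 := ⟨j - 1, by omega⟩
  rw [coeff_sub, coeff_X_mul, sub_eq_zero]
  by_cases h : t < i
  · rw [bet, bet, if_neg (by omega), if_neg (by omega), coeff_iterate_divX, coeff_iterate_divX]
    congr 1
    omega
  · have h1 := bet_lead hp (t := t + 1) hi.le
    have h2 := bet_lead hp (t := t + 1) (i := i + 1) hi
    rcases (show i ≤ j by omega).eq_or_lt with rfl | h3
    · rw [h1.2, h2.2]
    · rw [SLn.mem_dlt.1 h1.1 _ h3, SLn.mem_dlt.1 h2.1 _ (by omega)]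

variable [FiniteDimensional F V] [FiniteDimensional F W]

theorem Kr_eq_top {D : End F V} {x : V} (h : ∀ v, ∃ p, evalAt D x p = v) :
    Kr D x (finrank F V) = ⊤ := by
  refine eq_top_iff.2 fun v _ => ?_
  obtain ⟨p, rfl⟩ := h v
  rw [Kr_eq]
  refine ⟨p %ₘ D.charpoly, mem_degreeLT.2 ?_, by simp [evalAt_apply, LinearMap.aeval_eq_aeval_mod_charpoly D p |>.symm]⟩
  rw [← D.charpoly_natDegree, ← degree_eq_natDegree D.charpoly_monic.ne_zero]
  exact degree_modByMonic_lt _ D.charpoly_monic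

theorem exists_basis {D : End F V} {x : V} {m : ℕ} (hm : finrank F V = m) (h : Kr D x m = ⊤) (t : ℕ) :
    ∃ b : Basis (Fin m) F V, ∀ i, b i = evalAt D x (bet D.charpoly m t i) := by
  subst hm
  refine ⟨basisOfTopLeSpanOfCardEqFinrank (fun i => evalAt D x (bet D.charpoly (finrank F V) t i)) ?_ (Fintype.card_fin _),
    fun i => congrFun (coe_basisOfTopLeSpanOfCardEqFinrank ..) i⟩
  rw [← h, Kr_eq, map_le_iff_le_comap]
  refine SLn.dlt_le_of_lead (a := bet D.charpoly (finrank F V) t) (fun i hi => ?_) fun i hi => subset_span ⟨⟨i, hi⟩, rfl⟩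
  rw [← D.charpoly_natDegree] at hi ⊢
  exact bet_lead D.charpoly_monic hi.le

omit [FiniteDimensional F V] in
theorem apply_evalAt (D : End F V) (x : V) (p : F[X]) : D (evalAt D x p) = evalAt D x (X * p) := by
  simp [evalAt_apply]

theorem evalAt_last (D : End F V) (x : V) {m t : ℕ} (h : t ≤ m) :
    evalAt D x (X * bet D.charpoly (m + 1) t m) = -D.charpoly.coeff 0 • x := by
  rw [bet, if_neg (by omega), add_tsub_cancel_left, Function.iterate_one, eq_sub_of_add_eq (X_mul_divX_add D.charpoly)]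
  simp [evalAt_apply, LinearMap.aeval_self_charpoly]

theorem lead_X_pow (i : ℕ) : SLn.PLead (X ^ i : F[X]) i := by
  simpa [bet] using bet_lead (monic_X_pow (R := F) i) (t := i + 1) (i := i) (by simp)

theorem place {D : End F V} {x : V} {m : ℕ} (hm : finrank F V = m + 1) (h : Kr D x (m + 1) = ⊤) {g : F[X]}
    (hg : g.Monic) (hd : g.natDegree = m + 1) {t : ℕ} (ht : t < m) :
    ∃ E : End F V, E.charpoly = g ∧ (∀ v, E v - D v ∈ Kr D x (t + 1)) ∧ (Function.Injective D →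
      g.coeff 0 = D.charpoly.coeff 0 → g.coeff 0 ≠ 0 → ∀ v, D v ∈ Kr D x (t + 1) → E v = D v) := by
  have := (AdjoinRoot.powerBasis' hg).finite
  have h1 := charpoly_rootMul hg
  have h2 := (finrank_adjoinRoot hg).trans hd
  obtain ⟨b, hb⟩ := exists_basis hm h (t + 1)
  obtain ⟨c, hc⟩ := exists_basis (D := rootMul g) (x := 1) h2 (h2 ▸ Kr_eq_top fun v => by
    obtain ⟨p, rfl⟩ := AdjoinRoot.mk_surjective v
    exact ⟨p, by simp [evalAt_apply, rootMul, aeval_mulLeft]⟩) (t + 1)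
  rw [h1] at hc
  let T := c.equiv b (Equiv.refl _)
  have h3 : ∀ p ∈ degreeLT F (t + 1), T (evalAt (rootMul g) 1 p) = evalAt D x p := fun p hp => by
    refine (SLn.dlt_le_of_lead (S := LinearMap.eqLocus (T.toLinearMap ∘ₗ evalAt (rootMul g) 1)
      (evalAt D x)) (fun i _ => lead_X_pow i) fun i hi => ?_) hp
    have := c.equiv_apply ⟨i, by omega⟩ b (Equiv.refl _)
    rwa [hc, Equiv.refl_apply, hb, bet, bet, if_pos hi, if_pos hi] at this
  have h5 : ∀ i : Fin (m + 1), T.conj (rootMul g) (b i) =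
      T (evalAt (rootMul g) 1 (X * bet g (m + 1) (t + 1) i)) := fun i => by
    rw [← apply_evalAt, ← hc, LinearEquiv.conj_apply_apply, ← show T (c i) = b i from c.equiv_apply i b _,
      LinearEquiv.symm_apply_apply]
  have h7 : T 1 = x := by simpa [evalAt_apply] using h3 1 (SLn.mem_dlt.2 fun i hi => by rw [coeff_one, if_neg (by omega)])
  have h8 : T.conj (rootMul g) (b (Fin.last m)) = -g.coeff 0 • x := by
    have := evalAt_last (rootMul g) 1 (show t + 1 ≤ m from ht)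
    rw [h1] at this
    rw [h5, Fin.val_last, this, map_smul, h7]
  have h9 : D (b (Fin.last m)) = -D.charpoly.coeff 0 • x := by rw [hb, apply_evalAt, Fin.val_last, evalAt_last _ _ ht]
  refine ⟨T.conj (rootMul g), by rw [LinearEquiv.charpoly_conj, h1], fun v => ?_, fun a1 a2 a3 v hv => ?_⟩
  · refine (show ⊤ ≤ (Kr D x (t + 1)).comap (T.conj (rootMul g) - D) from ?_) (mem_top (x := v))
    rw [← b.span_eq, span_le]
    rintro _ ⟨i, rfl⟩
    rw [SetLike.mem_coe, mem_comap, LinearMap.sub_apply]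
    by_cases hi : i.1 = m
    · rw [show i = Fin.last m from Fin.ext hi, h8, h9, ← sub_smul]
      exact mem_sup_left (smul_mem _ _ (mem_span_singleton_self x))
    · have a1 := bet_succ hg (t := t) (i := i) (i.2.trans_eq hd.symm)
      have a2 := bet_succ D.charpoly_monic (t := t) (i := i) (by rw [D.charpoly_natDegree, hm]; exact i.2)
      rw [hd] at a1
      rw [D.charpoly_natDegree, hm] at a2
      have a3 := c.equiv_apply ⟨i + 1, by omega⟩ b (Equiv.refl _)
      rw [hc, Equiv.refl_apply, hb] at a3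
      rw [h5, hb, apply_evalAt, ← sub_add_cancel (X * bet g _ _ _) (bet g (m + 1) (t + 1) (i + 1)), map_add, map_add,
        h3 _ a1, a3, ← map_add, ← map_sub, Kr_eq]
      exact mem_map_of_mem (by convert sub_mem a1 a2 using 1; ring)
  · have a4 : Kr D x (t + 1) ≤ (LinearMap.eqLocus (T.conj (rootMul g)) D).map D := by
      refine sup_le ((span_singleton_le_iff_mem _ _).2 ⟨-(g.coeff 0)⁻¹ • b (Fin.last m), smul_mem _ _ ?_, ?_⟩) (map_mono ?_)
      · exact h8.trans (by rw [h9, a2])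
      · rw [map_smul, h9, ← a2, smul_smul, neg_mul_neg, inv_mul_cancel₀ a3, one_smul]
      · rw [Kr_eq, map_le_iff_le_comap]
        refine SLn.dlt_le_of_lead (fun i _ => lead_X_pow i) fun i hi => ?_
        have a5 := hb ⟨i, by omega⟩
        have a6 := h5 ⟨i, by omega⟩
        rw [bet, if_pos (by simp only; omega)] at a5 a6
        change T.conj (rootMul g) (evalAt D x _) = D (evalAt D x _)
        rw [apply_evalAt, ← h3 (X * _) (SLn.mem_dlt.2 fun j hj => by rw [← pow_succ', coeff_X_pow, if_neg (by omega)]),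
          ← a6, a5]
    obtain ⟨w, hw, e⟩ := a4 hv
    exact a1 e ▸ hw

theorem two_mul_prod {Q : ℕ} (hQ : 3 ≤ Q) (m : ℕ) :
    Q ^ (m * m) * (Q ^ m + 1) ≤ 2 * Q ^ m * ∏ i : Fin m, (Q ^ m - Q ^ i.1) := by
  induction m with
  | zero => simp
  | succ m ih =>
    have h1 : ∏ i : Fin m, (Q ^ (m + 1) - Q ^ (i.succ : Fin (m + 1)).1) = Q ^ m * ∏ i : Fin m, (Q ^ m - Q ^ i.1) := by
      simp [pow_succ', ← Nat.mul_sub, Finset.prod_mul_distrib]
    rw [Fin.prod_univ_succ, h1, Fin.val_zero, pow_zero]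
    obtain ⟨a, ha⟩ : ∃ a, Q ^ (m + 1) = a + 1 := ⟨Q ^ (m + 1) - 1, by have := Nat.pow_pos (n := m + 1) (show 0 < Q by omega); omega⟩
    have h2 : Q ^ m * (a + 1 + 1) ≤ a * (Q ^ m + 1) := by
      have := Nat.pow_pos (n := m) (show 0 < Q by omega)
      rw [pow_succ] at ha
      nlinarith
    rw [show (m + 1) * (m + 1) = m * m + m + (m + 1) by ring, pow_add, pow_add, ha, add_tsub_cancel_right]
    calc _ = (a + 1) * Q ^ (m * m) * (Q ^ m * (a + 1 + 1)) := by ring
      _ ≤ (a + 1) * Q ^ (m * m) * (a * (Q ^ m + 1)) := Nat.mul_le_mul_left _ h2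
      _ = (a + 1) * a * (Q ^ (m * m) * (Q ^ m + 1)) := by ring
      _ ≤ (a + 1) * a * _ := Nat.mul_le_mul_left _ ih
      _ = _ := by ring

variable [Fintype F]

theorem exists_two (h3 : 3 ≤ Fintype.card F) {P : End F V} (hP : Function.Injective P) :
    ∃ D x, Kr D x (finrank F V) = ⊤ ∧ Kr (P * D) (P x) (finrank F V) = ⊤ := by
  have := Module.finite_of_finite F (M := V)
  have := Module.finite_of_finite F (M := End F V)
  rcases hm : finrank F V with _ | m
  · have := finrank_zero_iff.1 hm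
    exact ⟨0, 0, Subsingleton.elim _ _, Subsingleton.elim _ _⟩
  let S : Set (End F V × V) := {z | Kr z.1 z.2 (m + 1) = ⊤}
  let Φ : End F V × V → End F V × V := fun z => (P * z.1, P z.2)
  have h1 : Function.Injective Φ := fun z w e =>
    Prod.ext (LinearMap.ext fun v => hP (LinearMap.congr_fun (congrArg Prod.fst e) v)) (hP (congrArg Prod.snd e))
  by_contra h0
  have h2 := Set.ncard_union_eq (s := S) (t := Φ ⁻¹' S) (Set.disjoint_left.2 fun z a b => h0 ⟨z.1, z.2, a, b⟩)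
  have h4 := Set.ncard_le_card (S ∪ Φ ⁻¹' S)
  rw [h2, Set.ncard_preimage_of_injective_subset_range h1 (by rw [(Finite.surjective_of_injective h1).range_eq]; simp),
    Nat.card_prod, natCard_eq_pow_finrank (K := F), natCard_eq_pow_finrank (K := F) (V := V), finrank_linearMap, hm,
    Nat.card_eq_fintype_card] at h4
  let b : {s : Fin (m + 1) → V // LinearIndependent F s} → Basis (Fin (m + 1)) F V := fun s =>
    basisOfLinearIndependentOfCardEqFinrank s.2 (by simp [hm])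
  have hb : ∀ s i, b s i = s.1 i := fun s i => by simp [b]
  let Ψ : {s : Fin (m + 1) → V // LinearIndependent F s} × V → End F V × V := fun z =>
    ((b z.1).constr F (Fin.snoc (α := fun _ => V) (Fin.tail z.1.1) z.2), z.1.1 0)
  have h5 : ∀ z (i : Fin (m + 1)), ((Ψ z).1 ^ i.1) (Ψ z).2 = z.1.1 i := fun z i => by
    induction i using Fin.induction with
    | zero => rfl
    | succ i ih =>
      rw [Fin.val_succ, pow_succ', End.mul_apply, ← Fin.val_castSucc, ih, ← hb, Basis.constr_basis, Fin.snoc_castSucc]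
      rfl
  have h6 := Nat.card_le_card_of_injective (β := S) (fun z => ⟨Ψ z, eq_top_iff.2 (by
      rw [← (b z.1).span_eq, span_le, Kr_eq]
      rintro _ ⟨i, rfl⟩
      exact ⟨X ^ i.1, SLn.dlt_mono i.2 (lead_X_pow i.1).1, by simp [evalAt_apply, h5, hb]⟩)⟩) fun z w e => by
    have e : Ψ z = Ψ w := congrArg Subtype.val e
    have e1 : z.1 = w.1 := Subtype.ext (funext fun i => by rw [← h5, e, h5])
    have e2 := LinearMap.congr_fun (congrArg Prod.fst e) (b z.1 (Fin.last m))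
    simp only [Ψ, ← e1, Basis.constr_basis, Fin.snoc_last] at e2
    exact Prod.ext e1 e2
  rw [Nat.card_prod, card_linearIndependent hm.ge, natCard_eq_pow_finrank (K := F) (V := V), hm, Nat.card_coe_set_eq,
    Nat.card_eq_fintype_card] at h6
  have := two_mul_prod h3 (m + 1)
  have := Nat.pow_pos (n := (m + 1) * (m + 1)) (show 0 < Fintype.card F by omega)
  nlinarith

omit [FiniteDimensional F V] [Fintype F] in
theorem exists_eigen {N : End F V} {Y : Submodule F V} (hY : ∀ y ∈ Y, N y ∈ Y) (k : ℕ) :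
    ∀ y ∈ Y, y ≠ 0 → (N ^ k) y = 0 → ∃ e ∈ Y, e ≠ 0 ∧ N e = 0 := by
  induction k with
  | zero => exact fun y _ h e => absurd e h
  | succ k ih => exact fun y hy h e => (em (N y = 0)).elim (fun h1 => ⟨y, hy, h, h1⟩) fun h1 => ih _ (hY y hy) h1 (by rwa [pow_succ] at e)

theorem exists_good (h3 : 3 ≤ Fintype.card F) {l : F} (hl : l ≠ 0) (k m : ℕ) :
    ∀ {V : Type u} [AddCommGroup V] [Module F V] [FiniteDimensional F V] (P : End F V) (Y : Submodule F V),
      finrank F V = m → Function.Surjective P → (∀ y ∈ Y, P y ∈ Y) → (∀ y ∈ Y, ((P - l • 1) ^ k) y = 0) →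
      ∃ D x t, Kr D x m = ⊤ ∧ Kr (P * D) (P x) m = ⊤ ∧ Kr D x t = Y ∧ Kr (P * D) (P x) t = Y := by
  induction m using Nat.strong_induction_on with
  | _ m ih =>
  intro V _ _ _ P Y hm hP h1 h2
  by_cases h0 : Y = ⊥
  · obtain ⟨D, x, a, b⟩ := exists_two h3 (LinearMap.injective_iff_surjective.2 hP)
    exact ⟨D, x, 0, hm ▸ a, hm ▸ b, h0.symm, h0.symm⟩
  obtain ⟨y, hy, h4⟩ := (Submodule.ne_bot_iff Y).1 h0
  obtain ⟨e, he, h5, h6⟩ := exists_eigen (N := P - l • 1) (fun y hy => sub_mem (h1 y hy) (smul_mem _ _ hy)) k y hy h4 (h2 y hy)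
  have h7 : P e = l • e := sub_eq_zero.1 h6
  let E := (F ∙ e).mapQ (F ∙ e) P ((span_singleton_le_iff_mem _ _).2 (by
    rw [mem_comap, h7]; exact smul_mem _ _ (mem_span_singleton_self e)))
  have h8 : ∀ v, (F ∙ e).mkQ (P v) = E ((F ∙ e).mkQ v) := fun _ => rfl
  have h9 := (F ∙ e).finrank_quotient_add_finrank
  rw [finrank_span_singleton h5, hm] at h9
  obtain ⟨D, x, t, a1, a2, a3, a4⟩ := ih _ (by omega) E (Y.map (F ∙ e).mkQ) rfl (fun v => by
      obtain ⟨v, rfl⟩ := (F ∙ e).mkQ_surjective v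
      obtain ⟨v, rfl⟩ := hP v
      exact ⟨_, (h8 v).symm⟩) (by rintro _ ⟨v, hv, rfl⟩; exact ⟨_, h1 v hv, rfl⟩) (by
      rintro _ ⟨v, hv, rfl⟩
      rw [← map_pow_of_comm (N := P - l • 1) (fun v => by simpa using h8 v), h2 v hv, map_zero])
  obtain ⟨ψ, hψ⟩ := Projective.exists_dual_eq_one F h5
  obtain ⟨C, hC⟩ := projective_lifting_property (F ∙ e).mkQ (D ∘ₗ (F ∙ e).mkQ + ψ.smulRight x) (F ∙ e).mkQ_surjective
  have b1 := Kr_lift (F ∙ e).mkQ_surjective (ker_mkQ _) hψ (D := C) (E := D) (x := x) (LinearMap.congr_fun hC)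
  have b2 := Kr_lift (F ∙ e).mkQ_surjective (ker_mkQ _) hψ (D := P * C) (E := E * D) (x := E x) fun v => by
    rw [End.mul_apply, h8, show (F ∙ e).mkQ (C v) = _ from LinearMap.congr_fun hC v]
    simp
  have b3 := Kr_congr (D := P * C) (D' := P * C) (x := e) (x' := P e) (by rw [h7, span_singleton_smul_eq hl.isUnit])
    (by simp)
  have b4 : (Y.map (F ∙ e).mkQ).comap (F ∙ e).mkQ = Y := by
    rw [comap_map_eq, ker_mkQ, sup_eq_left, span_singleton_le_iff_mem]; exact he
  exact ⟨C, e, t + 1, by rw [← h9, b1, a1, comap_top], by rw [← h9, b3, b2, a2, comap_top], by rw [b1, a3, b4],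
    by rw [b3, b2, a4, b4]⟩

theorem gen (h3 : 3 ≤ Fintype.card F) {l : F} (hl : l ≠ 0) {k : ℕ} {P : End F V} {Y : Submodule F V}
    (hP : Function.Surjective P) (h1 : ∀ y ∈ Y, P y ∈ Y) (h2 : ∀ y ∈ Y, ((P - l • 1) ^ k) y = 0) (h4 : Y ≠ ⊥)
    (h5 : Y ≠ ⊤) {S T : Multiset (Kc F)} (hS : S.map (· ^ Fintype.card F) = S) (hT : T.map (· ^ Fintype.card F) = T)
    (c1 : S.card = finrank F V) (c2 : T.card = finrank F V) (h0 : 0 ∉ T)
    (hd : S.prod = algebraMap F _ (LinearMap.det P) * T.prod) :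
    ∃ π D : End F V, (∀ v, π v ∈ Y) ∧ (∀ y ∈ Y, π y = 0) ∧ ev D = T ∧ ev ((P + π) * D) = S := by
  obtain ⟨f, f1, f2, f3, f4⟩ := exists_poly' hS
  obtain ⟨g, g1, g2, g3, g4⟩ := exists_poly' hT
  obtain ⟨C, x, t, a1, a2, a3, a4⟩ := exists_good h3 hl k _ P Y rfl hP h1 h2
  obtain _ | t := t
  · exact absurd a3.symm h4
  have b1 : t + 1 < finrank F V := not_le.1 fun h => h5 (eq_top_iff.2 (a1.ge.trans (a3 ▸ Kr_mono C x h)))
  obtain ⟨m, hm⟩ : ∃ m, finrank F V = m + 1 := ⟨finrank F V - 1, by omega⟩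
  rw [hm] at a1 a2
  obtain ⟨D, d1, d2, -⟩ := place hm a1 g1 (by omega) (t := 0) (by omega)
  have b2 := Kr_congr (D := P * C) (D' := P * D) (x := P x) rfl fun v => by
    obtain ⟨c, hc⟩ := mem_span_singleton.1 (show D v - C v ∈ F ∙ x by simpa [Kr] using d2 v)
    rw [End.mul_apply, End.mul_apply, ← map_sub, ← hc, map_smul]
    exact smul_mem _ _ (mem_span_singleton_self _)
  have b3 : ev D = T := by rw [ev, d1, g2]
  have b4 : IsUnit D := (LinearMap.isUnit_iff_isUnit_det _).2 (Ne.isUnit fun e =>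
    Multiset.prod_ne_zero h0 (by rw [← b3, ← det_eq_prod_ev, e, map_zero]))
  obtain ⟨A, e1, e2, e3⟩ := place hm ((b2 _).trans a2) f1 (by omega) (t := t) (by omega)
  have b5 : algebraMap F (Kc F) ((P * D).charpoly.coeff 0) = algebraMap F _ (f.coeff 0) := by
    have := LinearMap.det_eq_sign_charpoly_coeff (P * D)
    rw [f4, hd, ← b3, ← det_eq_prod_ev, ← map_mul, ← map_mul, this, c1, map_mul, ← mul_assoc, map_pow, ← mul_pow]
    simp
  have b6 := LinearMap.injective_iff_surjective.2 hP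
  rw [b2, a4] at e2 e3
  obtain ⟨D, rfl⟩ := b4
  refine ⟨(A - P * D) * ↑D⁻¹, D, fun v => e2 _, fun y hy => sub_eq_zero.2 (e3 (b6.comp ((End.isUnit_iff _).1 D.isUnit).1)
    ((algebraMap F (Kc F)).injective b5).symm (fun e => ?_) _ ?_), b3, ?_⟩
  · rw [e, map_zero, eq_comm, hd, mul_eq_zero, mul_eq_zero, map_eq_zero] at f4
    exact f4.elim (by simp) fun h => h.elim ((LinearMap.isUnit_iff_isUnit_det _).1
      ((End.isUnit_iff _).2 ⟨b6, hP⟩)).ne_zero (Multiset.prod_ne_zero h0)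
  · rw [← End.mul_apply, mul_assoc, Units.mul_inv, mul_one]
    exact h1 y hy
  · rw [add_mul, Units.inv_mul_cancel_right, add_sub_cancel, ev, e1, f2]

omit [Fintype F] in
theorem ev_conj' {S D : End F V} (hS : IsUnit S) {E : End F V} (h : S * D = E * S) : ev D = ev E :=
  ev_eq_of_comm (LinearEquiv.ofBijective S ((End.isUnit_iff _).1 hS)) (LinearMap.congr_fun h)

/-- not primary -/
def NP (P : End F V) : Prop := ∃ l : F, algebraMap F _ l ∈ ev P ∧ ∃ b ∈ ev P, b ≠ algebraMap F _ l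

theorem NP.exists (h3 : 3 ≤ Fintype.card F) {P : End F V} (h : NP P) (hP : LinearMap.det P ≠ 0)
    {S T : Multiset (Kc F)} (hS : S.map (· ^ Fintype.card F) = S) (hT : T.map (· ^ Fintype.card F) = T)
    (c1 : S.card = finrank F V) (c2 : T.card = finrank F V) (h0 : 0 ∉ T)
    (hd : S.prod = algebraMap F _ (LinearMap.det P) * T.prod) : ∃ D : End F V, ev D = T ∧ ev (P * D) = S := by
  obtain ⟨l, h1, b, hb, h2⟩ := h
  have h4 := (End.isUnit_iff _).1 ((LinearMap.isUnit_iff_isUnit_det _).2 hP.isUnit)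
  let N := (P - l • 1) ^ finrank F V
  have h5 : Commute P N := (((Commute.refl P).sub_right ((Commute.one_right P).smul_right l)).pow_right _)
  obtain ⟨e, h6, h7⟩ := algebraMap_mem_ev_iff.1 h1
  have := nontrivial_of_ne e 0 h6
  obtain ⟨π, D, a1, a2, a3, a4⟩ := gen h3 (l := l) (fun e => ne_zero_of_mem_ev hP h1 (by simp [e])) (k := finrank F V)
    (Y := LinearMap.ker N) h4.2 (fun y hy => by
      rw [LinearMap.mem_ker, ← End.mul_apply, ← h5.eq, End.mul_apply, show N y = 0 from hy, map_zero]) (fun y hy => hy)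
    ((Submodule.ne_bot_iff _).2 ⟨e, End.pow_map_zero_of_le finrank_pos (by simp [h7]), h6⟩) (fun e => by
      have := aeval_eq_zero_of_mem_ev (P := (X - C l) ^ finrank F V) (by
        simpa [Algebra.algebraMap_eq_smul_one] using LinearMap.ker_eq_top.1 e) hb
      simp [sub_eq_zero, h2] at this) hS hT c1 c2 h0 hd
  let H : Submodule F (End F V) :=
    { carrier := {s | (∀ v, N (s v) = 0) ∧ ∀ y, N y = 0 → s y = 0}
      add_mem' := fun a b => ⟨fun v => by simp [a.1, b.1], fun y hy => by simp [a.2 y hy, b.2 y hy]⟩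
      zero_mem' := by simp
      smul_mem' := fun c s a => ⟨fun v => by simp [a.1], fun y hy => by simp [a.2 y hy]⟩ }
  have h8 : ∀ v, N (P v) = P (N v) := fun v => (LinearMap.congr_fun h5.eq v).symm
  let Θ : H →ₗ[F] H := (LinearMap.mulLeft F P - LinearMap.mulRight F P).restrict fun s hs =>
    ⟨fun v => by simp [h8, hs.1], fun y hy => by simp [hs.2 y hy, hs.2 (P y) (by rw [h8, hy, map_zero])]⟩
  obtain ⟨⟨s, s1, s2⟩, hs⟩ := LinearMap.injective_iff_surjective.1 ((injective_iff_map_eq_zero Θ).2 fun s hs => by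
    have b1 : Commute N s.1 := (((show Commute P s.1 from sub_eq_zero.1 (congrArg Subtype.val hs)).sub_left
      ((Commute.one_left _).smul_left l)).pow_left _)
    refine Subtype.ext (LinearMap.ext fun v => ?_)
    have b2 := (LinearMap.isCompl_iSup_ker_pow_iInf_range_pow (P - l • 1)).sup_eq_top.ge (mem_top (x := v))
    obtain ⟨y, hy, z, hz, rfl⟩ := mem_sup.1 b2
    obtain ⟨w, rfl⟩ := (mem_iInf _).1 hz (finrank F V)
    rw [map_add, s.2.2 y ((iSup_le fun n => End.ker_pow_le_ker_pow_finrank (P - l • 1) n) hy),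
      show s.1 (N w) = N (s.1 w) from (LinearMap.congr_fun b1.eq w).symm, s.2.1]
    simp) ⟨π, a1, a2⟩
  have b1 : s * s = 0 := LinearMap.ext fun v => s2 _ (s1 v)
  have b2 : s * π = 0 := LinearMap.ext fun v => s2 _ (a1 v)
  have b3 : P * s - s * P = π := congrArg Subtype.val hs
  have b4 : IsUnit (1 + s) := IsNilpotent.isUnit_one_add ⟨2, by rw [sq, b1]⟩
  have b5 : (1 + s) * (1 - s) = 1 := by rw [add_mul, mul_sub, mul_sub, b1]; simp
  have b6 : (1 - s) * (1 + s) = 1 := mul_eq_one_comm.1 b5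
  refine ⟨(1 + s) * D * (1 - s), a3 ▸ (ev_conj' b4 (by rw [mul_assoc, b6, mul_one])).symm, a4 ▸ (ev_conj' b4 ?_).symm⟩
  rw [mul_assoc, mul_assoc, b6, mul_one, ← mul_assoc, ← mul_assoc, add_mul 1, mul_add s, b2, ← b3, mul_add P]
  congr 1
  simp [add_assoc]

theorem exists_transv (h3 : 3 ≤ Fintype.card F) {l : F} (hl : l ≠ 0) {w : V} {ψ : V →ₗ[F] F} (h1 : w ≠ 0) (h2 : ψ ≠ 0)
    (h4 : ψ w = 0) {S T : Multiset (Kc F)} (hS : S.map (· ^ Fintype.card F) = S) (hT : T.map (· ^ Fintype.card F) = T)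
    (c1 : S.card = finrank F V) (c2 : T.card = finrank F V) (h0 : 0 ∉ T)
    (hd : S.prod = algebraMap F _ (l ^ finrank F V) * T.prod) (h5 : T.map (algebraMap F _ l * ·) ≠ S) :
    ∃ D : End F V, ev D = T ∧ ev ((l • 1 + ψ.smulRight w) * D) = S := by
  obtain ⟨π, D, a1, a2, a3, a4⟩ := gen h3 hl (k := 1) (P := l • 1) (Y := F ∙ w)
    (fun v => ⟨l⁻¹ • v, by simp [smul_smul, hl]⟩) (fun y hy => smul_mem _ _ hy) (by simp) (by simpa)
    (fun e => h2 (LinearMap.ext fun v => by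
      obtain ⟨c, rfl⟩ := mem_span_singleton.1 (e.ge (mem_top (x := v)))
      simp [h4])) hS hT c1 c2 h0 (by rwa [LinearMap.det_smul, map_one, mul_one])
  obtain ⟨χ, hχ⟩ := Projective.exists_dual_eq_one F h1
  have b1 : ∀ v, π v = χ (π v) • w := fun v => by
    obtain ⟨c, hc⟩ := mem_span_singleton.1 (a1 v)
    simp [← hc, hχ]
  obtain ⟨u, u1, u2⟩ : ∃ u, χ (π u) ≠ 0 ∧ ψ u ≠ 0 := by
    obtain ⟨u, hu⟩ := DFunLike.ne_iff.1 h2
    obtain ⟨v, hv⟩ := DFunLike.ne_iff.1 (show π ≠ 0 by rintro rfl; exact h5 (by simpa [ev_smul, a3] using a4))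
    have hv : χ (π v) ≠ 0 := fun e => hv (by rw [b1, e, zero_smul]; rfl)
    by_cases e1 : χ (π u) = 0
    · by_cases e2 : ψ v = 0
      · exact ⟨u + v, by simpa [e1], by simpa [e2]⟩
      · exact ⟨v, hv, e2⟩
    · exact ⟨u, e1, hu⟩
  have b2 : π w = 0 := a2 w (mem_span_singleton_self w)
  obtain ⟨U, hU⟩ : IsUnit (LinearMap.transvection (χ ∘ₗ π - ψ) ((ψ u)⁻¹ • u)) :=
    (LinearMap.isUnit_iff_isUnit_det _).2 (Ne.isUnit (by simp [LinearMap.transvection.det, mul_sub, u1, u2]))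
  refine ⟨U * D * ↑U⁻¹, a3 ▸ (ev_conj' U.isUnit (by simp)).symm, a4 ▸ (ev_conj' U.isUnit ?_).symm⟩
  rw [mul_assoc, Units.inv_mul_cancel_right, ← mul_assoc, ← mul_assoc, hU]
  congr 1
  ext v
  rw [End.mul_apply, LinearMap.add_apply, b1, map_add, map_smul]
  simp [LinearMap.transvection.apply, b2, h4, u2]

end Cfsg.Agent.Forms.Lev
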