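import Cfsg.Agent.Lib.Forms.OSpec2

/-! The maximal element orders of `Ω₉(q)`. -/

set_option autoImplicit false

namespace Cfsg.Agent.Forms.O9

def Ty (p s : ℕ) (σ : ℤ) (K : ℕ) : Prop :=
  (K = 0 ∧ s = 4 ∧ σ = -1) ∨ ∃ m L, s + m + 1 = 4 ∧ K = L + 1 ∧ p ^ L = 2 * m + 1

/-- the list of maximal orders -/
def Num (p q M : ℕ) : Prop := ∃ K, (Ty p 0 1 K ∧ M ∣ p ^ K) ∨
  (∃ k ε, 0 < k ∧ Ty p k (sgnB ε) K ∧ M ∣ p ^ K * (tq q k ε / 2)) ∨
  ∃ k ε k' ε', 0 < k ∧ 0 < k' ∧ Ty p (k + k') (sgnB ε * sgnB ε') K ∧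
    M ∣ p ^ K * (tq q k ε).lcm (tq q k' ε')

theorem num_of_odat {p q M : ℕ} (hp : p.Prime) (hp2 : Odd p) (hq : Odd q) (h : ODat p q 9 M) :
    Num p q M := by
  obtain ⟨a, b, r, k, e, ε, K, h1, h3, h4, ⟨c, h5⟩, h6, h7, h8⟩ := h
  have q0 := hq.pos
  have t2 : ∀ k ε, 2 ∣ tq q k ε := fun k ε => by
    obtain ⟨c, hc⟩ := hq.pow (n := k)
    cases ε <;> simp <;> omega
  have t12 : ∀ ε, tq q 1 ε ∣ tq q 2 false := fun ε => tq_dvd q 1 ε
  have t13 : ∀ ε, tq q 1 ε ∣ tq q 3 ε := fun ε => by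
    cases ε
    · simpa using Nat.sub_one_dvd_pow_sub_one q 3
    · simpa using Odd.nat_add_dvd_pow_add_pow q 1 (n := 3) (by decide)
  have t4 : tq q 4 false / 2 ∣ (tq q 2 true).lcm (tq q 2 false) := by
    obtain ⟨c, hc⟩ := hq.pow (n := 2)
    obtain ⟨d, hd⟩ := hq
    have e1 : tq q 4 false / 2 = (c + 1) * (2 * c) := by
      rw [tq_false, show q ^ 4 = (q ^ 2) ^ 2 by ring, hc,
        show (2 * c + 1) ^ 2 = 2 * ((c + 1) * (2 * c)) + 1 by ring]
      omega
    have e2 : c = 2 * (d * d + d) := by rw [hd] at hc; nlinarith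
    rw [e1, tq_true, tq_false, hc]
    refine Nat.Coprime.mul_dvd_of_dvd_of_dvd (Nat.Coprime.mul_right ?_ (by simp))
      (Dvd.dvd.trans ⟨2, by ring⟩ (Nat.dvd_lcm_left _ _)) (Nat.dvd_lcm_right _ _)
    rw [Nat.coprime_two_right]
    exact ⟨_, by rw [e2]⟩
  obtain ⟨ε0, t0⟩ : ∃ ε0, 2 ∣ tq q 1 ε0 / 2 := by
    obtain ⟨c, hc⟩ := hq
    by_cases h : q % 4 = 1
    exacts [⟨false, by simp; omega⟩, ⟨true, by simp; omega⟩]
  have b0 : ∀ i, k i ≤ k i * e i := fun i => Nat.le_mul_of_pos_right _ (h3 i)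
  have b1 : ∀ i, e i ≤ k i * e i := fun i => Nat.le_mul_of_pos_left _ (h1 i)
  have b2 : ∀ i, k i * e i ≤ ∑ i, k i * e i := fun i =>
    Finset.single_le_sum (f := fun i => k i * e i) (fun _ _ => Nat.zero_le _) (Finset.mem_univ i)
  have b3 : ∀ i j, i ≠ j → k i * e i + k j * e j ≤ ∑ i, k i * e i := fun i j h =>
    Finset.add_le_sum (f := fun i => k i * e i) (fun _ _ => Nat.zero_le _) (Finset.mem_univ i)
      (Finset.mem_univ j) h
  have b4 : ∀ i, k i * e i = k i ∨ (2 ≤ e i ∧ 2 * k i ≤ k i * e i) := fun i => by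
    rcases Nat.lt_or_ge 1 (e i) with h | h
    · exact Or.inr ⟨h, by nlinarith⟩
    · exact Or.inl (by rw [le_antisymm h (h3 i), mul_one])
  have b5 : ∑ i, k i * e i ≤ ∑ i, k i → ∀ i, e i = 1 := fun h i => (Nat.mul_eq_left (h1 i).ne').1
    ((Finset.sum_eq_sum_iff_of_le fun i _ => b0 i).1
      (le_antisymm (Finset.sum_le_sum fun i _ => b0 i) h) i (Finset.mem_univ i)).symm
  have one : ∀ i L, ∑ i, k i * e i ≤ k i → b = 0 → K ≤ L → M ∣ p ^ L * (tq q (k i) (ε i) / 2) :=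
    fun i L c1 c2 c3 => (h8 c2 i (fun j => by_contra fun h => by
      have := b3 j i h; have := b0 i; have := b0 j; have := h1 j; omega)
      ((Nat.mul_eq_left (h1 i).ne').1 (by have := b0 i; have := b2 i; omega))).trans
      (Nat.mul_dvd_mul_right (pow_dvd_pow p c3) _)
  have two : ∀ L k1 ε1 k2 ε2, K ≤ L → (∀ i, tq q (k i) (ε i) ∣ tq q k1 ε1 ∨ tq q (k i) (ε i) ∣ tq q k2 ε2) →
      M ∣ p ^ L * (tq q k1 ε1).lcm (tq q k2 ε2) := fun L k1 ε1 k2 ε2 c1 c2 =>
    (h7 _ (fun _ => (t2 _ _).trans (Nat.dvd_lcm_left _ _)) fun i => (c2 i).elim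
      (·.trans (Nat.dvd_lcm_left _ _)) (·.trans (Nat.dvd_lcm_right _ _))).trans
      (Nat.mul_dvd_mul_right (pow_dvd_pow p c1) _)
  have p3 : 3 ≤ p := by have := hp.two_le; obtain ⟨c, hc⟩ := hp2; omega
  by_cases C0 : a ≤ 1 ∧ b ≤ 2 ∧ ∀ i, e i ≤ 1
  · have hK := h6 0 C0.1 C0.2.1 C0.2.2
    refine ⟨0, Or.inr ?_⟩
    by_cases c1 : ∃ i, 4 ≤ k i
    · obtain ⟨i, hi⟩ := c1
      have c2 := b0 i
      have c3 := b2 i
      have := one i 0 (by omega) (by omega) hK
      rw [show k i = 4 by omega] at this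
      cases hε : ε i <;> rw [hε] at this
      · exact Or.inr ⟨2, true, 2, false, two_pos, two_pos, Or.inl ⟨rfl, rfl, rfl⟩,
          this.trans (Nat.mul_dvd_mul_left _ t4)⟩
      · exact Or.inl ⟨4, true, by omega, Or.inl ⟨rfl, rfl, rfl⟩, this⟩
    by_cases c2 : ∃ i, k i = 3
    · obtain ⟨i, hi⟩ := c2
      refine Or.inr ⟨3, ε i, 1, !ε i, by omega, one_pos, Or.inl ⟨rfl, rfl, by cases ε i <;> rfl⟩,
        two 0 _ _ _ _ hK fun j => ?_⟩
      by_cases c3 : j = i
      · exact Or.inl (by rw [c3, hi])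
      rw [show k j = 1 by have := b3 j i c3; have := b0 i; have := b0 j; have := h1 j; omega]
      by_cases c4 : ε j = ε i
      · exact Or.inl (c4 ▸ t13 _)
      · exact Or.inr (by rw [Bool.eq_not_of_ne c4])
    · refine Or.inr ⟨2, true, 2, false, two_pos, two_pos, Or.inl ⟨rfl, rfl, rfl⟩,
        two 0 _ _ _ _ hK fun j => ?_⟩
      have c3 := not_exists.1 c1 j
      have c4 := not_exists.1 c2 j
      have := h1 j
      obtain c5 | c5 : k j = 1 ∨ k j = 2 := by omega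
      · exact Or.inr (c5 ▸ t12 _)
      · rw [c5]; cases ε j <;> simp
  by_cases C1 : a ≤ p ∧ b ≤ p + 1 ∧ ∀ i, e i ≤ p
  · have hK := h6 1 (by simpa using C1.1) (by simpa using C1.2.1) (by simpa using C1.2.2)
    have ty : ∀ σ, Ty p 3 σ 1 := fun σ => Or.inr ⟨0, 0, rfl, rfl, rfl⟩
    have s3 : ∑ i, k i ≤ 3 := by
      by_contra h
      have := Finset.sum_le_sum (s := Finset.univ) fun i _ => b0 i
      exact C0 ⟨by omega, by omega, fun i => (b5 (by omega) i).le⟩
    refine ⟨1, Or.inr ?_⟩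
    by_cases c1 : ∃ i, 3 ≤ k i
    · obtain ⟨i, hi⟩ := c1
      have c2 := b0 i
      have c3 := b2 i
      have c4 : ¬ (a ≤ 1 ∧ b ≤ 2) := fun h => C0 ⟨h.1, h.2, fun j => by
        by_cases c : j = i
        · have := b4 i; have := (Nat.mul_eq_left (h1 i).ne').1 (show k i * e i = k i by omega)
          rw [c]; omega
        · have := b3 j i c; have := b1 j; omega⟩
      have := one i 1 (by omega) (by omega) hK
      rw [show k i = 3 by omega] at this
      exact Or.inl ⟨3, _, by omega, ty _, this⟩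
    have c2 : ∀ i, k i = 1 ∨ k i = 2 := fun i => by
      have := not_exists.1 c1 i; have := h1 i; omega
    by_cases c3 : ∃ i, k i = 2
    · obtain ⟨i, hi⟩ := c3
      by_cases c4 : ∃ j, j ≠ i
      · obtain ⟨j, hj⟩ := c4
        refine Or.inr ⟨2, ε i, 1, ε j, two_pos, one_pos, ty _, two 1 _ _ _ _ hK fun l => ?_⟩
        by_cases c5 : l = i
        · exact Or.inl (by rw [c5, hi])
        by_cases c6 : l = j
        · have := Finset.add_le_sum (f := k) (fun _ _ => Nat.zero_le _) (Finset.mem_univ j)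
            (Finset.mem_univ i) hj
          exact Or.inr (by rw [c6, show k j = 1 by have := h1 j; omega])
        have := Finset.sum_le_sum_of_subset (f := k) (Finset.subset_univ {l, j, i})
        rw [Finset.sum_insert (by simp [c5, c6]), Finset.sum_pair hj] at this
        have := h1 j; have := h1 l; omega
      · exact Or.inr ⟨2, ε i, 1, true, two_pos, one_pos, ty _, two 1 _ _ _ _ hK fun l =>
          Or.inl (by rw [not_not.1 (not_exists.1 c4 l), hi])⟩
    · exact Or.inr ⟨2, false, 1, true, two_pos, one_pos, ty _, two 1 _ _ _ _ hK fun l =>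
        Or.inl ((c2 l).resolve_right (not_exists.1 c3 l) ▸ t12 _)⟩
  have p9 : 9 ≤ p ^ 2 := by nlinarith
  have hK := h6 2 (by omega) (by omega) fun i => by have := b1 i; have := b2 i; omega
  have C2 : p < a ∨ p + 1 < b ∨ ∃ i, p < e i := by
    by_contra h
    push Not at h
    exact C1 h
  refine ⟨2, ?_⟩
  by_cases c1 : p = 3
  · have ty : ∀ σ, Ty p 2 σ 2 := fun σ => Or.inr ⟨1, 1, rfl, rfl, by rw [c1]; rfl⟩
    by_cases c2 : ∃ i, 2 ≤ k i
    · obtain ⟨i, hi⟩ := c2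
      have c3 := b0 i
      have c4 := b2 i
      have c5 : p < a := by
        rcases C2 with h | h | ⟨j, h⟩
        · exact h
        · omega
        · by_cases c : j = i
          · subst c; nlinarith
          · have := b3 j i c; have := b1 j; omega
      have := one i 2 (by omega) (by omega) hK
      rw [show k i = 2 by omega] at this
      exact Or.inr (Or.inl ⟨2, _, two_pos, ty _, this⟩)
    · refine Or.inr (Or.inr ⟨1, true, 1, false, one_pos, one_pos, ty _, two 2 _ _ _ _ hK fun l => ?_⟩)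
      rw [show k l = 1 by have := not_exists.1 c2 l; have := h1 l; omega]
      cases ε l <;> simp
  obtain ⟨d, hd⟩ := hp2
  have C3 : p < a ∨ p + 1 < b := by
    rcases C2 with h | h | ⟨j, h⟩
    exacts [Or.inl h, Or.inr h, by have := b1 j; have := b2 j; omega]
  by_cases c2 : p = 5
  · have ty : ∀ σ, Ty p 1 σ 2 := fun σ => Or.inr ⟨2, 1, rfl, rfl, by rw [c2]; rfl⟩
    rcases r with _ | r
    · exact Or.inr (Or.inl ⟨1, ε0, one_pos, ty _, (h7 _ (fun _ => t0) finZeroElim).trans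
        (Nat.mul_dvd_mul_right (pow_dvd_pow p hK) _)⟩)
    · have c3 := b0 0
      have c4 := b2 0
      have c5 := h1 0
      have := one 0 2 (by omega) (by omega) hK
      rw [show k 0 = 1 by omega] at this
      exact Or.inr (Or.inl ⟨1, _, one_pos, ty _, this⟩)
  · refine Or.inl ⟨Or.inr ⟨3, 1, rfl, rfl, by rw [pow_one]; omega⟩, ?_⟩
    have := h7 1 (by omega) fun i => by have := b0 i; have := b2 i; have := h1 i; omega
    rw [mul_one] at this
    exact this.trans (pow_dvd_pow p hK)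

end Cfsg.Agent.Forms.O9
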