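import Cfsg.Agent.Lib.Forms.SpGauss

/-!
Commutators in finite symplectic groups: elements with a Gauss decomposition.
-/

set_option autoImplicit false

namespace Cfsg.Agent.Forms

open Module Polynomial

/-- being a commutator -/
def CM {G : Type*} [Group G] (g : G) : Prop := ∃ a b : G, g = a * b * a⁻¹ * b⁻¹

theorem CM.map {G H : Type*} [Group G] [Group H] (φ : G →* H) {g : G} (h : CM g) : CM (φ g) := by
  obtain ⟨a, b, rfl⟩ := h
  exact ⟨φ a, φ b, by simp⟩

theorem CM.prod {G H : Type*} [Group G] [Group H] {g : G} {h : H} (h1 : CM g) (h2 : CM h) :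
    CM (g, h) := by
  obtain ⟨a, b, rfl⟩ := h1
  obtain ⟨c, d, rfl⟩ := h2
  exact ⟨(a, c), (b, d), rfl⟩

theorem CM.of_isConj {G : Type*} [Group G] {x y : G} (h : IsConj x⁻¹ y) : CM (x * y) := by
  obtain ⟨c, rfl⟩ := isConj_iff.1 h
  exact ⟨x, c, by group⟩

theorem not_dvd_aux {q m d : ℕ} (hq : 2 ≤ q) (hd : d < m) (h1 : m = 1 → 4 ≤ q)
    (h2 : m = 2 → 3 ≤ q) : ¬ q ^ m - 1 ∣ 1 + q ^ d := fun h => by
  obtain ⟨n, rfl⟩ : ∃ n, m = n + 1 := ⟨m - 1, by omega⟩
  have h3 := Nat.le_of_dvd (by positivity) h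
  have h4 : q ^ d ≤ q ^ n := Nat.pow_le_pow_right (by omega) (by omega)
  rw [pow_succ] at h3
  obtain ⟨r, rfl⟩ : ∃ r, q = r + 2 := ⟨q - 2, by omega⟩
  have h5 : (r + 2) ^ n * (r + 1) ≤ 2 := by rw [mul_add] at h3 ⊢; omega
  rcases n with _ | _ | n
  · have := h1 rfl
    rw [pow_zero] at h5
    omega
  · have := h2 rfl
    rw [zero_add, pow_one] at h5
    nlinarith
  · have : 4 ≤ (r + 2) ^ (n + 1 + 1) :=
      (Nat.pow_le_pow_left (show 2 ≤ r + 2 by omega) 2).trans (Nat.pow_le_pow_right (by omega) (by omega))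
    nlinarith

variable {F : Type*} [Field F] {V W : Type*} [AddCommGroup V] [Module F V]
  [AddCommGroup W] [Module F W] [FiniteDimensional F V]

namespace Form

theorem Nondeg.cm_glue {P : Param F} {f : Form P V} {f' : Form P W} (hf : f.Nondeg)
    (hf' : f'.Nondeg) {φ : W →ₗ[F] V} (hφ : IsIsom f' f φ) {g : f.Isom} {g' : f'.Isom}
    (h1 : ∀ w, φ (g'.1 w) = g.1 (φ w)) {h2} (c1 : CM g')
    (c2 : CM (Isom.restrict g (f.orth (LinearMap.range φ)) h2)) : CM g := by
  convert (c1.prod c2).map (hf.glueHom hf' φ hφ) using 1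
  refine Isom.ext fun v => ?_
  obtain ⟨w, x, hx, rfl⟩ := hf.exists_decomp_range (hφ.comap_nondeg hf') v
  rw [hf.glueHom_apply hf' φ hφ _ w ⟨x, hx⟩, map_add, h1]
  rfl

variable [Fintype F] {f : Form (Param.sp F) V}

theorem GP.exists_mul' (p : ℕ) [Fact p.Prime] [CharP F p] (hf : f.Nondeg) {g : f.Isom} (hg : GP g ⊤)
    {T : Multiset (Kc F)} (hT : T.map (· ^ Fintype.card F) = T) (h0 : 0 ∉ T)
    (h1 : ∀ α ∈ T, α⁻¹ ∉ T) (hc : 2 * T.card = finrank F V) :
    ∃ k x y : f.Isom, Isom.ev k = dbl T ∧ pexp p k = 0 ∧ IsConj k x ∧ IsConj k⁻¹ y ∧ g = x * y := by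
  obtain ⟨r, hm, hr, -, h2⟩ := exists_poly' hT
  have h3 : r.coeff 0 ≠ 0 := fun e => mul_ne_zero (pow_ne_zero _ (neg_ne_zero.2 one_ne_zero))
    (Multiset.prod_ne_zero h0) (by rw [← h2, e, map_zero])
  obtain ⟨k, hk, hk'⟩ := (realz_sp_ss (p := p) (R := dbl T) (fun α hα e => by
    rcases mem_dbl.1 hα with h | h
    · exact h1 α h (e.symm ▸ h)
    · exact h1 _ h (by rwa [inv_inv, ← e])) (map_inv_dbl T) (by
      rw [dbl, Multiset.map_add, hT, Multiset.map_map]
      conv_rhs => rw [← hT, Multiset.map_map]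
      simp [hT])).exists_sp hf (by rw [card_dbl, hc])
  have h4 := aroots_dl hm h3
  obtain ⟨x, y, h5⟩ := hg.exists_mul hf (k := k) hm h3
    ((isCoprime_iff_aeval_ne_zero_of_isAlgClosed _ (Kc F) _ _).2 fun a => by
      by_contra e
      push Not at e
      have e1 : a ∈ r.aroots (Kc F) := mem_aroots.2 ⟨hm.ne_zero, e.1⟩
      have e2 : a ∈ (dl (Param.sp F) r).aroots (Kc F) := mem_aroots.2 ⟨(monic_dl h3).ne_zero, e.2⟩
      rw [h4, hr, Multiset.mem_map] at e2
      obtain ⟨b, hb, rfl⟩ := e2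
      exact h1 b hb (hr ▸ e1)) (by
    rw [← LinearMap.aeval_self_charpoly (k.1 : V →ₗ[F] V)]
    congr 1
    refine map_injective _ (algebraMap F (Kc F)).injective ?_
    rw [charpoly_map_eq, map_eq_prod_aroots (hm.mul (monic_dl h3)),
      aroots_mul (hm.mul (monic_dl h3)).ne_zero, h4, hr]
    exact congrArg (fun R => (Multiset.map _ R).prod) hk.symm)
  exact ⟨k, x, y, hk, hk', h5⟩

theorem GP.cm (hf : f.Nondeg) {g : f.Isom} (hg : GP g ⊤) (h1 : finrank F V = 2 → 4 ≤ Fintype.card F)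
    (h2 : finrank F V = 4 → 3 ≤ Fintype.card F) : CM g := by
  obtain ⟨p, hp⟩ := CharP.exists F
  have := Fact.mk (CharP.char_is_prime F p)
  obtain ⟨m, hm⟩ := hf.sp_even
  obtain ⟨θ, h3, h4, h5⟩ : ∃ θ : Kc F, θ ≠ 0 ∧ θ ^ Fintype.card F ^ m = θ ∧
      ∀ d < m, θ * θ ^ Fintype.card F ^ d ≠ 1 := by
    rcases m.eq_zero_or_pos with rfl | h
    · exact ⟨1, one_ne_zero, one_pow _, by simp⟩
    obtain ⟨θ, h3, h4, -⟩ := exists_primRoot_of_dvd_tq (F := F) (ε := false) h dvd_rfl
    refine ⟨θ, h4, ?_, fun d hd e => not_dvd_aux Fintype.one_lt_card hd (fun e => h1 (by omega))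
      (fun e => h2 (by omega)) ((h3.pow_eq_one_iff_dvd _).1 (by rw [pow_add, pow_one, e]))⟩
    rw [← Nat.sub_add_cancel (Nat.one_le_pow m _ Fintype.card_pos), pow_succ,
      show θ ^ (Fintype.card F ^ m - 1) = 1 from h3.pow_eq_one, one_mul]
  have key : ∀ i j, i ≤ j → j < m → θ ^ Fintype.card F ^ i * θ ^ Fintype.card F ^ j ≠ 1 :=
    fun i j hij hj e => by
      obtain ⟨d, rfl⟩ := Nat.exists_eq_add_of_le hij
      refine h5 d (by omega) ((pow_card_injective (F := F)).iterate i ?_)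
      simp only [pow_iterate, mul_pow, one_pow]
      rw [← e, ← pow_mul, ← pow_add _ d, add_comm d]
  obtain ⟨k, x, y, -, -, h6, h7, rfl⟩ := hg.exists_mul' p hf (T := orb (· ^ Fintype.card F) θ m)
    (map_orb (by simpa [pow_iterate] using h4)) (by simp [mem_orb, pow_iterate, h3])
    (by
      simp only [mem_orb, pow_iterate]
      rintro _ ⟨i, hi, rfl⟩ ⟨j, hj, e⟩
      have e' := (mul_inv_cancel₀ (pow_ne_zero (Fintype.card F ^ i) h3))
      rw [← e] at e'
      rcases le_total i j with h | h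
      · exact key i j h hj e'
      · exact key j i h hi (by rwa [mul_comm])) (by rw [card_orb, hm, two_mul])
  exact CM.of_isConj ((isConj_inv h6).symm.trans h7)

theorem negOne_mul_negOne_mul {P : Param F} {f : Form P V} (g : f.Isom) :
    f.negOne * (f.negOne * g) = g := by rw [← mul_assoc, negOne_mul_self, one_mul]

theorem GP.cm_neg (hf : f.Nondeg) (h2 : (2 : F) ≠ 0) {g : f.Isom} (hg : GP (f.negOne * g) ⊤)
    (h4 : finrank F V % 4 = 0) : CM g := by
  obtain ⟨p, hp⟩ := CharP.exists F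
  have := Fact.mk (CharP.char_is_prime F p)
  obtain ⟨α, hα⟩ := IsAlgClosed.exists_root (X ^ 2 - X - 1 : (Kc F)[X])
    (by rw [show (X ^ 2 - X - 1 : (Kc F)[X]).degree = 2 by compute_degree!]; simp)
  simp only [IsRoot.def, eval_sub, eval_pow, eval_X, eval_one] at hα
  have h2' : (2 : Kc F) ≠ 0 := by
    rw [← map_ofNat (algebraMap F (Kc F))]; exact (_root_.map_ne_zero _).2 h2
  have h5 : ∀ β : Kc F, β = α ∨ β = 1 - α ↔ β ^ 2 - β - 1 = 0 := fun β => by
    rw [← sub_eq_zero, ← sub_eq_zero (a := β), ← mul_eq_zero]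
    exact ⟨fun h => by linear_combination h + hα, fun h => by linear_combination h - hα⟩
  obtain ⟨τ, hτ⟩ : ∃ τ : Kc F →+* Kc F, ∀ β, τ β = β ^ Fintype.card F :=
    ⟨FiniteField.frobeniusAlgHom F (Kc F), fun _ => rfl⟩
  have h6 : α⁻¹ = -(1 - α) := inv_eq_of_mul_eq_one_right (by linear_combination hα)
  have h7 : (1 - α)⁻¹ = -α := inv_eq_of_mul_eq_one_right (by linear_combination hα)
  obtain ⟨k, x, y, h8, h9, h10, h11, h12⟩ := hg.exists_mul' p hf
    (T := (finrank F V / 4) • {α, 1 - α}) (by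
      rw [Multiset.map_nsmul]
      congr 1
      have := congrArg τ hα
      simp only [map_sub, map_pow, map_one, map_zero] at this
      simp only [Multiset.insert_eq_cons, Multiset.map_cons, Multiset.map_singleton, ← hτ, map_sub,
        map_one]
      rcases (h5 _).2 this with h | h <;> rw [h]
      rw [sub_sub_cancel]
      exact Multiset.cons_swap _ _ 0)
    (fun h => by simpa using (h5 0).1 (by simpa using Multiset.mem_of_mem_nsmul h))
    (fun β h h' => by
      have e1 := (h5 β).1 (by simpa using Multiset.mem_of_mem_nsmul h)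
      have e2 := (h5 β⁻¹).1 (by simpa using Multiset.mem_of_mem_nsmul h')
      have e3 : β ≠ 0 := by rintro rfl; simp at e1
      field_simp at e2
      exact mul_ne_zero h2' e3 (by linear_combination -e1 - e2))
    (by simp; omega)
  have h13 : IsConj k (f.negOne * k) := hf.sp_isConj p h9 ((Isom.pexp_scalar_mul p _ _ k).trans h9)
    (((Isom.ev_scalar_mul _ _ k).trans (by
      rw [h8, dbl_nsmul, Multiset.map_nsmul]
      congr 1
      simp only [dbl, Multiset.insert_eq_cons, Multiset.map_cons, Multiset.map_singleton, h6, h7,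
        Multiset.map_add, map_neg, map_one, neg_one_mul, neg_neg]
      rw [add_comm, ← Multiset.insert_eq_cons, ← Multiset.insert_eq_cons, ← Multiset.insert_eq_cons,
        ← Multiset.insert_eq_cons, Multiset.pair_comm α, Multiset.pair_comm (-α)])).symm)
  have h14 : ∀ z : f.Isom, Commute f.negOne z := f.scalar_commute _ _
  rw [← negOne_mul_negOne_mul g, h12, ← mul_assoc, (h14 x).eq, mul_assoc]
  refine CM.of_isConj (((isConj_inv h10).symm.trans (isConj_inv h13)).trans ?_)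
  obtain ⟨c, rfl⟩ := isConj_iff.1 h11
  refine isConj_iff.2 ⟨c, ?_⟩
  rw [mul_inv_rev, inv_eq_of_mul_eq_one_right f.negOne_mul_self, ← (h14 _).eq, ← mul_assoc,
    ← (h14 c).eq]
  simp only [mul_assoc]

end Form

end Cfsg.Agent.Forms
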