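import Cfsg.Agent.Lib.Forms.SpOre1

/-!
Commutators in finite symplectic groups: cyclic pieces and elements inverted by a square root
of `-1`.
-/

set_option autoImplicit false

namespace Cfsg.Agent.Forms

open Module Polynomial

variable {F : Type*} [Field F] {V W : Type*} [AddCommGroup V] [Module F V]
  [AddCommGroup W] [Module F W]

theorem aeval_comm_apply {φ ψ : Module.End F V} (h : Commute φ ψ) (p : F[X]) (x : V) :
    φ (aeval ψ p x) = aeval ψ p (φ x) := LinearMap.congr_fun (commute_aeval h p).eq x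

namespace Form

variable {f : Form (Param.sp F) V}

theorem Isom.B_N' (g : f.Isom) (x y : V) : f.B (Isom.N g x) y = f.B x (Isom.N g⁻¹ y) := by
  rw [Isom.N_apply, Isom.N_apply, B_sub_left, B_sub_right, Isom.B_left]

/-- the self-adjoint operator `2 - g - g⁻¹` -/
def TT (g : f.Isom) : Module.End F V := Isom.N g⁻¹ * Isom.N g

theorem TT_apply (g : f.Isom) (x : V) : TT g x = Isom.N g⁻¹ (Isom.N g x) := rfl

theorem N_inv_apply (g : f.Isom) (x : V) : Isom.N g⁻¹ x = -Isom.N g x - TT g x := by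
  simp only [TT_apply, Isom.N_apply, map_sub, Isom.inv_apply]; abel

theorem N_N_inv (g : f.Isom) (x : V) : Isom.N g (Isom.N g⁻¹ x) = TT g x := by
  simp only [TT_apply, Isom.N_apply, map_sub, Isom.inv_apply, Isom.apply_inv]; abel

theorem commute_N_TT (g : f.Isom) : Commute (Isom.N g) (TT g) :=
  LinearMap.ext fun x => N_N_inv g (Isom.N g x)

theorem B_TT (g : f.Isom) (x y : V) : f.B (TT g x) y = f.B x (TT g y) := by
  rw [← N_N_inv, Isom.B_N', Isom.B_N', inv_inv, N_N_inv]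

theorem B_N_N (g : f.Isom) (x y : V) : f.B (Isom.N g x) (Isom.N g y) = f.B x (TT g y) :=
  Isom.B_N' g x _

theorem B_TT_pow (g : f.Isom) (k : ℕ) (x y : V) : f.B ((TT g ^ k) x) y = f.B x ((TT g ^ k) y) := by
  induction k generalizing x with
  | zero => rfl
  | succ k ih => rw [show (TT g ^ (k + 1)) x = (TT g ^ k) (TT g x) by rw [pow_succ]; rfl, ih, B_TT,
      pow_succ']; rfl

theorem B_aeval_TT (g : f.Isom) (p : F[X]) (x y : V) :
    f.B (aeval (TT g) p x) y = f.B x (aeval (TT g) p y) := by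
  induction p using Polynomial.induction_on' with
  | add p q hp hq => simp [hp, hq]
  | monomial k a => simp [aeval_monomial, B_TT_pow]

theorem B_aeval_TT_self (g : f.Isom) (p : F[X]) (x : V) : f.B (aeval (TT g) p x) x = 0 := by
  induction p using Polynomial.induction_on' with
  | add p q hp hq => simp [hp, hq]
  | monomial k a =>
    suffices f.B ((TT g ^ k) x) x = 0 by simp [aeval_monomial, this]
    obtain ⟨j, rfl | rfl⟩ := k.even_or_odd'
    · rw [two_mul, pow_add, Module.End.mul_apply, B_TT_pow, sp_B_self]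
    · rw [two_mul, add_assoc, pow_add, Module.End.mul_apply, B_TT_pow, pow_succ',
        Module.End.mul_apply, sp_symm, ← B_N_N, sp_B_self, neg_zero]

/-- the span of a vector under `TT g` -/
noncomputable def RR (g : f.Isom) (e : V) : Submodule F V := LinearMap.range (evalAt (TT g) e)

theorem mem_RR_self (g : f.Isom) (e : V) : e ∈ RR g e := ⟨1, by simp [evalAt_apply]⟩

theorem TT_mem_RR (g : f.Isom) (e : V) : ∀ x ∈ RR g e, TT g x ∈ RR g e := by
  rintro _ ⟨p, rfl⟩
  exact ⟨X * p, by simp [evalAt_apply]⟩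

theorem RR_le_orth {g : f.Isom} {e : V} {S : Submodule F V} (hS : ∀ x ∈ S, TT g x ∈ S)
    (h : e ∈ f.orth S) : RR g e ≤ f.orth S := by
  rintro _ ⟨p, rfl⟩ y hy
  rw [evalAt_apply, B_aeval_TT]
  exact h _ (aeval_mem hS p y hy)

theorem RR_le_orth_self (g : f.Isom) (e : V) : RR g e ≤ f.orth (RR g e) :=
  RR_le_orth (TT_mem_RR g e) (mem_orth'.2 (by rintro _ ⟨p, rfl⟩; exact B_aeval_TT_self g p e))

theorem map_N_le_orth {g : f.Isom} {A : Submodule F V} (hT : ∀ x ∈ A, TT g x ∈ A)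
    (h : A ≤ f.orth A) : A.map (Isom.N g) ≤ f.orth (A.map (Isom.N g)) := by
  rintro _ ⟨x, hx, rfl⟩ _ ⟨y, hy, rfl⟩
  rw [B_N_N]
  exact h hx _ (hT y hy)

theorem inv_sup_map {g : f.Isom} {A : Submodule F V} (hT : ∀ x ∈ A, TT g x ∈ A) :
    ∀ x ∈ A ⊔ A.map (Isom.N g), g.1 x ∈ A ⊔ A.map (Isom.N g) := fun x hx => by
  obtain ⟨a, ha, _, ⟨b, hb, rfl⟩, rfl⟩ := Submodule.mem_sup.1 hx
  have : g.1 (a + Isom.N g b) = a - TT g b + Isom.N g (a + b - TT g b) := by
    simp only [TT_apply, Isom.N_apply, map_sub, map_add, Isom.inv_apply, Isom.apply_inv]; abel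
  rw [this]
  exact Submodule.add_mem_sup (sub_mem ha (hT b hb)) ⟨_, sub_mem (add_mem ha hb) (hT b hb), rfl⟩

theorem sup_TT_mem {g : f.Isom} {A C : Submodule F V} (hA : ∀ x ∈ A, TT g x ∈ A)
    (hC : ∀ x ∈ C, TT g x ∈ C) : ∀ x ∈ A ⊔ C, TT g x ∈ A ⊔ C := fun x hx => by
  obtain ⟨a, ha, c, hc, rfl⟩ := Submodule.mem_sup.1 hx
  rw [map_add]
  exact Submodule.add_mem_sup (hA a ha) (hC c hc)

theorem GP.of_gen {g : f.Isom} {A : Submodule F V} (hT : ∀ x ∈ A, TT g x ∈ A) (h : A ≤ f.orth A)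
    (hg : ∀ S : Submodule F V, (∀ x ∈ S, g.1 x ∈ S) → A ≤ S → S = ⊤) : GP g ⊤ :=
  ⟨A, _, h, map_N_le_orth hT h, hg _ (inv_sup_map hT) le_sup_left,
    fun _ hx => Submodule.mem_map_of_mem hx⟩

theorem GP.cyc {g : f.Isom} {e : V}
    (hg : ∀ S : Submodule F V, (∀ x ∈ S, g.1 x ∈ S) → e ∈ S → S = ⊤) :
    GP g ⊤ ∧ GP (f.negOne * g) ⊤ :=
  ⟨GP.of_gen (TT_mem_RR g e) (RR_le_orth_self g e) fun S h1 h2 => hg S h1 (h2 (mem_RR_self g e)),
    GP.of_gen (TT_mem_RR _ e) (RR_le_orth_self _ e) fun S h1 h2 => hg S (fun x hx => by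
      simpa [Isom.mul_apply, negOne_apply] using h1 x hx) (h2 (mem_RR_self _ e))⟩

theorem RR_disjoint (g : f.Isom) (n : ℕ) : ∀ e, (Isom.N g ^ n) e = 0 → ∀ p q : F[X],
    aeval (TT g) p e = Isom.N g (aeval (TT g) q e) → aeval (TT g) p e = 0 := by
  induction n with
  | zero => rintro e (rfl : e = 0) p q -; simp
  | succ n ih =>
    intro e he p q h
    have hc := aeval_comm_apply (commute_N_TT g)
    have h1 : aeval (TT g) p e = TT g (aeval (TT g) p.divX e) + p.coeff 0 • e := by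
      conv_lhs => rw [← X_mul_divX_add p, map_add, map_mul, aeval_X, aeval_C]
      rfl
    by_cases h0 : p.coeff 0 = 0
    · rw [h0, zero_smul, add_zero] at h1
      have h2 := ih (Isom.N g e) (by rw [← he, pow_succ]; rfl) (q + X * p.divX) (-p.divX)
      have h3 : aeval (TT g) (q + X * p.divX) (Isom.N g e) =
          Isom.N g (aeval (TT g) (-p.divX) (Isom.N g e)) := by
        simp only [map_add, map_mul, aeval_X, LinearMap.add_apply, Module.End.mul_apply, map_neg,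
          LinearMap.neg_apply, ← hc, ← h]
        rw [h1, TT_apply, N_inv_apply]
        abel
      have h4 := h3.symm.trans (h2 h3)
      rw [map_neg, LinearMap.neg_apply, map_neg, neg_eq_zero, ← hc] at h4
      rw [h1, TT_apply]
      exact (Isom.fix_inv g).ge h4
    · refine ih e ?_ p q h
      have h2 : p.coeff 0 • e = Isom.N g (aeval (TT g) q e - Isom.N g⁻¹ (aeval (TT g) p.divX e)) := by
        rw [map_sub, N_N_inv, ← h, h1, add_sub_cancel_left]
      have h3 := aeval_comm_apply ((commute_N_TT g).pow_left (n + 1))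
      have h4 : Commute (Isom.N g) (Isom.N g⁻¹) := LinearMap.ext fun x => N_N_inv g x
      rw [← smul_eq_zero_iff_right h0, ← map_smul, h2, ← Module.End.mul_apply, ← pow_succ, map_sub,
        ← Module.End.mul_apply _ (Isom.N g⁻¹), (h4.pow_left _).eq, Module.End.mul_apply, h3, h3, he]
      simp

theorem GP.two [FiniteDimensional F V] (hf : f.Nondeg) {g : f.Isom} {L : ℕ} {e : V}
    (h1 : (Isom.N g ^ (L + 1)) e = 0) (h2 : (Isom.N g ^ L) e ≠ 0) :
    ∃ e', f.B ((Isom.N g ^ L) e) e' = 1 ∧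
      ((∀ S : Submodule F V, (∀ x ∈ S, g.1 x ∈ S) → e ∈ S → e' ∈ S → S = ⊤) → GP g ⊤) := by
  by_cases h : (Isom.N g ^ L) e ∈ RR g e
  · obtain ⟨e', h3, h4⟩ := hf.exists_orth_eq_one (S := (RR g e).map (Isom.N g))
      (x := (Isom.N g ^ L) e) (by
        rintro ⟨_, ⟨q, rfl⟩, hq⟩
        obtain ⟨p, hp⟩ := h
        exact h2 (hp.symm.trans (RR_disjoint g _ e h1 p q (hp.trans hq.symm))))
    have h5 : RR g e' ≤ f.orth ((RR g e).map (Isom.N g)) := RR_le_orth (by
      rintro _ ⟨x, hx, rfl⟩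
      exact ⟨_, TT_mem_RR g e x hx, N_N_inv g _⟩) (mem_orth'.2 h3)
    refine ⟨e', h4, fun hg => ⟨RR g e ⊔ (RR g e').map (Isom.N g⁻¹), (RR g e).map (Isom.N g) ⊔ RR g e',
      le_orth_sup (RR_le_orth_self g e) ?_ ?_, le_orth_sup (map_N_le_orth (TT_mem_RR g e)
        (RR_le_orth_self g e)) (RR_le_orth_self g e') (f.le_orth_comm.1 h5), ?_, fun x hx => ?_⟩⟩
    · refine map_N_le_orth (fun x hx => ?_) (RR_le_orth_self g e')
      rw [TT_apply, inv_inv, N_N_inv]
      exact TT_mem_RR g e' x hx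
    · rintro x hx _ ⟨y, hy, rfl⟩
      rw [← Isom.B_N']
      exact mem_orth'.1 (h5 hy) _ ⟨x, hx, rfl⟩
    · rw [eq_top_iff, ← hg _ (inv_sup_map (sup_TT_mem (TT_mem_RR g e) (TT_mem_RR g e')))
        (Submodule.mem_sup_left (Submodule.mem_sup_left (mem_RR_self g e)))
        (Submodule.mem_sup_left (Submodule.mem_sup_right (mem_RR_self g e'))), Submodule.map_sup]
      refine sup_le (sup_le (le_sup_of_le_left le_sup_left) (le_sup_of_le_right le_sup_right))
        (sup_le (le_sup_of_le_right le_sup_left) ?_)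
      rintro _ ⟨x, hx, rfl⟩
      rw [show Isom.N g x = -Isom.N g⁻¹ x + -TT g x by rw [N_inv_apply]; abel]
      exact Submodule.add_mem_sup (Submodule.mem_sup_right (neg_mem ⟨x, hx, rfl⟩))
        (Submodule.mem_sup_right (neg_mem (TT_mem_RR g e' x hx)))
    · obtain ⟨a, ha, _, ⟨b, hb, rfl⟩, rfl⟩ := Submodule.mem_sup.1 hx
      rw [map_add, N_N_inv]
      exact Submodule.add_mem_sup ⟨a, ha, rfl⟩ (TT_mem_RR g e' b hb)
  · obtain ⟨e', h3, h4⟩ := hf.exists_orth_eq_one h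
    exact ⟨e', h4, fun hg => GP.of_gen (sup_TT_mem (TT_mem_RR g e) (TT_mem_RR g e'))
      (le_orth_sup (RR_le_orth_self g e) (RR_le_orth_self g e')
        (f.le_orth_comm.1 (RR_le_orth (TT_mem_RR g e) (mem_orth'.2 h3)))) fun S h5 h6 =>
      hg S h5 (h6 (Submodule.mem_sup_left (mem_RR_self g e)))
        (h6 (Submodule.mem_sup_right (mem_RR_self g e')))⟩

variable [Fintype F] [FiniteDimensional F V]

theorem Nondeg.isConj_of_sq (hf : f.Nondeg) (h2 : (2 : F) ≠ 0) {J J' : f.Isom}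
    (h : J * J = f.negOne) (h' : J' * J' = f.negOne) : IsConj J J' := by
  obtain ⟨p, hp⟩ := CharP.exists F
  have hpp := CharP.char_is_prime F p
  have := Fact.mk hpp
  have h2' : (2 : Kc F) ≠ 0 := by
    rw [← map_ofNat (algebraMap F (Kc F))]; exact (_root_.map_ne_zero _).2 h2
  have key : ∀ J : f.Isom, J * J = f.negOne → pexp p J = 0 ∧ ∃ T, 0 ∉ T ∧ Isom.ev J = dbl T ∧
      T.map tr2 = Multiset.replicate (finrank F V / 2) 0 := fun J h => by
    obtain ⟨h3, h4⟩ := (Isom.pow_eq_smul_iff p J 2 (-1)).1 fun v => by rw [sq, h]; rfl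
    simp only [map_neg, map_one] at h3
    have h5 : ∀ α ∈ Isom.ev J, α⁻¹ = -α := fun α hα =>
      inv_eq_of_mul_eq_one_right (by linear_combination -h3 α hα)
    obtain ⟨T, hT⟩ := exists_half (hf.ev_map_inv (fun _ => rfl) J) fun α hα e =>
      mul_ne_zero h2' (Isom.ne_zero_of_mem_ev hα) (by linear_combination h5 α hα - e)
    have h6 : ∀ α ∈ T, α ∈ Isom.ev J := fun α hα => hT ▸ Multiset.mem_add.2 (.inl hα)
    refine ⟨by_contra fun e => h2 ?_, T, fun e => Isom.ne_zero_of_mem_ev (h6 0 e) rfl, hT,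
      Multiset.eq_replicate.2 ⟨by rw [← Isom.card_ev J, hT]; simp; omega, fun b hb => ?_⟩⟩
    · simpa using (CharP.cast_eq_zero_iff F p 2).2 ((dvd_pow_self p e).trans h4)
    · obtain ⟨α, hα, rfl⟩ := Multiset.mem_map.1 hb
      rw [tr2, h5 α (h6 α hα), add_neg_cancel]
  obtain ⟨a1, T, a2, a3, a4⟩ := key J h
  obtain ⟨b1, T', b2, b3, b4⟩ := key J' h'
  exact hf.sp_isConj p a1 b1 (by rw [a3, b3, dbl_eq_of_map_tr2 a2 b2 (a4.trans b4.symm)])

theorem Nondeg.cm_of_J (hf : f.Nondeg) (h2 : (2 : F) ≠ 0) {J g : f.Isom}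
    (h : J * J = f.negOne) (h' : J * g = g⁻¹ * J) : CM g := by
  have h3 : J⁻¹ * J⁻¹ = f.negOne := by
    rw [← mul_inv_rev, h, inv_eq_of_mul_eq_one_right f.negOne_mul_self]
  rw [← mul_inv_cancel_left J g]
  refine CM.of_isConj (hf.isConj_of_sq h2 h3 ?_)
  rw [← h3]
  calc J⁻¹ * g * (J⁻¹ * g) = J⁻¹ * J⁻¹ * (J * g) * J⁻¹ * g := by group
    _ = _ := by rw [h']; group

theorem Nondeg.exists_J (hf : f.Nondeg) (h2 : (2 : F) ≠ 0) {g : f.Isom} (φ : Module.End F V)
    (hφ : ∀ v, φ (g.1 v) = g⁻¹.1 (φ v)) (hφ' : ∀ v, φ (φ v) = -v) {e : ℕ} (hN : Isom.N g ^ e = 0)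
    (h : ∀ x, g.1 x = x → ∀ y, f.B (φ x) (φ y) = f.B x y) :
    ∃ J : f.Isom, J * J = f.negOne ∧ J * g = g⁻¹ * J := by
  obtain ⟨p, hp⟩ := CharP.exists F
  have hpp := CharP.char_is_prime F p
  have := Fact.mk hpp
  obtain ⟨m, hm⟩ : Odd (p ^ e) := (hpp.odd_of_ne_two fun e => h2 (by
    have := CharP.cast_eq_zero F p
    rwa [e] at this)).pow
  obtain ⟨c, hc⟩ := hf.exists_adj ((f.B.comp φ).compl₂ φ)
  replace hc : ∀ u v, f.B u (c v) = f.B (φ u) (φ v) := hc
  have h1 : Commute c (g.1 : V →ₗ[F] V) := LinearMap.ext fun v => hf.ext_right fun u => by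
    obtain ⟨u, rfl⟩ := g.1.surjective u
    change f.B _ (c (g.1 v)) = f.B _ (g.1 (c v))
    rw [hc, hφ, hφ, Isom.map_B, Isom.map_B, hc]
  have h3 : ∀ k u v, f.B ((c ^ k) u) v = f.B u ((c ^ k) v) := fun k => by
    induction k with
    | zero => exact fun _ _ => rfl
    | succ k ih =>
      intro u v
      rw [show (c ^ (k + 1)) u = (c ^ k) (c u) by rw [pow_succ]; rfl, ih, sp_symm, hc, ← sp_symm,
        ← hc, pow_succ']
      rfl
  have h4 : Commute (c - 1) (Isom.N g) :=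
    (h1.sub_right (Commute.one_right _)).sub_left (Commute.one_left _)
  have h5 : ∀ k y, ∃ z, ((c - 1) ^ k) y = (Isom.N g ^ k) z := fun k => by
    induction k with
    | zero => exact fun y => ⟨y, rfl⟩
    | succ k ih =>
      intro y
      obtain ⟨w, hw⟩ : (c - 1) y ∈ Isom.res g := by
        rw [← hf.orth_fix, mem_orth']
        intro x hx
        rw [LinearMap.sub_apply, B_sub_right, hc, h x (Isom.mem_fix.1 hx)]
        exact sub_self _
      obtain ⟨z, hz⟩ := ih w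
      refine ⟨z, ?_⟩
      rw [pow_succ, Module.End.mul_apply, ← hw, ← Module.End.mul_apply, (h4.pow_left k).eq,
        Module.End.mul_apply, hz, pow_succ']
      rfl
  have h6 := pow_char_pow_of_nilpotent p (Commute.one_right c) (N := e) (k := e)
    (LinearMap.ext fun y => by obtain ⟨z, hz⟩ := h5 e y; rw [hz, hN]; rfl)
    (Nat.lt_pow_self hpp.one_lt).le
  have h7 : ∀ y, c (φ (c y)) = φ y := fun y => hf.ext_right fun u => by
    rw [hc, hφ', B_neg_right, hc, hφ', B_neg_left, neg_neg]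
  have h8 : ∀ k y, (c ^ k) (φ ((c ^ k) y)) = φ y := fun k => by
    induction k with
    | zero => exact fun _ => rfl
    | succ k ih =>
      intro y
      rw [show (c ^ (k + 1)) y = c ((c ^ k) y) by rw [pow_succ']; rfl, pow_succ,
        Module.End.mul_apply, h7, ih]
  refine ⟨Isom.ofEnd hf (φ * c ^ m) (sp_isIsom fun x y => ?_), Isom.ext fun v => ?_,
    Isom.ext fun v => ?_⟩
  · change f.B (φ _) (φ _) = _
    rw [← hc, h3, ← Module.End.mul_apply, ← Module.End.mul_apply, ← pow_succ, ← pow_add,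
      show m + 1 + m = p ^ e by omega, h6, one_pow]
    rfl
  · exact (congrArg φ (h8 m v)).trans ((hφ' v).trans (f.negOne_apply v).symm)
  · exact (congrArg φ (LinearMap.congr_fun (h1.pow_left m).eq v)).trans (hφ _)

end Form

end Cfsg.Agent.Forms
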