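import Cfsg.Agent.Lib.Forms.SpOre2

/-!
Every element of a finite symplectic group is a commutator, with three exceptions.
-/

set_option autoImplicit false

universe u

namespace Cfsg.Agent.Forms

open Module Polynomial GLn

variable {F : Type*} [Field F] {V : Type u} [AddCommGroup V] [Module F V] [FiniteDimensional F V]

namespace Form

variable {f : Form (Param.sp F) V}

theorem exists_B_ne {g : f.Isom} (hg : ∀ v, g.1 (g.1 v) = v → v = 0) {φ : Module.End F V}
    (hφ : ∀ v, φ (g.1 v) = g.1 (φ v)) {S : Submodule F V} (hS : ∀ x ∈ S, g.1 x ∈ S) {u w : V}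
    (hu : u ∈ S) (hw : w ∈ S) (h : f.B (φ u) w ≠ 0) :
    ∃ v ∈ S, f.B (φ v) v ≠ 0 ∨ f.B (φ v) (g.1 v) ≠ 0 := by
  by_contra h0
  push Not at h0
  have h1 : ∀ x ∈ S, (g.1 : V →ₗ[F] V) (g.1 x) - x ∈ S := fun x hx => sub_mem (hS _ (hS x hx)) hx
  obtain ⟨⟨z, hz⟩, e⟩ := (LinearMap.injective_iff_surjective.1 ((injective_iff_map_eq_zero
    (((g.1 : V →ₗ[F] V) * (g.1 : V →ₗ[F] V) - 1).restrict h1)).2 fun x hx =>
      Subtype.ext (hg _ (sub_eq_zero.1 (congrArg Subtype.val hx))))) ⟨w, hw⟩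
  obtain rfl : g.1 (g.1 z) - z = w := congrArg Subtype.val e
  have h2 := (h0 _ (add_mem hu hz)).1
  have h3 := (h0 _ (add_mem hu (hS z hz))).2
  simp only [map_add, LinearMap.add_apply, (h0 u hu).1, (h0 z hz).1, (h0 u hu).2,
    (h0 _ (hS z hz)).2] at h2 h3
  rw [hφ, Isom.map_B] at h3
  exact h (by rw [B_sub_right]; linear_combination h3 - h2)

theorem Nondeg.exists_cyc_sp [Nontrivial V] (hf : f.Nondeg) {g : f.Isom}
    (hg : ∀ v, g.1 (g.1 v) = v → v = 0) : ∃ v ≠ 0,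
      Disjoint (LinearMap.range (evalAt (g.1 : V →ₗ[F] V) v))
        (f.orth (LinearMap.range (evalAt (g.1 : V →ₗ[F] V) v))) := by
  obtain ⟨⟨r, j⟩, hr⟩ := Multiset.exists_mem_of_ne_zero (s := tp (g.1 : V →ₗ[F] V)) fun e => by
    have := wt_tp (g.1 : V →ₗ[F] V)
    rw [e] at this
    exact finrank_pos.ne this
  obtain ⟨hm, hi, hj⟩ : r.Monic ∧ Irreducible r ∧ 0 < j := valid_tp _ _ hr
  obtain ⟨i, rfl⟩ : ∃ i, j = i + 1 := ⟨j - 1, by omega⟩
  have h0 : r.coeff 0 ≠ 0 := coeff_zero_ne_of_mem_tp g.1 hr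
  obtain ⟨t, hc, ht⟩ : ∃ t : F[X], IsCoprime r t ∧
      ((t = 1 ∧ dl (Param.sp F) r = r) ∨ t = dl (Param.sp F) r) := by
    by_cases e : dl (Param.sp F) r = r
    · exact ⟨1, isCoprime_one_right, Or.inl ⟨rfl, e⟩⟩
    · exact ⟨_, hi.coprime_iff_not_dvd.2 fun h => e (eq_of_monic_of_associated
        (monic_dl h0) hm (hi.associated_of_dvd (irreducible_dl hm h0 hi) h).symm), Or.inr rfl⟩
  have h0' : t.coeff 0 ≠ 0 := by
    rcases ht with ⟨rfl, -⟩ | rfl
    · simp
    · exact coeff_zero_dl_ne hm h0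
  have hz : ∀ a b, (r ^ a * t ^ b).coeff 0 ≠ 0 := fun a b => by
    rw [← constantCoeff_apply, map_mul, map_pow, map_pow]
    exact mul_ne_zero (pow_ne_zero _ h0) (pow_ne_zero _ h0')
  have hd : dl (Param.sp F) (r ^ (i + 1) * t ^ (i + 1)) = r ^ (i + 1) * t ^ (i + 1) := by
    rw [map_mul, map_pow, map_pow]
    rcases ht with ⟨rfl, h⟩ | rfl
    · rw [h, map_one]
    · rw [dl_dl hm h0, mul_comm]
  obtain ⟨w, h1, h2⟩ := exists_of_mem_tp hr
  have h3 : w ∈ LinearMap.ker (aeval (g.1 : V →ₗ[F] V) (r ^ (i + 1) * t ^ (i + 1))) := by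
    rw [LinearMap.mem_ker, mul_comm, map_mul, Module.End.mul_apply, h1, map_zero]
  have h4 : aeval (g.1 : V →ₗ[F] V) (r ^ i * t ^ (i + 1)) w ∉
      f.orth (LinearMap.ker (aeval (g.1 : V →ₗ[F] V) (r ^ (i + 1) * t ^ (i + 1)))) := by
    rw [← hd, hf.orth_ker_aeval g (hz _ _)]
    rintro ⟨z, hz⟩
    obtain ⟨α, β, h⟩ := hc.pow (m := i + 1) (n := i + 1)
    refine h2 ⟨aeval (g.1 : V →ₗ[F] V) (β * t ^ (i + 1)) z, ?_⟩
    have e1 : r ^ (i + 1) * (β * t ^ (i + 1)) = β * (r ^ (i + 1) * t ^ (i + 1)) := by ring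
    have e2 : r ^ i = β * (r ^ i * t ^ (i + 1)) + α * r ^ i * r ^ (i + 1) := by
      linear_combination -r ^ i * h
    rw [← Module.End.mul_apply, ← map_mul, e1, map_mul, Module.End.mul_apply, hz]
    conv_rhs => rw [e2, map_add, LinearMap.add_apply, map_mul _ (α * _), Module.End.mul_apply, h1,
      map_zero, add_zero, map_mul _ β, Module.End.mul_apply]
  rw [mem_orth] at h4
  push Not at h4
  obtain ⟨u, hu, h4⟩ := h4
  obtain ⟨v, hv, h5⟩ := exists_B_ne hg (Isom.aeval_comm g _) (fun x hx => by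
    rw [LinearMap.mem_ker, Isom.aeval_comm, LinearMap.mem_ker.1 hx, map_zero]) h3 hu h4
  let S := LinearMap.range (evalAt (g.1 : V →ₗ[F] V) v)
  have hS : ∀ x ∈ S, g.1 x ∈ S := by
    rintro _ ⟨y, rfl⟩
    exact ⟨X * y, by simp [evalAt_apply]⟩
  have hv' : v ∈ S := ⟨1, by simp [evalAt_apply]⟩
  replace h5 : aeval (g.1 : V →ₗ[F] V) (r ^ i * t ^ (i + 1)) v ∉ f.orth S := fun h =>
    h5.elim (· (h v hv')) (· (h _ (hS v hv')))
  refine ⟨v, fun e => h5 (by rw [e, map_zero]; exact zero_mem _), Submodule.disjoint_def.2 ?_⟩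
  rintro _ ⟨x, rfl⟩ hI
  let I : Ideal F[X] :=
    { carrier := {x | aeval (g.1 : V →ₗ[F] V) x v ∈ f.orth S}
      add_mem' := fun ha hb => by simpa using add_mem ha hb
      zero_mem' := by simp
      smul_mem' := fun c x hx => by
        simpa using aeval_mem (φ := (g.1 : V →ₗ[F] V)) (Isom.orth_invariant g hS) c _ hx }
  have hI' : r ^ (i + 1) * t ^ (i + 1) ∈ I := by
    change aeval (g.1 : V →ₗ[F] V) (r ^ (i + 1) * t ^ (i + 1)) v ∈ f.orth S
    rw [LinearMap.mem_ker.1 hv]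
    exact zero_mem _
  obtain ⟨y, rfl⟩ : r ^ (i + 1) * t ^ (i + 1) ∣ x := by
    refine (hc.pow).mul_dvd ?_ ?_
    · by_contra h6
      exact h5 (pow_mul_mem_of_not_dvd I hi hI' hI h6)
    · rcases ht with ⟨rfl, -⟩ | rfl
      · simp
      by_contra h6
      have h7 := pow_mul_mem_of_not_dvd I (t := r ^ (i + 1)) (irreducible_dl hm h0 hi)
        (by rwa [mul_comm] at hI') hI h6
      refine h5 ?_
      rintro _ ⟨y, rfl⟩
      have h9 : ∀ k : ℕ, (g ^ k).1 v ∈ S := fun k =>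
        ⟨X ^ k, by simp [evalAt_apply, Module.End.pow_apply, LinearEquiv.pow_apply]⟩
      have h8 := Isom.B_aeval_dl g (hz i (i + 1))
        ((g ^ (r ^ i * dl (Param.sp F) r ^ (i + 1)).natDegree).1 v) (aeval (g.1 : V →ₗ[F] V) y v)
      rw [inv_pow, Isom.inv_apply, map_mul (dl _), map_pow, map_pow, dl_dl hm h0,
        ← Module.End.mul_apply _ (aeval _ y), ← map_mul, mul_comm _ y,
        mem_orth'.1 (I.mul_mem_left y h7) _ (h9 _), mul_zero] at h8
      exact h8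
  rw [evalAt_apply, mul_comm, map_mul, Module.End.mul_apply, LinearMap.mem_ker.1 hv, map_zero]

/-- orthogonally indecomposable -/
def Ind (g : f.Isom) : Prop :=
  ∀ S : Submodule F V, (∀ x ∈ S, g.1 x ∈ S) → Disjoint S (f.orth S) → S = ⊥ ∨ S = ⊤

omit [FiniteDimensional F V] in
theorem range_cys_le {M : Type*} [AddCommGroup M] [Module F M] {g : f.Isom} {ω : M →ₗ[F] V} {L : ℕ}
    {S : Submodule F V} (hS : ∀ x ∈ S, g.1 x ∈ S) (h : ∀ b, ω b ∈ S) :
    LinearMap.range (cys (Isom.N g) ω L) ≤ S := by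
  rintro _ ⟨a, rfl⟩
  rw [cys_apply]
  exact S.sum_mem fun j _ => Isom.N_pow_mem hS _ (h _)

omit [FiniteDimensional F V] in
theorem N_inv_pow (g : f.Isom) (k : ℕ) :
    Isom.N g⁻¹ ^ k = (-(g⁻¹.1 : V →ₗ[F] V)) ^ k * Isom.N g ^ k := by
  rw [← Commute.mul_pow (LinearMap.ext fun x => by simp [Isom.N_apply])]
  congr 1
  ext x
  simp [Isom.N_apply]

variable [Fintype F]

theorem Top.exists_J (hf : f.Nondeg) (h2 : (2 : F) ≠ 0) {M : Type*} [AddCommGroup M] [Module F M]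
    {g : f.Isom} {L : ℕ} {ω : M →ₗ[F] V} (h : Top g L ω) (hL : Even L)
    (hs : LinearMap.range (cys (Isom.N g) ω (L + 1)) = ⊤) (θ : M →ₗ[F] M) (h3 : ∀ a, θ (θ a) = -a)
    (h4 : ∀ a b, bet g L ω (θ a) (θ b) = bet g L ω a b) :
    ∃ J : f.Isom, J * J = f.negOne ∧ J * g = g⁻¹ * J := by
  let a := LinearEquiv.ofBijective _ ⟨h.injective, LinearMap.range_eq_top.1 hs⟩
  let φ : Module.End F V := cys (Isom.N g⁻¹) (ω ∘ₗ θ) (L + 1) ∘ₗ a.symm.toLinearMap
  have h5 : ∀ x, φ (cys (Isom.N g) ω (L + 1) x) = cys (Isom.N g⁻¹) (ω ∘ₗ θ) (L + 1) x := fun x =>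
    congrArg (cys (Isom.N g⁻¹) (ω ∘ₗ θ) (L + 1)) (a.symm_apply_apply x)
  have h6 : Isom.N g⁻¹ ^ (L + 1) = 0 := by rw [N_inv_pow, h.nil, mul_zero]
  have h7 : ∀ v, φ (g.1 v) = g⁻¹.1 (φ v) := fun v => by
    obtain ⟨x, rfl⟩ := LinearMap.range_eq_top.1 hs v
    rw [← sub_left_inj (a := φ _), ← map_sub, ← Isom.N_apply, ← Isom.N_apply, N_cys h.nil, h5, h5,
      N_cys h6]
  have h8 : ∀ v, φ (Isom.N g⁻¹ v) = Isom.N g (φ v) := fun v => by
    obtain ⟨v, rfl⟩ := g.1.surjective v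
    rw [Isom.N_apply, Isom.N_apply, map_sub, Isom.inv_apply, h7, Isom.apply_inv]
  have h9 : ∀ b, φ (ω b) = ω (θ b) := fun b => by simpa [cys_cons] using h5 (Fin.cons b 0)
  refine hf.exists_J h2 φ h7 (fun v => ?_) h.nil fun x hx y => ?_
  · obtain ⟨x, rfl⟩ := LinearMap.range_eq_top.1 hs v
    rw [h5]
    simp [cys_apply, map_pow_of_comm h8, h9, h3]
  · obtain ⟨x, rfl⟩ := LinearMap.range_eq_top.1 hs x
    obtain ⟨y, rfl⟩ := LinearMap.range_eq_top.1 hs y
    have h10 : ∀ z, (Isom.N g⁻¹ ^ L) z = (Isom.N g ^ L) z := fun z => by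
      rw [N_inv_pow, hL.neg_pow, Module.End.mul_apply, Module.End.pow_apply]
      exact Function.iterate_fixed (Isom.mem_fix.1 ((Isom.fix_inv g).ge
        (Isom.mem_fix.2 (Isom.N_pow_fix h.nil z)))) L
    rw [h5, h5, cys_snoc _ _ _ x, cys_snoc _ _ _ x, h.fix hx, map_zero, map_zero, zero_add, zero_add,
      h.B_top, ← Fin.cons_self_tail y, cys_cons, B_add_right,
      Isom.fix_le_orth_res g⁻¹ (Isom.mem_fix.2 (Isom.N_pow_fix h6 _)) _ ⟨_, rfl⟩, add_zero, h10]
    exact h4 _ _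

theorem Ind.unip (hf : f.Nondeg) [Nontrivial V] {g : f.Isom} (hI : Ind g)
    (hN : IsNilpotent (Isom.N g)) : (GP g ⊤ ∧ GP (f.negOne * g) ⊤) ∨
      (GP g ⊤ ∧ ((2 : F) ≠ 0 → CM g ∧ CM (f.negOne * g) ∧ finrank F V % 4 = 2)) := by
  obtain ⟨L, h1, h2⟩ : ∃ L, Isom.N g ^ (L + 1) = 0 ∧ Isom.N g ^ L ≠ 0 := by
    classical
    obtain ⟨L, hL⟩ := Nat.exists_eq_succ_of_ne_zero (n := Nat.find hN) fun e => by
      simpa [e] using Nat.find_spec hN
    exact ⟨L, by simpa [hL] using Nat.find_spec hN, Nat.find_min hN (by omega)⟩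
  have key : ∀ {M : Type _} [AddCommGroup M] [Module F M] {ω : M →ₗ[F] V}, Top g L ω → ∀ b, ω b ≠ 0 →
      LinearMap.range (cys (Isom.N g) ω (L + 1)) = ⊤ := fun h b hb =>
    (hI _ h.inv h.disjoint).resolve_left fun e => hb (e.le (Top.mem b))
  by_cases h : ∀ e, f.B ((Isom.N g ^ L) e) e = 0
  · obtain ⟨e, he⟩ := DFunLike.ne_iff.1 h2
    obtain ⟨e', h3, h4⟩ := GP.two hf (L := L) (e := e) (by rw [h1]; rfl) he
    have h5 : f.B ((Isom.N g ^ L) e') e = -1 := by
      have := h (e + e')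
      simp only [map_add, LinearMap.add_apply, h e, h e', h3] at this
      linear_combination this
    have h6 : ∀ a b : F × F, bet g L (pairMap F e e') a b = a.1 * b.2 - a.2 * b.1 := fun a b => by
      change f.B ((Isom.N g ^ L) (pairMap F e e' a)) (pairMap F e e' b) = _
      simp [pairMap_apply, h, h3, h5]; ring
    have h7 : Top g L (pairMap F e e') := ⟨h1, fun a ha => Prod.ext
      (by simpa using (h6 a (0, 1)).symm.trans (ha _)) (by simpa using (h6 a (1, 0)).symm.trans (ha _))⟩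
    have h8 := key h7 (1, 0) fun e => he (by simp_all [pairMap_apply])
    refine .inr ⟨h4 fun S hS a1 a2 => eq_top_iff.2 (h8 ▸ range_cys_le hS fun b =>
      add_mem (S.smul_mem _ a1) (S.smul_mem _ a2)), fun h2 => ?_⟩
    have hL : Even L := by
      by_contra e
      have := h7.bet_symm (1, 0) (0, 1)
      rw [h6, h6, (Nat.not_even_iff_odd.1 e).add_one.neg_one_pow] at this
      exact h2 (by linear_combination -this)
    obtain ⟨J, h9, h10⟩ := h7.exists_J hf h2 hL h8 ((-LinearMap.snd F F F).prod (LinearMap.fst F F F))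
      (fun a => rfl) fun a b => by simp [h6]; ring
    have h11 : ∀ z : f.Isom, Commute f.negOne z := f.scalar_commute _ _
    refine ⟨hf.cm_of_J h2 h9 h10, hf.cm_of_J h2 h9 (by
      rw [mul_inv_rev, inv_eq_of_mul_eq_one_right f.negOne_mul_self, ← mul_assoc, ← (h11 J).eq,
        mul_assoc, h10, ← (h11 _).eq, mul_assoc]), ?_⟩
    rw [← finrank_top, ← h8, LinearMap.finrank_range_of_inj h7.injective]
    obtain ⟨k, rfl⟩ := hL
    simp [Module.finrank_pi_fintype]
    omega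
  · push Not at h
    obtain ⟨e, he⟩ := h
    have h3 : Top g L (LinearMap.toSpanSingleton F V e) := ⟨h1, fun a ha => by simpa [he] using ha 1⟩
    exact .inl (GP.cyc (e := e) fun S hS a1 => eq_top_iff.2 (key h3 1 (fun e' => he (by simp_all)) ▸
      range_cys_le hS fun b => S.smul_mem _ a1))

/-- the exceptional pieces -/
def TB (g : f.Isom) : Prop :=
  (2 : F) ≠ 0 ∧ CM g ∧ finrank F V % 4 = 2 ∧ (GP g ⊤ ∨ GP (f.negOne * g) ⊤)

theorem Ind.piece (hf : f.Nondeg) {g : f.Isom} (hI : Ind g) :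
    (GP g ⊤ ∧ GP (f.negOne * g) ⊤) ∨ TB g := by
  rcases subsingleton_or_nontrivial V with h | h
  · rw [Subsingleton.elim ⊤ ⊥]
    exact .inl ⟨GP.bot _, GP.bot _⟩
  have hI' : Ind (f.negOne * g) := fun S hS => hI S fun x hx => by
    simpa [Isom.mul_apply, negOne_apply] using hS x hx
  have key : ∀ g : f.Isom, Ind g → Function.Injective (Isom.N g) ∨ IsNilpotent (Isom.N g) :=
    fun g hI => (hI (gk (Isom.N g)) (fun x hx => map_mem_gk (φ := (g.1 : V →ₗ[F] V))
      (fun x => by simp [Isom.N_apply]) hx)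
      (AA.disjoint (s := true) hf (T := (g.1 : V →ₗ[F] V)) (Isom.map_B g))).imp
        gk_eq_bot_iff.1 gk_eq_top_iff.1
  have h2 : (2 : F) = 0 → f.negOne * g = g := fun e => Isom.ext fun x => by
    rw [Isom.mul_apply, negOne_apply, neg_eq_iff_add_eq_zero, ← two_smul F, e, zero_smul]
  rcases key g hI with h3 | h3
  · rcases key _ hI' with h4 | h4
    · obtain ⟨v, h5, h6⟩ := hf.exists_cyc_sp (g := g) fun v hv => h4 (h3 (by
        simp [Isom.N_apply, negOne_apply, hv]; abel))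
      have h7 := (hI _ (by rintro _ ⟨y, rfl⟩; exact ⟨X * y, by simp [evalAt_apply]⟩) h6).resolve_left
        fun e => h5 (e.le ⟨1, by simp [evalAt_apply]⟩)
      exact .inl (GP.cyc (e := v) fun S hS hv => eq_top_iff.2 (h7 ▸ by
        rintro _ ⟨y, rfl⟩; exact aeval_mem hS y v hv))
    · have := hI'.unip hf h4
      rw [negOne_mul_negOne_mul] at this
      rcases this with h5 | ⟨h5, h6⟩
      · exact .inl h5.symm
      · by_cases e : (2 : F) = 0
        · exact .inl ⟨h2 e ▸ h5, h5⟩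
        · exact .inr ⟨e, (h6 e).2.1, (h6 e).2.2, .inr h5⟩
  · rcases hI.unip hf h3 with h5 | ⟨h5, h6⟩
    · exact .inl h5
    · by_cases e : (2 : F) = 0
      · exact .inl ⟨h5, (h2 e).symm ▸ h5⟩
      · exact .inr ⟨e, (h6 e).1, (h6 e).2.2, .inl h5⟩

/-- existence of an exceptional piece -/
def HasB (g : f.Isom) : Prop :=
  ∃ (W : Type u) (_ : AddCommGroup W) (_ : Module F W) (_ : FiniteDimensional F W)
    (f' : Form (Param.sp F) W) (g' : f'.Isom) (φ : W →ₗ[F] V), f'.Nondeg ∧ IsIsom f' f φ ∧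
      (∀ w, φ (g'.1 w) = g.1 (φ w)) ∧ TB g'

omit [Fintype F] in
theorem HasB.of_restrict {g : f.Isom} {S : Submodule F V} {h} (H : HasB (Isom.restrict g S h)) :
    HasB g := by
  obtain ⟨W, _, _, _, f', g', φ, h1, h2, h3, h4⟩ := H
  exact ⟨W, _, _, ‹_›, f', g', S.subtype ∘ₗ φ, h1, sp_isIsom h2.map_B,
    fun w => congrArg Subtype.val (h3 w), h4⟩

omit [Fintype F] in
theorem GP.of_restrict {g : f.Isom} {S : Submodule F V} {h} (H : GP (Isom.restrict g S h) ⊤) :
    GP g S := by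
  simpa using H.map S.subtype (f.isIsom_subtype S) fun _ => rfl

theorem gp_or_hasB (n : ℕ) : ∀ {V : Type u} [AddCommGroup V] [Module F V] [FiniteDimensional F V]
    {f : Form (Param.sp F) V} (g : f.Isom), f.Nondeg → finrank F V = n → GP g ⊤ ∨ HasB g := by
  induction n using Nat.strong_induction_on with
  | _ n ih =>
  intro V _ _ _ f g hf hn
  by_cases hI : Ind g
  · exact (hI.piece hf).imp (·.1) fun h =>
      ⟨V, _, _, ‹_›, f, g, LinearMap.id, hf, sp_isIsom fun _ _ => rfl, fun _ => rfl, h⟩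
  unfold Ind at hI
  push Not at hI
  obtain ⟨S, h1, h2, h3, h4⟩ := hI
  have h5 := Submodule.finrank_lt h4
  have h6 := hf.finrank_add_orth S
  have h7 : finrank F S ≠ 0 := fun e => h3 (Submodule.finrank_eq_zero.1 e)
  rcases ih _ (hn ▸ h5) (Isom.restrict g S h1) ((f.restrict_nondeg_iff S).2 h2) rfl with a | a
  · rcases ih _ (by omega) (Isom.restrict g _ (Isom.orth_invariant g h1)) (hf.restrict_orth h2) rfl
      with b | b
    · exact .inl ((hf.isCompl_orth h2).sup_eq_top ▸ a.of_restrict.sup b.of_restrict (f.le_orth_orth S))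
    · exact .inr b.of_restrict
  · exact .inr a.of_restrict

theorem cm_aux (n : ℕ) : ∀ {V : Type u} [AddCommGroup V] [Module F V] [FiniteDimensional F V]
    {f : Form (Param.sp F) V} (g : f.Isom), f.Nondeg → finrank F V = n →
      (n = 2 → 4 ≤ Fintype.card F) → (n = 4 → 3 ≤ Fintype.card F) → CM g := by
  induction n using Nat.strong_induction_on with
  | _ n ih =>
  intro V _ _ _ f g hf hn a1 a2
  rcases gp_or_hasB n g hf hn with h | ⟨W, _, _, _, f', g', φ, h1, h2, h3, h4, h5, h6, h7⟩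
  · exact h.cm hf (hn ▸ a1) (hn ▸ a2)
  have h8 : ∀ x ∈ LinearMap.range φ, g.1 x ∈ LinearMap.range φ := by
    rintro _ ⟨w, rfl⟩; exact ⟨_, h3 w⟩
  have h9 := hf.finrank_orth_range (h2.comap_nondeg h1)
  have h10 := hf.restrict_orth_range (h2.comap_nondeg h1)
  have h11 : 3 ≤ Fintype.card F := by
    by_contra e
    have := Fintype.one_lt_card (α := F)
    exact h4 (by simpa [show Fintype.card F = 2 by omega] using FiniteField.cast_card_eq_zero F)
  by_cases e : finrank F (f.orth (LinearMap.range φ)) = 2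
  · have hI : Ind (Isom.restrict g _ (Isom.orth_invariant g h8)) := fun S _ hS => by
      obtain ⟨k, hk⟩ := ((Form.restrict_nondeg_iff _ S).2 hS).sp_even
      have := S.finrank_le
      rcases k with _ | k
      · exact .inl (Submodule.finrank_eq_zero.1 hk)
      · exact .inr (Submodule.eq_top_of_finrank_eq (by omega))
    rcases hI.piece h10 with ⟨b1, b2⟩ | b
    · have key : ∀ {g : f.Isom} {g' : f'.Isom}, (∀ w, φ (g'.1 w) = g.1 (φ w)) → GP g' ⊤ →
          GP g (f.orth (LinearMap.range φ)) → GP g ⊤ := fun c1 c2 c3 =>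
        (hf.isCompl_orth (disjoint_range_orth (h2.comap_nondeg h1))).sup_eq_top ▸
          GP.sup (by simpa using c2.map φ h2 c1) c3 (f.le_orth_orth _)
      rcases h7 with b | b
      · exact (key h3 b b1.of_restrict).cm hf (by omega) fun _ => h11
      · refine (key (fun w => by simp [negOne_apply, h3]) b ?_).cm_neg hf h4 (by omega)
        simpa using b2.map _ (f.isIsom_subtype _) fun _ => by simp [negOne_apply]; rfl
    · exact hf.cm_glue h1 h2 h3 h5 b.2.1
  · exact hf.cm_glue h1 h2 h3 h5 (ih _ (by omega) (Isom.restrict g _ (Isom.orth_invariant g h8)) h10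
      rfl (fun e' => absurd e' e) fun _ => h11)

end Form

end Cfsg.Agent.Forms
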