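import Cfsg.Agent.Lib.Forms.Lev

/-!
Commutators in finite special unitary groups: hyperbolic frames and the big cell.
-/

set_option autoImplicit false

namespace Cfsg.Agent.Forms

open Module Polynomial Matrix

variable {F : Type*} [Field F] [Fintype F] {q : ℕ} {hF : Fintype.card F = q ^ 2}
  {V : Type*} [AddCommGroup V] [Module F V] {f : Form (uP hF) V} {m : ℕ}

/-- admissible eigenvalues on a maximal isotropic subspace -/
structure UGood (q : ℕ) (T : Multiset (Kc F)) : Prop where
  frob : T.map (· ^ Fintype.card F) = T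
  ne : 0 ∉ T
  nodup : (T + T.map (psi q)).Nodup

include hF in
theorem psi_psi (x : Kc F) : psi q (psi q x) = x ^ Fintype.card F := by
  simp [psi, ← pow_mul, hF, sq]

include hF in
theorem UGood.map_map {T : Multiset (Kc F)} (h : UGood q T) : (T.map (psi q)).map (psi q) = T := by
  rw [Multiset.map_map, ← h.frob]
  simp [psi_psi (hF := hF), h.frob]

include hF in
theorem UGood.psi_ne {T : Multiset (Kc F)} (h : UGood q T) {x : Kc F} (hx : x ∈ T + T.map (psi q)) : psi q x ≠ x := by
  have := (Multiset.nodup_add.1 h.nodup).2.2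
  rw [Multiset.disjoint_left] at this
  intro e
  rcases Multiset.mem_add.1 hx with h1 | h1
  · exact this h1 (e ▸ Multiset.mem_map_of_mem _ h1)
  · exact this (by rw [← h.map_map (hF := hF), ← e]; exact Multiset.mem_map_of_mem _ h1) h1

omit [Fintype F] in
theorem prod_map_psi (T : Multiset (Kc F)) : (T.map (psi q)).prod = psi q T.prod := by
  induction T using Multiset.induction_on with
  | empty => simp [psi]
  | cons a T ih => simp [ih, psi_mul]

namespace Form

/-- hyperbolic frames -/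
structure Frame (f : Form (uP hF) V) (a c : Fin m → V) : Prop where
  aa : ∀ i j, f.B (a i) (a j) = 0
  cc : ∀ i j, f.B (c i) (c j) = 0
  ac : ∀ i j, f.B (a i) (c j) = if i = j then 1 else 0

/-- the Levi component -/
def HM (g : f.Isom) (a c : Fin m → V) : Matrix (Fin m) (Fin m) F := of fun j i => f.B (g.1 (a i)) (c j)

variable {a c : Fin m → V}

theorem Frame.ca (h : f.Frame a c) (i j : Fin m) : f.B (c i) (a j) = if i = j then 1 else 0 := by
  rw [unit_symm, h.ac]
  simp [eq_comm, apply_ite]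

theorem Frame.swap (h : f.Frame a c) : f.Frame c a := ⟨h.cc, h.aa, h.ca⟩

theorem Frame.li (h : f.Frame a c) : LinearIndependent F (Sum.elim a c) :=
  f.linearIndependent_of_dual (w := Sum.elim c a)
    (by rintro (i | i) (j | j) e <;> simp_all [h.aa, h.cc, h.ac, h.ca]) (by rintro (i | i) <;> simp [h.ac, h.ca])

theorem Frame.B_sum (h : f.Frame a c) (t : Fin m ⊕ Fin m → F) (j : Fin m) :
    f.B (∑ k, t k • Sum.elim a c k) (c j) = t (.inl j) ∧ f.B (∑ k, t k • Sum.elim a c k) (a j) = t (.inr j) := by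
  simp [Fintype.sum_sum_type, h.aa, h.cc, h.ac, h.ca]

variable [FiniteDimensional F V]

theorem Frame.exists_aniso (hf : f.Nondeg) (h : f.Frame a c) (hm : 2 * m < finrank F V) :
    ∃ e, f.B e e ≠ 0 ∧ ∀ i, f.B (a i) e = 0 ∧ f.B (c i) e = 0 := by
  let S := Submodule.span F (Set.range (Sum.elim a c))
  have h1 : Disjoint S (f.orth S) := Submodule.disjoint_def.2 fun x hx hx' => by
    obtain ⟨t, rfl⟩ := (Submodule.mem_span_range_iff_exists_fun F).1 hx
    refine Finset.sum_eq_zero fun k _ => ?_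
    rcases k with j | j
    · rw [← (h.B_sum t j).1, hx' (c j) (Submodule.subset_span ⟨.inr j, rfl⟩), zero_smul]
    · rw [← (h.B_sum t j).2, hx' (a j) (Submodule.subset_span ⟨.inl j, rfl⟩), zero_smul]
  have h2 := hf.finrank_add_orth S
  rw [finrank_span_eq_card h.li, Fintype.card_sum, Fintype.card_fin] at h2
  have := (finrank_pos_iff (R := F) (M := f.orth S)).1 (by omega)
  obtain ⟨e, he⟩ := (hf.restrict_orth h1).unit_exists_aniso (frobq_ne hF)
  exact ⟨e, he, fun i => ⟨mem_orth'.1 e.2 _ (Submodule.subset_span ⟨.inl i, rfl⟩),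
    mem_orth'.1 e.2 _ (Submodule.subset_span ⟨.inr i, rfl⟩)⟩⟩

theorem Frame.det (h : f.Frame a c) (hm : 2 * m = finrank F V) (g : f.Isom) :
    f.detHom g * frobq hF (HM g a c).det = (HM g a c).det := by
  let b := basisOfLinearIndependentOfCardEqFinrank' _ h.li (by simp [← hm, two_mul])
  have hb : ∀ k, b k = Sum.elim a c k := fun k => by simp [b]
  have h1 : ∀ z j, b.repr z (.inl j) = f.B z (c j) ∧ b.repr z (.inr j) = f.B z (a j) := fun z j => by
    have := h.B_sum (b.repr z) j
    simp only [← hb, b.sum_repr] at this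
    exact ⟨this.1.symm, this.2.symm⟩
  let T := b.constr F (Sum.elim a fun j => g⁻¹.1 (c j))
  have h2 : LinearMap.toMatrix b b T = fromBlocks 1 (LinearMap.toMatrix b b T).toBlocks₁₂ 0
      ((frobq hF).mapMatrix (HM g a c))ᵀ := by
    ext (i | i) (j | j) <;> simp [T, LinearMap.toMatrix_apply, h1, h.aa, h.ac, one_apply, eq_comm, toBlocks₁₂, HM,
      ← unit_symm]
    exact Isom.B_right g _ _
  have h3 : LinearMap.toMatrix b b ((g.1 : V →ₗ[F] V) * T) = fromBlocks (HM g a c) 0
      (LinearMap.toMatrix b b ((g.1 : V →ₗ[F] V) * T)).toBlocks₂₁ 1 := by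
    ext (i | i) (j | j) <;> simp [T, LinearMap.toMatrix_apply, h1, h.cc, h.ca, one_apply, eq_comm, toBlocks₂₁, HM,
      Isom.apply_inv]
  have h4 := congrArg Matrix.det h3
  rw [LinearMap.det_toMatrix, map_mul, ← LinearMap.det_toMatrix b T, h2, det_fromBlocks_zero₂₁, det_fromBlocks_zero₁₂,
    det_transpose, ← RingHom.map_det, det_one, one_mul, mul_one] at h4
  rwa [coe_detHom]

omit [Fintype F] [FiniteDimensional F V] in
theorem map_aeval_of_comm {W : Type*} [AddCommGroup W] [Module F W] {φ : W →ₗ[F] V} {D : End F W} {E : End F V}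
    (e : ∀ v, φ (D v) = E (φ v)) (p : F[X]) (v : W) : φ (aeval D p v) = aeval E p (φ v) := by
  induction p using Polynomial.induction_on' with
  | add p r h1 h2 => simp [h1, h2]
  | monomial n a => simp [aeval_monomial, map_pow_of_comm e]

theorem Nondeg.ev_split (hf : f.Nondeg) (y : f.Isom) {T U : Multiset (Kc F)} (hT : UGood q T)
    (hU : T + T.map (psi q) = U) (h : T ⊆ Isom.ev y) : ∃ R, Isom.ev y = U + R ∧ R.map (psi q) = R := by
  have h1 := map_psi_iff.2 (hf.unit_ev_dual hF y)
  obtain ⟨R, hR⟩ := Multiset.le_iff_exists_add.1 ((Multiset.le_iff_subset hT.nodup).2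
    fun x hx => (Multiset.mem_add.1 hx).elim (@h x) fun hx => h1 ▸ Multiset.map_subset_map h hx)
  refine ⟨R, hU ▸ hR, ?_⟩
  rw [hR, Multiset.map_add, Multiset.map_add, hT.map_map (hF := hF), add_comm _ T] at h1
  exact add_left_cancel h1

theorem Frame.cm (hf : f.Nondeg) (h : f.Frame a c) (g : f.SIsom) {D : End F (Fin m → F)} {S T : Multiset (Kc F)}
    (hD : ev D = T) (hE : ev (toLin' (HM g.1 a c) * D) = S) (hS : UGood q S) (hT : UGood q T)
    (e : S + S.map (psi q) = T + T.map (psi q))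
    (hn : (2 * m = finrank F V ∧ T.prod ^ q = T.prod) ∨ 2 * m + 1 = finrank F V) : CM g := by
  obtain ⟨p, hp⟩ := CharP.exists F
  have := Fact.mk (CharP.char_is_prime F p)
  let α := Fintype.linearCombination F a
  let γ : V →ₗ[F] Fin m → F := LinearMap.pi fun j => f.B.flip (c j)
  have h1 : ∀ v, γ (α v) = v := fun v => funext fun j => by simp [α, γ, Fintype.linearCombination_apply, h.ac]
  have h2 : ∀ v, toLin' (HM g.1 a c) v = γ (g.1.1 (α v)) := fun v => funext fun j => by
    simp [α, γ, Fintype.linearCombination_apply, HM, mulVec, dotProduct, mul_comm]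
  let M := LinearMap.toMatrix' (toLin' (HM g.1 a c) * D)
  have h3 : M⁻¹ * M = 1 := nonsing_inv_mul _ (Ne.isUnit fun e => Multiset.prod_ne_zero hS.ne (by
    rw [← hE, ← det_eq_prod_ev, ← LinearMap.det_toMatrix', e, map_zero]))
  have h4 : f.Frame (fun i => α (D (Pi.single i 1))) fun j => ∑ l, frobq hF (M⁻¹ j l) • g.1⁻¹.1 (c l) :=
    ⟨fun i j => by simp [α, Fintype.linearCombination_apply, h.aa],
      fun i j => by simp only [map_sum, LinearMap.sum_apply, B_smul_left, B_smul_right, Isom.map_B, h.cc]; simp,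
      fun i j => by
        have := congrFun (congrFun h3 j) i
        simp only [mul_apply, one_apply, M, LinearMap.toMatrix'_apply, End.mul_apply, h2, eq_comm (a := j)] at this
        simp only [map_sum, B_smul_right, Param.unit_σ, frobq_frobq, ← Isom.B_left]
        exact this⟩
  have key : ∀ y : f.Isom, (∀ k, y.1 (Sum.elim a c k) = Sum.elim (fun i => α (D (Pi.single i 1)))
      (fun j => ∑ l, frobq hF (M⁻¹ j l) • g.1⁻¹.1 (c l)) k) → T ⊆ Isom.ev y ∧ S ⊆ Isom.ev (g.1 * y) := fun y hy => by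
    have a1 : ∀ v, α (D v) = y.1 (α v) := fun v => by
      conv_lhs => rw [pi_eq_sum_univ' v]
      simp only [map_sum, map_smul, α, Fintype.linearCombination_apply _ _ v]
      exact Finset.sum_congr rfl fun i _ => congrArg _ (hy (.inl i)).symm
    have a2 : ∀ z, γ ((g.1 * y).1 z) = (toLin' (HM g.1 a c) * D) (γ z) := fun z => by
      have := Isom.orth_invariant (g.1 * y) (S := Submodule.span F (Set.range c)) (fun x hx => by
        refine (Submodule.span_le (p := (Submodule.span F (Set.range c)).comap ((g.1 * y).1 : V →ₗ[F] V))).2 ?_ hx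
        rintro _ ⟨j, rfl⟩
        change g.1.1 (y.1 (c j)) ∈ Submodule.span F (Set.range c)
        rw [show y.1 (c j) = _ from hy (.inr j), Sum.elim_inr, map_sum]
        exact Submodule.sum_mem _ fun l _ => by
          rw [map_smul, Isom.apply_inv]; exact Submodule.smul_mem _ _ (Submodule.subset_span ⟨l, rfl⟩))
        (z - α (γ z)) (mem_orth_span.2 (by
          rintro _ ⟨j, rfl⟩
          exact (B_sub_left ..).trans (sub_eq_zero.2 (congrFun (h1 (γ z)) j).symm)))
      rw [End.mul_apply, h2, a1, ← sub_eq_zero, ← Isom.mul_apply, ← map_sub, ← map_sub]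
      exact funext fun j => this _ (Submodule.subset_span ⟨j, rfl⟩)
    refine ⟨fun x hx => mem_ev_iff.2 (aeval_eq_zero_of_mem_ev (LinearMap.ext fun v => ?_) (hD ▸ hx :)),
      fun x hx => mem_ev_iff.2 (aeval_eq_zero_of_mem_ev (LinearMap.ext fun v => ?_) (hE ▸ hx :))⟩
    · rw [← h1 (aeval D _ v), map_aeval_of_comm (E := (y.1 : V →ₗ[F] V)) a1]
      simp [LinearMap.aeval_self_charpoly]
    · rw [← h1 v, ← map_aeval_of_comm (D := ((g.1 * y).1 : V →ₗ[F] V)) a2]
      simp [LinearMap.aeval_self_charpoly]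
  have c1 : (T + T.map (psi q)).card = 2 * m := by simp [← hD, card_ev, two_mul]
  obtain ⟨y, hy⟩ := hf.witt_family h.li h4.li (by
    rintro (i | i) (j | j) <;> simp only [Sum.elim_inl, Sum.elim_inr, h.aa, h.cc, h.ac, h.ca, h4.aa, h4.cc, h4.ac, h4.ca])
    (by rintro (i | i) <;> simp only [Sum.elim_inl, Sum.elim_inr, unit_Q, h.aa, h.cc, h4.aa, h4.cc])
  obtain ⟨y, hy, h5⟩ : ∃ z : f.Isom, (∀ k, z.1 (Sum.elim a c k) = y.1 (Sum.elim a c k)) ∧ z ∈ f.SIsom ∧ _ := by
    rcases hn with ⟨h6, h7⟩ | h6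
    · obtain ⟨R, a1, -⟩ := hf.ev_split y hT rfl (key y hy).1
      have a2 := congrArg Multiset.card a1
      rw [Multiset.card_add, c1, Isom.card_ev, h6, left_eq_add, Multiset.card_eq_zero] at a2
      refine ⟨y, fun _ => rfl, Isom.mem_SIsom_iff.2 ?_, hy⟩
      rw [a1, a2, add_zero, Multiset.prod_add, prod_map_psi, psi, h7, mul_inv_cancel₀ (Multiset.prod_ne_zero hT.ne)]
    · obtain ⟨e, a1, a2⟩ := h.exists_aniso hf (by omega)
      have a3 := hf.det_mul_σ_det y⁻¹
      refine ⟨y * hf.extHom (f.comap_toSpanSingleton_nondeg a1) _ (f.isIsom_comap _) (scalar _ _ a3), fun k => ?_, ?_, hy⟩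
      · rw [Isom.mul_apply, hf.extHom_apply_right]
        rintro _ ⟨t, rfl⟩
        rcases k with i | i <;> simp [a2]
      · refine Units.ext ?_
        rw [map_mul, hf.detHom_extHom, Units.val_mul, detHom_scalar]
        simp
  obtain ⟨b1, b2⟩ := key y fun k => (hy k).trans (h5.2 k)
  obtain ⟨R, a1, a2⟩ := hf.ev_split y hT rfl b1
  obtain ⟨R', a3, -⟩ := hf.ev_split _ hS e b2
  have a4 := congrArg Multiset.card a1
  have a5 := congrArg Multiset.card a3
  rw [Multiset.card_add, c1, Isom.card_ev] at a4 a5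
  have a6 : R.prod = R'.prod := mul_left_cancel₀ (a := (T + T.map (psi q)).prod)
    (left_ne_zero_of_mul_eq_one (by rw [← Multiset.prod_add, ← a1, ← Isom.mem_SIsom_iff]; exact h5.1)) (by
      rw [← Multiset.prod_add, ← Multiset.prod_add, ← a1, ← a3, Isom.mem_SIsom_iff.1 h5.1,
        Isom.mem_SIsom_iff.1 (mul_mem g.2 h5.1)])
  have a7 : R = R' ∧ (T + T.map (psi q) + R).Nodup := by
    rcases hn with ⟨h6, -⟩ | h6
    · rw [Multiset.card_eq_zero.1 (show R.card = 0 by omega), Multiset.card_eq_zero.1 (show R'.card = 0 by omega)]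
      exact ⟨rfl, by simpa using hT.nodup⟩
    · obtain ⟨r, rfl⟩ := Multiset.card_eq_one.1 (show R.card = 1 by omega)
      obtain ⟨r', rfl⟩ := Multiset.card_eq_one.1 (show R'.card = 1 by omega)
      refine ⟨by simpa using a6, ?_⟩
      rw [add_comm, Multiset.singleton_add, Multiset.nodup_cons]
      exact ⟨fun h => hT.psi_ne (hF := hF) h (by simpa using a2), hT.nodup⟩
  have a8 : ∀ z : f.Isom, (Isom.ev z).Nodup → pexp p z = 0 := fun z hz => by
    classical
    rw [← pexp_coe]
    exact Nat.le_zero.1 (pexp_le p _ fun x _ => by simpa using Multiset.nodup_iff_count_le_one.1 hz x)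
  have := CM.of_isConj (isConj_inv (hf.su_isConj p (g := g * ⟨y, h5.1⟩) (h := ⟨y, h5.1⟩) (a8 (g.1 * y) (by rw [a3, ← a7.1]; exact a7.2))
    (a8 _ (a1 ▸ a7.2)) (by rw [a1, a7.1]; exact a3)))
  rwa [mul_inv_cancel_right] at this

end Form

end Cfsg.Agent.Forms
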