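import Cfsg.Agent.Lib.Forms.UOre1

/-!
Commutators in finite special unitary groups: admissible Levi components.
-/

set_option autoImplicit false

namespace Cfsg.Agent.Forms

open Module Polynomial Matrix

variable {F : Type*} [Field F] [Fintype F] {q : ℕ} (hF : Fintype.card F = q ^ 2) {m : ℕ}

include hF

theorem UGood.map_psi {T : Multiset (Kc F)} (h : UGood q T) : UGood q (T.map (psi q)) := by
  refine ⟨?_, fun e => ?_, by rw [h.map_map (hF := hF), add_comm]; exact h.nodup⟩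
  · conv_rhs => rw [← h.frob]
    simp [psi_pow]
  · obtain ⟨x, hx, e⟩ := Multiset.mem_map.1 e
    exact h.ne ((pow_eq_zero_iff (by have := two_le_q hF; omega)).1 (inv_eq_zero.1 e) ▸ hx)

theorem UGood.cons {T : Multiset (Kc F)} (h : UGood q T) {x : Kc F} (h0 : x ≠ 0) (h1 : x ^ Fintype.card F = x)
    (h2 : psi q x ≠ x) (h3 : x ∉ T + T.map (psi q)) : UGood q (x ::ₘ T) := by
  refine ⟨by simp [h.frob, h1], by simp [h.ne, h0.symm], ?_⟩
  rw [Multiset.map_cons, Multiset.cons_add, Multiset.add_cons, Multiset.nodup_cons, Multiset.nodup_cons, Multiset.mem_cons]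
  refine ⟨fun e => e.elim h2.symm h3, fun e => h3 ?_, h.nodup⟩
  have := Multiset.mem_map_of_mem (psi q) e
  rwa [psi_psi (hF := hF), h1, Multiset.map_add, h.map_map (hF := hF), add_comm] at this

theorem uGood_orb {x : Kc F} {d : ℕ} (h0 : x ≠ 0) (h1 : x ^ Fintype.card F ^ d = x)
    (h2 : ∀ i, 0 < i → i < d → x ^ Fintype.card F ^ i ≠ x) (h3 : ∀ i < d, x ^ Fintype.card F ^ i * x ^ q ≠ 1) :
    UGood q (orb (· ^ Fintype.card F) x d) := by
  have h4 : (orb (· ^ Fintype.card F) x d).map (· ^ Fintype.card F) = _ := map_orb (by simpa [pow_iterate] using h1)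
  have h5 : ∀ i j, i < j → j < d → x ^ Fintype.card F ^ i ≠ x ^ Fintype.card F ^ j := fun i j hij hj e => by
    obtain ⟨k, rfl⟩ := Nat.exists_eq_add_of_le hij.le
    refine h2 k (by omega) (by omega) ((pow_card_injective (F := F)).iterate i ?_)
    simp only [pow_iterate]
    rw [e, ← pow_mul, ← pow_add, add_comm]
  have h6 : (orb (· ^ Fintype.card F) x d).Nodup := (Multiset.nodup_range _).map_on fun i hi j hj e => by
    simp only [pow_iterate, Multiset.mem_range] at hi hj e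
    exact le_antisymm (not_lt.1 fun h => h5 _ _ h hi e.symm) (not_lt.1 fun h => h5 _ _ h hj e)
  refine ⟨h4, by simp [mem_orb, pow_iterate, h0], Multiset.nodup_add.2
    ⟨h6, h6.map (psi_injective (pow_q_injective hF)), Multiset.disjoint_left.2 fun {y} hy e => ?_⟩⟩
  obtain ⟨_, hz, rfl⟩ := Multiset.mem_map.1 e
  obtain ⟨j, hj, rfl⟩ := mem_orb.1 hz
  have h7 : ∀ k, ∀ y ∈ orb (· ^ Fintype.card F) x d, y ^ Fintype.card F ^ k ∈ orb (· ^ Fintype.card F) x d :=
    fun k => by
      induction k with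
      | zero => simp
      | succ k ih => exact fun y hy => by rw [← h4, pow_succ, pow_mul]; exact Multiset.mem_map_of_mem _ (ih y hy)
  obtain ⟨i, hi, e⟩ := mem_orb.1 (h7 (d - j) _ hy)
  simp only [pow_iterate] at e
  rw [← psi_pow, ← pow_mul, ← pow_add, Nat.add_sub_cancel' hj.le, h1] at e
  exact h3 i hi (by rw [e, psi, inv_mul_cancel₀ (pow_ne_zero _ h0)])

theorem exists_uGood {d : ℕ} (hd : 2 ≤ d) {z : Kc F} (hz : z ^ (q + 1) = 1) (hq : 3 ≤ q ∨ z = 1) :
    ∃ T : Multiset (Kc F), UGood q T ∧ T.card = d ∧ T.prod ^ q = z * T.prod ∧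
      ∀ x ∈ T + T.map (psi q), x ^ Fintype.card F ≠ x := by
  have h2 := two_le_q hF
  obtain ⟨ξ, h1, h0, -⟩ := exists_primRoot_of_dvd_qu hF (k := 2 * d) (by omega) dvd_rfl
  obtain ⟨r, rfl⟩ : ∃ r, q = r + 1 := ⟨q - 1, by omega⟩
  have h3 := geom_sum_mul_add (r * (r + 2)) d
  rw [show r * (r + 2) + 1 = (r + 1) ^ 2 by ring, ← hF] at h3
  rw [qu_of_even (by omega) (by simp), pow_mul, ← hF, ← h3, add_tsub_cancel_right] at h1
  set s := ∑ i ∈ Finset.range d, Fintype.card F ^ i
  have h4 : 0 < s * (r * (r + 2)) := Nat.pos_of_ne_zero fun e => by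
    rw [e, zero_add, eq_comm, Nat.pow_eq_one] at h3
    have := Fintype.one_lt_card (α := F)
    omega
  have : NeZero (r + 1 + 1) := ⟨by omega⟩
  have h5 := h1.pow h4 (a := s * r) (b := r + 1 + 1) (by ring)
  obtain ⟨i, hi, rfl⟩ := h5.eq_pow_of_pow_eq_one hz
  obtain ⟨j, j1, j2, j3, j4⟩ : ∃ j, 0 < j ∧ j ≤ r + 2 ∧ (ξ ^ (s * r)) ^ j = (ξ ^ (s * r)) ^ i ∧ (r = 1 → j = 3) := by
    by_cases e : i = 0
    · exact ⟨r + 2, by omega, le_rfl, by rw [e, pow_zero]; exact h5.pow_eq_one, by omega⟩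
    · exact ⟨i, by omega, by omega, rfl, fun e' => absurd (Nat.le_of_dvd (by omega)
        ((h5.pow_eq_one_iff_dvd _).1 (hq.resolve_left (by omega)))) (by omega)⟩
  obtain ⟨d, rfl⟩ : ∃ e, d = e + 1 := ⟨d - 1, by omega⟩
  have h6 : ∀ i < d + 1, ∀ k, 0 < k → k ≤ Fintype.card F ^ i + (r + 1) → (r = 1 → d = 1 → k = 5 → False) →
      (ξ ^ j) ^ k ≠ 1 := fun i hi k k1 k2 k3 e => by
    have a1 := (h1.pow_eq_one_iff_dvd _).1 (by rwa [← pow_mul] at e)
    have a2 := Nat.le_of_dvd (by positivity) a1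
    have a3 : Fintype.card F ^ i ≤ Fintype.card F ^ d := Nat.pow_le_pow_right Fintype.card_pos (by omega)
    have a4 : Fintype.card F ^ 1 ≤ Fintype.card F ^ d := Nat.pow_le_pow_right Fintype.card_pos (by omega)
    have a5 := Nat.mul_le_mul j2 (k2.trans (Nat.add_le_add_right a3 _))
    rw [pow_succ] at h3
    by_cases e1 : r = 1
    · subst e1
      obtain rfl := j4 rfl
      by_cases e2 : d = 1
      · subst e2
        simp only [hF] at h3 a3 k2
        have : s = 5 := by omega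
        have : k ≠ 5 := fun e => k3 rfl rfl e
        rw [‹s = 5›] at a1
        omega
      · have a6 : Fintype.card F ^ 2 ≤ Fintype.card F ^ d := Nat.pow_le_pow_right Fintype.card_pos (by omega)
        generalize Fintype.card F ^ d = A at *
        simp only [hF] at h3 a6
        omega
    · generalize Fintype.card F ^ d = A at *
      obtain ⟨r, rfl⟩ : ∃ t, r = t + 2 := ⟨r - 2, by omega⟩
      rw [hF] at h3 a4
      nlinarith
  have h7 : ∀ i, 0 < i → i < d + 1 → (ξ ^ j) ^ Fintype.card F ^ i ≠ ξ ^ j := fun i i1 i2 e => by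
    have := Nat.one_lt_pow i1.ne' (Fintype.one_lt_card (α := F))
    refine h6 i i2 (Fintype.card F ^ i - 1) (by omega) (by omega) (fun a b c => ?_)
      (mul_right_cancel₀ (pow_ne_zero j h0) (by rw [← pow_succ, Nat.sub_add_cancel this.le, e, one_mul]))
    rw [show i = 1 by omega, hF, a] at c
    simp at c
  refine ⟨_, uGood_orb hF (pow_ne_zero j h0) ?_ h7 fun i hi e => ?_, card_orb _ _ _, ?_, fun x hx e => ?_⟩
  · rw [← h3, pow_succ, ← pow_mul, mul_comm j, pow_mul, h1.pow_eq_one, one_pow, one_mul]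
  · refine h6 i hi _ (by positivity) le_rfl (fun a b c => ?_) (by rw [pow_add, e])
    rw [hF, a] at c
    rcases (show i = 0 ∨ i = 1 by omega) with rfl | rfl <;> simp at c
  · rw [show (orb _ _ _).prod = ∏ i ∈ Finset.range (d + 1), (· ^ Fintype.card F)^[i] (ξ ^ j) from rfl]
    simp only [pow_iterate, Finset.prod_pow_eq_pow_sum]
    rw [← j3]
    ring
  · have : ∀ y ∈ orb (· ^ Fintype.card F) (ξ ^ j) (d + 1), y ^ Fintype.card F ≠ y := fun y hy e => by
      obtain ⟨i, -, rfl⟩ := mem_orb.1 hy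
      refine h7 1 one_pos (by omega) ((pow_card_injective (F := F)).iterate i ?_)
      simp only [pow_iterate] at e ⊢
      rw [pow_one, pow_right_comm, e]
    rcases Multiset.mem_add.1 hx with h | h
    · exact this x h e
    · obtain ⟨y, hy, rfl⟩ := Multiset.mem_map.1 h
      exact this y hy (psi_injective (pow_q_injective hF) (by rw [psi_pow, e]))

theorem exists_norm_one : ∃ u : F, u * frobq hF u = 1 ∧ u * u ≠ 1 := by
  obtain ⟨a, h1, h2⟩ : ∃ a, frobq hF a ≠ a ∧ frobq hF a ≠ -a := by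
    obtain ⟨a, ha⟩ := frobq_ne hF
    by_cases h : frobq hF a = -a
    · refine ⟨a + 1, by simpa using ha, fun e => ha ?_⟩
      rw [map_add, map_one, h] at e
      rw [h]
      linear_combination (-a) * e
    · exact ⟨a, ha, h⟩
  have h3 : a ≠ 0 := by rintro rfl; simp at h1
  have h4 := (map_ne_zero (frobq hF)).2 h3
  refine ⟨frobq hF a / a, by simp [frobq_frobq, h3, h4], fun e => ?_⟩
  rw [mul_self_eq_one_iff, div_eq_iff h3, div_eq_iff h3] at e
  exact e.elim (by simpa) (by simpa)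

theorem three_le_q {c : F} (h : frobq hF c = c) (h0 : c ≠ 0) (h1 : c ≠ 1) : 3 ≤ q :=
  (two_le_q hF).lt_of_ne fun e => h1 (mul_right_cancel₀ h0 (by rw [one_mul, ← sq, e]; exact h))

theorem algebraMap_frobq (a : F) : algebraMap F (Kc F) (frobq hF a) = algebraMap F _ a ^ q := map_pow _ a q

theorem exists_uPair (hm : 2 ≤ m) {c : F} (h : frobq hF c = c) (h0 : c ≠ 0) :
    ∃ S T : Multiset (Kc F), UGood q S ∧ UGood q T ∧ S + S.map (psi q) = T + T.map (psi q) ∧ S.card = m ∧ T.card = m ∧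
      S.prod = algebraMap F _ c * T.prod ∧ T.prod ^ q = T.prod := by
  by_cases h1 : c = 1
  · obtain ⟨T, a1, a2, a3, -⟩ := exists_uGood hF hm (one_pow _) (.inr rfl)
    exact ⟨T, T, a1, a1, rfl, a2, a2, by simp [h1], by simpa using a3⟩
  obtain ⟨a, a1, a2⟩ : ∃ a : F, a * frobq hF a = c⁻¹ ∧ frobq hF a ≠ a := by
    obtain ⟨a, ha⟩ := exists_norm_eq hF (c := c⁻¹) (by rw [map_inv₀, h])
    obtain ⟨u, u1, u2⟩ := exists_norm_one hF
    by_cases e : frobq hF a = a
    · refine ⟨u * a, by rw [map_mul, mul_mul_mul_comm, u1, one_mul, ha], fun e' => u2 ?_⟩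
      rw [map_mul, e] at e'
      rw [← u1, mul_right_cancel₀ (left_ne_zero_of_mul (ha ▸ inv_ne_zero h0)) e']
    · exact ⟨a, ha, e⟩
  have a3 : a ≠ 0 := left_ne_zero_of_mul (a1 ▸ inv_ne_zero h0)
  have a4 : ∀ b : F, algebraMap F (Kc F) b ^ Fintype.card F = algebraMap F _ b := fun b => by
    rw [← map_pow, FiniteField.pow_card]
  have a5 : ∀ b : F, psi q (algebraMap F (Kc F) b) = algebraMap F _ (frobq hF b)⁻¹ := fun b => by
    rw [psi, map_inv₀, algebraMap_frobq]
  have a6 := (algebraMap F (Kc F)).injective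
  have a7 : (frobq hF a)⁻¹ = c * a := by rw [← inv_inv c, ← a1]; field_simp
  have := (map_ne_zero (frobq hF)).2 a3
  have a8 : c * a ≠ a := by simpa [a3]
  have a9 : frobq hF (c * a) = a⁻¹ := by rw [← a7, map_inv₀, frobq_frobq]
  obtain ⟨T, b1, b2, b3, b4⟩ : ∃ T : Multiset (Kc F), UGood q T ∧ T.card + 1 = m ∧
      (algebraMap F _ a * T.prod) ^ q = algebraMap F _ a * T.prod ∧ algebraMap F _ a ∉ T + T.map (psi q) := by
    rcases hm.eq_or_lt with rfl | hm
    · refine ⟨{algebraMap F _ (frobq hF a)}, (UGood.mk rfl (by simp) (by simp)).cons hF (by simpa) (a4 _) ?_ (by simp),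
        rfl, ?_, ?_⟩
      · rw [a5, frobq_frobq, a6.ne_iff, ← a9, (frobq hF).injective.ne_iff]; exact a8
      · rw [Multiset.prod_singleton, ← map_mul, ← algebraMap_frobq hF, a1, map_inv₀, h]
      · simp only [Multiset.map_singleton, a5, frobq_frobq, Multiset.mem_add, Multiset.mem_singleton, a6.eq_iff, not_or]
        refine ⟨a2.symm, fun e => a2 ?_⟩
        rw [frobq_apply]
        rcases mul_self_eq_one_iff.1 (show a * a = 1 by nth_rw 1 [e]; exact inv_mul_cancel₀ a3) with rfl | rfl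
        exacts [one_pow _, map_neg (frobq hF) 1 |>.trans (by rw [map_one])]
    · obtain ⟨T, b1, b2, b3, b4⟩ := exists_uGood hF (d := m - 1) (by omega) (z := algebraMap F _ (a * (c * a))) (by
        rw [pow_succ, ← algebraMap_frobq hF, ← map_mul, map_mul (frobq hF), a9, ← a7, ← map_one (algebraMap F (Kc F))]
        congr 1
        field_simp) (.inl (three_le_q hF h h0 h1))
      refine ⟨T, b1, by omega, ?_, fun e => b4 _ e (a4 a)⟩
      rw [mul_pow, b3, ← algebraMap_frobq hF, ← mul_assoc, ← map_mul, ← a7]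
      congr 2
      field_simp
  refine ⟨algebraMap F _ (c * a) ::ₘ T, algebraMap F _ a ::ₘ T, b1.cons hF (by simp [h0, a3]) (a4 _) ?_ fun e => b4 ?_,
    b1.cons hF (by simpa) (a4 _) (by rw [a5, a7, a6.ne_iff]; exact a8) b4, ?_, by simpa, by simpa, by simp [mul_assoc],
    by simpa using b3⟩
  · rw [a5, a9, inv_inv, a6.ne_iff]; exact a8.symm
  · have := Multiset.mem_map_of_mem (psi q) e
    rwa [a5, a9, inv_inv, Multiset.map_add, b1.map_map (hF := hF), add_comm] at this
  · simp only [Multiset.map_cons, a5, a7, a9, inv_inv, Multiset.cons_add, Multiset.add_cons]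
    exact Multiset.cons_swap ..

omit hF

/-- admissible Levi components -/
def Lv (q : ℕ) (H : Matrix (Fin m) (Fin m) F) : Prop :=
  ∃ (D : End F (Fin m → F)) (S T : Multiset (Kc F)), ev D = T ∧ ev (toLin' H * D) = S ∧ UGood q S ∧ UGood q T ∧
    S + S.map (psi q) = T + T.map (psi q) ∧ (m ≠ 1 → T.prod ^ q = T.prod)

theorem exists_ev_eq {T : Multiset (Kc F)} (h : T.map (· ^ Fintype.card F) = T) (hm : T.card = m) :
    ∃ D : End F (Fin m → F), ev D = T := by
  obtain ⟨g, g1, g2, g3, -⟩ := exists_poly' h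
  have := (AdjoinRoot.powerBasis' g1).finite
  exact ⟨(LinearEquiv.ofFinrankEq _ _ (by simp [finrank_adjoinRoot g1, g3, hm])).conj (rootMul g), by
    rw [ev_conj, ev_rootMul g1, g2]⟩

include hF

theorem three_le_card : 3 ≤ Fintype.card F := by have := two_le_q hF; nlinarith

theorem lv_one (hm : 2 ≤ m ∨ (m = 1 ∧ 3 ≤ q)) : Lv q (1 : Matrix (Fin m) (Fin m) F) := by
  obtain ⟨T, h1, h2, h3⟩ : ∃ T : Multiset (Kc F), UGood q T ∧ T.card = m ∧ (m ≠ 1 → T.prod ^ q = T.prod) := by
    rcases hm with hm | ⟨rfl, hq⟩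
    · obtain ⟨T, a1, a2, a3, -⟩ := exists_uGood hF hm (one_pow _) (.inr rfl)
      exact ⟨T, a1, a2, fun _ => by simpa using a3⟩
    · obtain ⟨ξ, h1, h0, h2⟩ := exists_primRoot_of_dvd_qu hF (k := 2) (by omega) dvd_rfl
      refine ⟨{ξ}, (UGood.mk rfl (by simp) (by simp)).cons hF h0 ((psi_psi (hF := hF) ξ).symm.trans h2) (fun e => ?_) (by simp),
        rfl, by simp⟩
      have := Nat.le_of_dvd (by omega) ((h1.pow_eq_one_iff_dvd _).1 ((psi_eq_self_iff h0).1 e))
      rw [qu_of_even (by omega) even_two, tsub_le_iff_right] at this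
      nlinarith
  obtain ⟨D, hD⟩ := exists_ev_eq h1.frob h2
  exact ⟨D, T, T, hD, by simpa [toLin'_one, ← End.one_eq_id] using hD, h1, h1, rfl, h3⟩

theorem lv_np {H : Matrix (Fin m) (Fin m) F} (h : Lev.NP (toLin' H)) (h0 : H.det ≠ 0) (h1 : frobq hF H.det = H.det) :
    Lv q H := by
  have hm : 2 ≤ m := by
    obtain ⟨l, a1, b, a2, a3⟩ := h
    have := Multiset.card_le_card ((Multiset.le_iff_subset (s := {b, algebraMap F _ l}) (by simpa)).2
      (show _ ⊆ ev (toLin' H) by simp [Multiset.subset_iff, a1, a2]))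
    simpa [card_ev] using this
  obtain ⟨S, T, a1, a2, a3, a4, a5, a6, a7⟩ := exists_uPair hF hm h1 h0
  obtain ⟨D, b1, b2⟩ := h.exists (three_le_card hF) (by simpa) a1.frob a2.frob (by simpa) (by simpa) a2.ne (by simpa)
  exact ⟨D, S, T, b1, b2, a1, a2, a3, fun _ => a7⟩

theorem lv_tv (hq : q = 2) {l : F} (hl : l ^ (m + 1) = 1) {r : Fin m → F} (hr : r ≠ 0) :
    Lv q (SLn.bord l r 0 (l • 1)) := by
  have hm : m ≠ 0 := by rintro rfl; exact hr (Subsingleton.elim _ _)
  obtain ⟨T, a1, a2, a3, -⟩ := exists_uGood hF (d := m + 1) (by omega) (one_pow _) (.inr rfl)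
  have a4 : T.prod = 1 := mul_right_cancel₀ (Multiset.prod_ne_zero a1.ne) (by rw [← a3, hq, sq])
  obtain ⟨S, b1, b2, b3, b4, b5⟩ : ∃ S : Multiset (Kc F), UGood q S ∧ S + S.map (psi q) = T + T.map (psi q) ∧
      S.card = m + 1 ∧ S.prod = 1 ∧ T.map (algebraMap F _ l * ·) ≠ S := by
    by_cases e : T.map (algebraMap F _ l * ·) = T
    · refine ⟨_, a1.map_psi hF, by rw [a1.map_map (hF := hF), add_comm], by simpa, by simp [prod_map_psi, a4, psi], fun e' => ?_⟩
      have := (Multiset.nodup_add.1 a1.nodup).2.2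
      rw [← e', e, disjoint_self] at this
      simp [this] at a2
    · exact ⟨T, a1, rfl, a2, a4, e⟩
  obtain ⟨D, d1, d2⟩ := Lev.exists_transv (three_le_card hF) (l := l) (by rintro rfl; simp at hl) (w := Pi.single 0 1)
    (ψ := dotProductBilin F F (Fin.cons 0 r : Fin (m + 1) → F)) (by simp) (fun e => hr (funext fun i => by
      simpa using LinearMap.congr_fun e (Pi.single i.succ 1))) (by simp) b1.frob a1.frob (by simpa) (by simpa) a1.ne
    (by simp [hl, a4, b4]) b5
  refine ⟨D, S, T, d1, ?_, b1, a1, b2, fun _ => by simp [a4]⟩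
  convert d2
  ext j i
  refine Fin.cases ?_ (fun i => ?_) i <;> refine Fin.cases ?_ (fun j => ?_) j <;> simp [Pi.single_apply, one_apply]

omit hF [Fintype F]

theorem ev_bord (l : F) (r : Fin m → F) (H : Matrix (Fin m) (Fin m) F) :
    ev (toLin' (SLn.bord l r 0 H)) = algebraMap F _ l ::ₘ ev (toLin' H) := by
  have : (SLn.bord l r 0 H).charpoly = (X - C l) * H.charpoly := by
    rw [Matrix.charpoly, det_succ_column_zero, Fin.sum_univ_succ, Finset.sum_eq_zero fun i _ => by
      simp [charmatrix_apply_ne _ _ _ (Fin.succ_ne_zero i)]]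
    simp only [Fin.val_zero, pow_zero, one_mul, add_zero, charmatrix_apply_eq, SLn.bord_zero_zero, Fin.succAbove_zero]
    congr 2
    ext i j
    simp [charmatrix_apply, diagonal_apply]
  rw [ev, ev, charpoly_toLin', charpoly_toLin', this,
    aroots_mul ((monic_X_sub_C l).mul H.charpoly_monic).ne_zero, aroots_X_sub_C, Multiset.singleton_add]

theorem np_of_det {H : Matrix (Fin m) (Fin m) F} {l : F} (h : algebraMap F _ l ∈ ev (toLin' H)) (h1 : H.det ≠ l ^ m) :
    Lev.NP (toLin' H) := by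
  refine ⟨l, h, not_not.1 fun e => h1 ((algebraMap F (Kc F)).injective ?_)⟩
  push Not at e
  rw [← LinearMap.det_toLin', det_eq_prod_ev, Multiset.eq_replicate_of_mem e]
  simp [card_ev]

end Cfsg.Agent.Forms
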