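import Cfsg.Agent.Lib.Forms.UOre2

/-!
Commutators in finite special unitary groups: construction of hyperbolic frames.
-/

set_option autoImplicit false

namespace Cfsg.Agent.Forms

open Module Polynomial Matrix Submodule

universe u

variable {F : Type*} [Field F] [Fintype F] {q : ℕ} {hF : Fintype.card F = q ^ 2}
  {V : Type u} [AddCommGroup V] [Module F V] {f : Form (uP hF) V} {m : ℕ}

variable (hF) in
theorem exists_theta : ∃ t : F, t ≠ 0 ∧ t + frobq hF t = 0 :=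
  let ⟨a, ha⟩ := frobq_ne hF
  ⟨a - frobq hF a, sub_ne_zero.2 ha.symm, by simp [frobq_frobq]⟩

namespace Form

theorem HypPair.Beu' {u e : V} (h : f.HypPair u e) : f.B e u = 1 := h.Beu

theorem Frame.cons {u c : V} (h : f.HypPair u c) {a' c' : Fin m → f.orth (span F {u, c})}
    (h' : (f.restrict _).Frame a' c') {y : F} {z : f.orth (span F {u, c})}
    (h1 : ∀ i, f.B (a' i) z = 0 ∧ f.B (c' i) z = 0) (h2 : y + frobq hF y + f.B z z = 0) :
    f.Frame (Fin.cons u fun i => a' i) (Fin.cons (c + y • u + z) fun i => c' i) := by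
  have a1 : ∀ x : f.orth (span F {u, c}), f.B x u = 0 ∧ f.B x c = 0 := fun x => mem_orth_pair.1 x.2
  have a2 : ∀ x : f.orth (span F {u, c}), f.B u x = 0 ∧ f.B c x = 0 := fun x =>
    ⟨f.B_eq_zero_symm (a1 x).1, f.B_eq_zero_symm (a1 x).2⟩
  have a3 := fun i => f.B_eq_zero_symm (h1 i).2
  have a4 := h'.aa
  have a5 := h'.cc
  have a6 := h'.ac
  simp only [restrict_B] at a4 a5 a6
  refine ⟨fun i j => ?_, fun i j => ?_, fun i j => ?_⟩ <;> refine Fin.cases ?_ (fun i => ?_) i <;>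
    refine Fin.cases ?_ (fun j => ?_) j <;>
    simp [a1, a2, a3, a4, a5, a6, h1, h.Buu, h.Bee, h.Bue, h.Beu', (Fin.succ_ne_zero _).symm]
  linear_combination h2

theorem Frame.cons0 {u c : V} (h : f.HypPair u c) {a' c' : Fin m → f.orth (span F {u, c})}
    (h' : (f.restrict _).Frame a' c') : f.Frame (Fin.cons u fun i => a' i) (Fin.cons c fun i => c' i) := by
  simpa using h'.cons h (y := 0) (z := 0) (by simp) (by simp)

variable [FiniteDimensional F V]

theorem Nondeg.scalar_of_iso (hf : f.Nondeg) (h2 : 2 ≤ finrank F V) {φ : End F V}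
    (h : ∀ a, f.B a a = 0 → f.B (φ a) a = 0) : ∃ s : F, ∀ v, φ v = s • v := by
  obtain ⟨u, h0, hu⟩ := hf.unit_exists_singular h2
  obtain ⟨e, he⟩ := hf.exists_hypPair hu h0
  obtain ⟨t, t0, t1⟩ := exists_theta hF
  obtain ⟨w, w1, w2⟩ := exists_norm_one hF
  obtain ⟨ψ, hψ⟩ : ∃ ψ : End F V, ψ = φ - f.B (φ u) e • 1 := ⟨_, rfl⟩
  have h1 : ∀ a, f.B a a = 0 → f.B (ψ a) a = 0 := fun a ha => by simp [hψ, h a ha, ha]
  have a1 := h1 u he.Buu
  have a2 := h1 e he.Bee
  have a3 : f.B (ψ u) e = 0 := by simp [hψ, he.Bue]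
  have t2 := (map_ne_zero (frobq hF)).2 t0
  have a4 : f.B (ψ e) u = 0 := by simpa [a1, a2, a3, t2] using h1 (t • u + e) (by
    simp [he.Buu, he.Bee, he.Bue, he.Beu']; linear_combination t1)
  have a5 : ∀ x, f.B x u = 0 → f.B x e = 0 → f.B (ψ u) x = 0 ∧ f.B (ψ x) u = 0 ∧ f.B (ψ e) x = 0 ∧ f.B (ψ x) e = 0 ∧
      f.B (ψ x) x = 0 := fun x x1 x2 => by
    have b1 : ∀ s c : F, s + frobq hF s = -f.B x x → c * frobq hF c = 1 → s * frobq hF c * f.B (ψ u) x +
        frobq hF s * c * f.B (ψ x) u + frobq hF c * f.B (ψ e) x + c * f.B (ψ x) e + f.B (ψ x) x = 0 := fun s c c1 c2 => by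
      have := h1 (s • u + e + c • x) (by
        simp [he.Buu, he.Bee, he.Bue, he.Beu', x1, x2, f.B_eq_zero_symm x1, f.B_eq_zero_symm x2]
        linear_combination c1 + f.B x x * c2)
      simp only [map_add, map_smulₛₗ, LinearMap.add_apply, LinearMap.smul_apply, a1, a2, a3, a4, smul_eq_mul,
        RingHom.id_apply, Param.unit_σ] at this
      linear_combination this - f.B (ψ x) x * c2
    obtain ⟨s, hs⟩ := exists_trace_eq (frobq hF) (frobq_frobq hF) (frobq_ne hF) (c := -f.B x x)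
      (by rw [map_neg, unit_B_self_fixed])
    have b2 : s + t + frobq hF (s + t) = -f.B x x := by rw [map_add]; linear_combination hs + t1
    have c1 := b1 s 1 hs (by simp)
    have c2 := b1 s w hs w1
    have c3 := b1 s (frobq hF w) hs (by rw [frobq_frobq, mul_comm, w1])
    have c4 := b1 _ 1 b2 (by simp)
    have c5 := b1 _ w b2 w1
    simp only [map_one, map_add, frobq_frobq] at c1 c3 c4 c5
    have d1 : f.B (ψ x) u = f.B (ψ u) x := mul_left_cancel₀ t0 (by linear_combination c1 - c4 + f.B (ψ x) u * t1)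
    have d2 : f.B (ψ u) x = 0 := (mul_eq_zero.1 (show t * (w * w - 1) * f.B (ψ u) x = 0 by
      rw [d1] at c2 c5; linear_combination w * (c2 - c5) + (w * w * f.B (ψ u) x) * t1 + t * f.B (ψ u) x * w1)).resolve_left
        (mul_ne_zero t0 (sub_ne_zero.2 w2))
    rw [d1, d2] at c1 c2 c3
    have d3 : f.B (ψ x) e = f.B (ψ e) x := mul_left_cancel₀ (sub_ne_zero.2 w2) (by
      linear_combination w * (c2 - c3) + (f.B (ψ x) e - f.B (ψ e) x) * w1)
    have d4 : f.B (ψ e) x = 0 := (mul_eq_zero.1 (show (w - 1) ^ 2 * f.B (ψ e) x = 0 by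
      rw [d3] at c1 c2; linear_combination w * (c2 - c1) - f.B (ψ e) x * w1)).resolve_left
        (pow_ne_zero _ (sub_ne_zero.2 fun e => w2 (by simp [e])))
    exact ⟨d2, d1.trans d2, d4, d3.trans d4, by simpa [d3, d4] using c1⟩
  refine ⟨f.B (φ u) e, fun v => sub_eq_zero.1 (hf _ fun y => ?_)⟩
  obtain ⟨s, t, x, x1, x2, rfl⟩ := he.exists_decomp v
  obtain ⟨s', t', x', x3, x4, rfl⟩ := he.exists_decomp y
  have : f.B (ψ x) x' = 0 := not_not.1 fun e' => by
    obtain ⟨v, hv, e⟩ := exists_B_self_ne (frobq_ne hF) ψ (mem_orth_pair.2 ⟨x1, x2⟩) (mem_orth_pair.2 ⟨x3, x4⟩) e'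
    exact e (a5 v (mem_orth_pair.1 hv).1 (mem_orth_pair.1 hv).2).2.2.2.2
  rw [show φ _ - _ = ψ (s • u + t • e + x) by simp [hψ]]
  simp [a1, a2, a3, a4, a5 x x1 x2, a5 x' x3 x4, this]

/-- one step of the Gauss decomposition -/
structure Step (g : f.Isom) (u c : V) (l b : F) : Prop where
  hyp : f.HypPair u c
  eq : g.1 u = l • u + b • c
  ne : l ≠ 0

/-- the reduced isometry -/
def Red (g : f.Isom) (u c : V) (l : F) (k : (f.restrict (f.orth (span F {u, c}))).Isom) : Prop :=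
  ∀ z : f.orth (span F {u, c}), g.1 z = (l⁻¹ * f.B (g.1 z) c) • g.1 u + k.1 z

variable {g : f.Isom} {u c : V} {l b : F}

theorem Step.exists_red (hf : f.Nondeg) (h : Step g u c l b) : ∃ k, Red g u c l k := by
  have a1 : ∀ x : f.orth (span F {u, c}), f.B (g.1 x) (g.1 u) = 0 := fun x => by
    rw [Isom.map_B]; exact (mem_orth_pair.1 x.2).1
  have a2 : f.B (g.1 u) (g.1 u) = 0 := by rw [Isom.map_B, h.hyp.Buu]
  have a3 : f.B (g.1 u) c = l := by simp [h.eq, h.hyp.Bue, h.hyp.Bee]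
  let φ : V →ₗ[F] V := (g.1 : V →ₗ[F] V) - (l⁻¹ • f.B.flip c ∘ₗ (g.1 : V →ₗ[F] V)).smulRight (g.1 u)
  have a4 : ∀ z, φ z = g.1 z - (l⁻¹ * f.B (g.1 z) c) • g.1 u := fun z => by simp [φ]
  refine ⟨Isom.ofEnd (h.hyp.restrict_orth_nondeg hf) (φ.restrict fun z hz => ?_) (unit_isIsom fun x y => ?_),
    fun z => by simp [a4]⟩
  · have b1 : f.B (φ z) c = 0 := by simp [a4, a3, h.ne, mul_right_comm]
    have b2 : f.B (φ z) (g.1 u) = 0 := by simp [a4, a2, a1 ⟨z, hz⟩]
    rw [h.eq] at b2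
    exact mem_orth_pair.2 ⟨by simpa [b1, h.ne] using b2, b1⟩
  · simp [a4, a1, a2, f.B_eq_zero_symm (a1 y), Isom.map_B]

omit [FiniteDimensional F V] in
theorem Step.HM_cons (h : Step g u c l b) {k} (hk : Red g u c l k) (a' c' : Fin m → f.orth (span F {u, c})) (y : F)
    (z : f.orth (span F {u, c})) : HM g (Fin.cons u fun i => a' i) (Fin.cons (c + y • u + z) fun i => c' i) =
      SLn.bord (l + b * frobq hF y) (fun i => f.B (g.1 (a' i)) (c + y • u + z)) 0 (HM k a' c') := by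
  have a2 : ∀ x : f.orth (span F {u, c}), f.B u x = 0 ∧ f.B c x = 0 := fun x =>
    ⟨f.B_eq_zero_symm (mem_orth_pair.1 x.2).1, f.B_eq_zero_symm (mem_orth_pair.1 x.2).2⟩
  refine SLn.bord_ext ?_ (fun j => rfl) (fun i => ?_) fun i j => ?_
  · simp [HM, h.eq, a2, h.hyp.Buu, h.hyp.Bee, h.hyp.Bue, h.hyp.Beu', mul_comm]
  · simp [HM, h.eq, a2]
  · simp only [HM, of_apply, Fin.cons_succ, SLn.bord_succ_succ, restrict_B]
    rw [hk]
    simp [h.eq, a2]

omit [FiniteDimensional F V] in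
theorem Step.HM_cons0 (h : Step g u c l b) {k} (hk : Red g u c l k) (a' c' : Fin m → f.orth (span F {u, c})) :
    HM g (Fin.cons u fun i => a' i) (Fin.cons c fun i => c' i) =
      SLn.bord l (fun i => f.B (g.1 (a' i)) c) 0 (HM k a' c') := by
  simpa using h.HM_cons hk a' c' 0 0

omit [FiniteDimensional F V] in
theorem step_of_B (hu : f.B u u = 0) (h : f.B (g.1 u) u ≠ 0) {t : F} (t0 : t ≠ 0) (t1 : t + frobq hF t = 0) :
    ∃ c, Step g u c (t * f.B (g.1 u) u) (f.B (g.1 u) u) := by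
  have h1 := (map_ne_zero (frobq hF)).2 h
  have h2 : f.B u (g.1 u) = frobq hF (f.B (g.1 u) u) := unit_symm ..
  refine ⟨(f.B (g.1 u) u)⁻¹ • (g.1 u - (t * f.B (g.1 u) u) • u), ⟨by rwa [unit_Q], ?_, by simp [hu, h1, h2]⟩,
    by simp [h], mul_ne_zero t0 h⟩
  simp only [unit_Q, B_smul_left, B_smul_right, B_sub_left, B_sub_right, Isom.map_B, hu, h2, Param.unit_σ, map_mul]
  linear_combination (-(f.B (g.1 u) u)⁻¹ * frobq hF (f.B (g.1 u) u)⁻¹ * f.B (g.1 u) u * frobq hF (f.B (g.1 u) u)) * t1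

omit [FiniteDimensional F V] in
theorem step_of_eigen (h : f.HypPair u c) (h1 : g.1 u = l • u) : Step g u c l 0 :=
  ⟨h, by simp [h1], by rintro rfl; exact h.u_ne_zero (by simpa using h1)⟩

theorem Nondeg.exists_step (hf : f.Nondeg) (h2 : 2 ≤ finrank F V) (h : ¬ ∃ s : F, ∀ v, g.1 v = s • v) :
    ∃ u c l b, Step g u c l b ∧ b ≠ 0 := by
  obtain ⟨t, t0, t1⟩ := exists_theta hF
  by_contra h0
  refine h (hf.scalar_of_iso h2 (φ := (g.1 : V →ₗ[F] V)) fun a ha => not_not.1 fun e => ?_)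
  obtain ⟨c, hc⟩ := step_of_B ha e t0 t1
  exact h0 ⟨_, _, _, _, hc, e⟩

omit [FiniteDimensional F V] in
theorem exists_cell (m : ℕ) : ∀ {V : Type u} [AddCommGroup V] [Module F V] [FiniteDimensional F V]
    {f : Form (uP hF) V} (g : f.Isom), f.Nondeg → 2 * m ≤ finrank F V →
    ∃ a c : Fin m → V, f.Frame a c ∧ (HM g a c).det ≠ 0 := by
  induction m with
  | zero => exact fun g _ _ => ⟨0, 0, ⟨(·.elim0), (·.elim0), (·.elim0)⟩, by simp⟩
  | succ m ih =>
    intro V _ _ _ f g hf hm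
    obtain ⟨u, c, l, b, h⟩ : ∃ u c l b, Step g u c l b := by
      by_cases h : ∃ s : F, ∀ v, g.1 v = s • v
      · obtain ⟨u, h0, hu⟩ := hf.unit_exists_singular (by omega)
        obtain ⟨e, he⟩ := hf.exists_hypPair hu h0
        exact ⟨_, _, _, _, step_of_eigen he (h.choose_spec u)⟩
      · obtain ⟨u, c, l, b, h, -⟩ := hf.exists_step (by omega) h
        exact ⟨_, _, _, _, h⟩
    obtain ⟨k, hk⟩ := h.exists_red hf
    obtain ⟨a', c', h1, h2⟩ := ih k (h.hyp.restrict_orth_nondeg hf) (by have := h.hyp.finrank_orth hf; omega)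
    exact ⟨_, _, h1.cons0 h.hyp, by simp [h.HM_cons0 hk, SLn.det_bord_col, h.ne, h2]⟩

theorem Step.cell (hf : f.Nondeg) (h : Step g u c l b) (hm : 2 * (m + 1) ≤ finrank F V) :
    ∃ a c : Fin (m + 1) → V, f.Frame a c ∧ (HM g a c).det ≠ 0 ∧ algebraMap F _ l ∈ ev (toLin' (HM g a c)) := by
  obtain ⟨k, hk⟩ := h.exists_red hf
  obtain ⟨a', c', h1, h2⟩ := exists_cell m k (h.hyp.restrict_orth_nondeg hf) (by have := h.hyp.finrank_orth hf; omega)
  exact ⟨_, _, h1.cons0 h.hyp, by simp [h.HM_cons0 hk, SLn.det_bord_col, h.ne, h2], by simp [h.HM_cons0 hk, ev_bord]⟩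

theorem Step.cell_odd (hf : f.Nondeg) (h : Step g u c l b) (hb : b ≠ 0) {k} (hk : Red g u c l k)
    {a' c' : Fin m → f.orth (span F {u, c})} (h' : (f.restrict _).Frame a' c') (hm : 2 * (m + 1) < finrank F V) (x : F) :
    ∃ a c : Fin (m + 1) → V, ∃ r, f.Frame a c ∧ HM g a c = SLn.bord x r 0 (HM k a' c') := by
  obtain ⟨e, h1, h2⟩ := h'.exists_aniso (h.hyp.restrict_orth_nondeg hf) (by have := h.hyp.finrank_orth hf; omega)
  simp only [restrict_B] at h1 h2
  obtain ⟨t, ht⟩ := exists_norm_eq hF (c := -(frobq hF ((x - l) / b) + (x - l) / b) / f.B e e) (by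
    rw [map_div₀, unit_B_self_fixed, map_neg, map_add, frobq_frobq, add_comm])
  refine ⟨_, _, _, h'.cons h.hyp (y := frobq hF ((x - l) / b)) (z := t • e) (by simp [h2]) ?_,
    by rw [h.HM_cons hk, frobq_frobq, mul_div_cancel₀ _ hb, add_sub_cancel]⟩
  rw [frobq_frobq, Submodule.coe_smul, B_smul_left, B_smul_right, ← mul_assoc, Param.unit_σ, ht, div_mul_cancel₀ _ h1, add_neg_cancel]

omit [FiniteDimensional F V] in
theorem exists_frame (m : ℕ) : ∀ {V : Type u} [AddCommGroup V] [Module F V] [FiniteDimensional F V]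
    {f : Form (uP hF) V} (R : Submodule F V), f.Nondeg → 2 * m = finrank F V → R ≤ f.orth R →
    ∃ a c : Fin m → V, f.Frame a c ∧ R ≤ span F (Set.range c) := by
  induction m with
  | zero =>
    intro V _ _ _ f R _ hm _
    have := finrank_zero_iff.1 hm.symm
    exact ⟨0, 0, ⟨(·.elim0), (·.elim0), (·.elim0)⟩, (Subsingleton.elim _ _).le⟩
  | succ m ih =>
    intro V _ _ _ f R hf hm hR
    obtain ⟨c, h0, h1, h2⟩ : ∃ c, c ≠ 0 ∧ f.Q c = 0 ∧ c ∈ f.orth R := by
      by_cases h : R = ⊥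
      · simpa [h] using hf.unit_exists_singular (by omega)
      · obtain ⟨c, h1, h2⟩ := (Submodule.ne_bot_iff R).1 h
        exact ⟨c, h2, (unit_Q ..).trans (hR h1 c h1), hR h1⟩
    obtain ⟨u, h⟩ := hf.exists_hypPair h1 h0
    have h : f.HypPair u c := ⟨h.Qe, h.Qu, h.Beu'⟩
    have h3 : R ⊔ (F ∙ c) ≤ f.orth (R ⊔ F ∙ c) := by
      rw [orth_sup, sup_le_iff, le_inf_iff, le_inf_iff, f.le_orth_comm (S := R) (T := F ∙ c), span_singleton_le_iff_mem,
        span_singleton_le_iff_mem, mem_orth_singleton]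
      exact ⟨⟨hR, h2⟩, h2, h.Bee⟩
    obtain ⟨a', c', h4, h5⟩ := ih ((R ⊔ F ∙ c).comap (f.orth (span F {u, c})).subtype) (h.restrict_orth_nondeg hf)
      (by have := h.finrank_orth hf; omega) fun x hx y hy => h3 hx y hy
    refine ⟨_, _, h4.cons0 h, fun x hx => ?_⟩
    have a1 := h.sub_mem_orth x
    rw [mem_orth'.1 h2 x hx, zero_smul, sub_zero] at a1
    have a2 := mem_map_of_mem (f := (f.orth (span F {u, c})).subtype) (h5 (show (⟨_, a1⟩ : f.orth _) ∈ Submodule.comap _ _ from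
      sub_mem (mem_sup_left hx) (mem_sup_right (smul_mem _ _ (mem_span_singleton_self c)))))
    rw [map_span] at a2
    rw [← sub_add_cancel x (((uP hF).ε * f.B x u) • c)]
    refine add_mem (span_mono ?_ a2) (smul_mem _ _ (subset_span ⟨0, by simp⟩))
    rintro _ ⟨_, ⟨i, rfl⟩, rfl⟩
    exact ⟨i.succ, rfl⟩

end Form

end Cfsg.Agent.Forms
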