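import Cfsg.Agent.Lib.Forms.UOre3

/-!
Every element of a finite special unitary group (dimension `≥ 3`, not `SU₃(2)`) is a commutator.
-/

set_option autoImplicit false

namespace Cfsg.Agent.Forms

open Module Polynomial Matrix Submodule

universe u

variable {F : Type*} [Field F] [Fintype F] {q : ℕ} {hF : Fintype.card F = q ^ 2}
  {V : Type u} [AddCommGroup V] [Module F V] [FiniteDimensional F V] {f : Form (uP hF) V} {m : ℕ}

variable (hF) in
theorem exists_fixed (hq : 3 ≤ q) : ∃ k : F, frobq hF k = k ∧ k ≠ 0 ∧ k ≠ 1 := by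
  obtain ⟨g, hg⟩ := IsCyclic.exists_ofOrder_eq_natCard (α := Fˣ)
  refine ⟨g * frobq hF g, by rw [map_mul, frobq_frobq, mul_comm], by simp, fun e => ?_⟩
  have := Nat.le_of_dvd (by omega) (orderOf_dvd_of_pow_eq_one (x := g) (n := q + 1)
    (Units.ext (by rw [pow_succ']; exact e)))
  rw [hg, Nat.card_units, Nat.card_eq_fintype_card, hF, tsub_le_iff_right] at this
  nlinarith

variable (hF) in
include hF in
theorem two_eq_zero_of_q (hq : q = 2) : (2 : F) = 0 := by
  have := FiniteField.cast_card_eq_zero F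
  rw [hF, hq] at this
  exact pow_eq_zero_iff two_ne_zero |>.1 (by exact_mod_cast this)

theorem norm_eq_one_of_q (hq : q = 2) {x : F} (h : x ≠ 0) : x * frobq hF x = 1 := not_not.1 fun e => by
  have := three_le_q hF (by rw [map_mul, frobq_frobq, mul_comm]) (mul_ne_zero h ((map_ne_zero (frobq hF)).2 h)) e
  omega

namespace Form

theorem Nondeg.cm_scalar (hf : f.Nondeg) [Nontrivial V] (g : f.SIsom) {s : F} (h : ∀ v, g.1.1 v = s • v) : CM g := by
  obtain ⟨p, hp⟩ := CharP.exists F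
  have := Fact.mk (CharP.char_is_prime F p)
  obtain ⟨v, hv⟩ := hf.unit_exists_aniso (frobq_ne hF)
  have h1 : s * (uP hF).σ s = 1 := mul_right_cancel₀ hv (by simpa [h, mul_assoc, mul_left_comm] using Isom.map_B g.1 v v)
  have h2 : g.1 = f.scalar s h1 := Isom.ext h
  obtain ⟨t, ht⟩ : ∃ t, t = algebraMap F (Kc F) s := ⟨_, rfl⟩
  have h3 : t ^ finrank F V = 1 := by rw [ht, ← map_pow, ← detHom_scalar f s h1, ← h2, show f.detHom g.1 = 1 from g.2]; simp
  have h4 : t ^ (q + 1) = 1 := by rw [ht, pow_succ', ← algebraMap_frobq hF, ← map_mul]; exact (congrArg _ h1).trans (map_one _)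
  have h0 : t ≠ 0 := by rintro rfl; simp at h4
  obtain ⟨z, k, z0, z1, z2⟩ : ∃ (z : Kc F) (k : ℕ), z ≠ 0 ∧ psi q z = t ^ k * z ∧
      t ^ (∑ i ∈ Finset.range (finrank F V), i) * z ^ finrank F V = 1 := by
    have a1 := Finset.sum_range_id_mul_two (finrank F V)
    by_cases e : t ^ (∑ i ∈ Finset.range (finrank F V), i) = 1
    · exact ⟨1, 0, one_ne_zero, by simp [psi], by simp [e]⟩
    obtain ⟨j, hj⟩ : Even (finrank F V) := Nat.not_odd_iff_even.1 fun ⟨j, hj⟩ => e (by
      rw [show ∑ i ∈ Finset.range (finrank F V), i = finrank F V * j by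
        rw [show finrank F V - 1 = j * 2 by omega] at a1; nlinarith, pow_mul, h3, one_pow])
    obtain ⟨k, hk⟩ : Odd q := Nat.not_even_iff_odd.1 fun hq => e (by
      have : ringChar F = 2 := FiniteField.even_card_iff_char_two.2 (by
        rw [hF]; exact Nat.even_iff.1 (hq.pow_of_ne_zero two_ne_zero))
      have := ringChar.of_eq this
      have := charP_of_injective_algebraMap (algebraMap F (Kc F)).injective 2
      rw [← CharTwo.neg_eq 1]
      refine (sq_eq_one_iff.1 ?_).resolve_left e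
      rw [← pow_mul, a1, pow_mul, h3, one_pow])
    obtain ⟨z, rfl⟩ := IsAlgClosed.exists_eq_mul_self t
    have z0 := left_ne_zero_of_mul h0
    refine ⟨z, k + 1, z0, inv_eq_of_mul_eq_one_right (by rw [← h4, hk]; ring), ?_⟩
    obtain ⟨j, rfl⟩ : ∃ i, j = i + 1 := ⟨j - 1, by have := finrank_pos (R := F) (M := V); omega⟩
    rw [show ∑ i ∈ Finset.range (finrank F V), i = (j + 1) * (2 * j + 1) by
      rw [show finrank F V - 1 = 2 * j + 1 by omega, hj] at a1; rw [hj]; nlinarith, hj]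
    rw [hj] at h3
    linear_combination congrArg (· ^ (j + 1)) h3
  have h5 : (orb (t * ·) z (finrank F V)).map (t * ·) = _ := map_orb (by simp [h3])
  have h6 : ∀ k, (orb (t * ·) z (finrank F V)).map (t ^ k * ·) = orb (t * ·) z (finrank F V) := fun k => by
    induction k with
    | zero => simp
    | succ k ih => conv_rhs => rw [← h5, ← ih]
                   simp [pow_succ', mul_assoc]
  obtain ⟨y, y1, y2⟩ := (realz_unit_ss hF (p := p) (R := orb (t * ·) z (finrank F V)) (by simp [mem_orb, h0, z0])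
    (map_psi_iff.1 (by
      conv_rhs => rw [← h6 k]
      simp [orb, psi_mul, psi_pow, (psi_eq_self_iff h0).2 h4, z1, mul_left_comm]))).exists_unit hf (card_orb ..)
  have h7 : y ∈ f.SIsom := by
    rw [Isom.mem_SIsom_iff, y1, show (orb _ _ _).prod = ∏ i ∈ Finset.range _, (t * ·)^[i] z from rfl, ← z2]
    simp [Finset.prod_mul_distrib, ← Finset.prod_pow_eq_pow_sum]
  have := CM.of_isConj (isConj_inv (hf.su_isConj p (g := g * ⟨y, h7⟩) (h := ⟨y, h7⟩)
    (by rw [Subgroup.coe_mul, h2, Isom.pexp_scalar_mul, y2]) y2 (by rw [Subgroup.coe_mul, h2, Isom.ev_scalar_mul, y1, ← ht, h5])))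
  rwa [mul_inv_cancel_right] at this

theorem Nondeg.cm_glue_su {W : Type*} [AddCommGroup W] [Module F W] [FiniteDimensional F W] {f' : Form (uP hF) W}
    (hf : f.Nondeg) (hf' : f'.Nondeg) {φ : W →ₗ[F] V} (hφ : IsIsom f' f φ) {g : f.SIsom} {g' : f'.SIsom}
    (h1 : ∀ w, g.1.1 (φ w) = φ (g'.1.1 w)) (c1 : CM g')
    (c2 : ∀ k : (f.restrict (f.orth (LinearMap.range φ))).SIsom, CM k) : CM g := by
  obtain ⟨k, hk⟩ := hf.eq_glueHom hf' φ hφ g.1 g'.1 h1
  have h2 := hf.detHom_glueHom hf' φ hφ (g'.1, k)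
  rw [← hk, show f.detHom g.1 = 1 from g.2, show f'.detHom g'.1 = 1 from g'.2, one_mul] at h2
  convert (c1.prod (c2 ⟨k, h2.symm⟩)).map (((hf.glueHom hf' φ hφ).comp ((f'.SIsom.subtype).prodMap (Subgroup.subtype _))).codRestrict
    f.SIsom fun x => (hf.detHom_glueHom hf' φ hφ _).trans ((congrArg₂ (· * ·) x.1.2 x.2.2).trans (one_mul 1))) using 1
  exact Subtype.ext hk

theorem exists_iso_mem {K : Submodule F V} (h : 2 ≤ finrank F K) : ∃ u ∈ K, u ≠ 0 ∧ f.B u u = 0 := by
  by_cases h1 : (f.restrict K).Nondeg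
  · obtain ⟨u, h2, h3⟩ := h1.unit_exists_singular h
    exact ⟨u, u.2, by simpa using h2, (unit_Q ..).symm.trans h3⟩
  · obtain ⟨u, h2⟩ := not_forall.1 h1
    exact ⟨u, u.2, by simpa using (Classical.not_imp.1 h2).2, (Classical.not_imp.1 h2).1 u⟩

variable {g : f.Isom} {u c : V} {l b : F}

theorem Nondeg.dichotomy (hf : f.Nondeg) (hq : q = 2) (h3 : 3 ≤ finrank F V) (g : f.Isom) (hl : l ≠ 0) :
    (∃ u c l' b, Step g u c l' b ∧ l' ≠ l) ∨ ∀ v, g.1 (g.1 v) = (l * l) • v := by
  have h2 := two_eq_zero_of_q hF hq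
  have h4 := norm_eq_one_of_q (hF := hF) hq hl
  refine or_iff_not_imp_left.2 fun h0 => ?_
  have h5 : ∀ v, f.B ((frobq hF l • (g.1 : V →ₗ[F] V) + l • (g⁻¹.1 : V →ₗ[F] V)) v) v =
      frobq hF l * f.B (g.1 v) v + l * frobq hF (f.B (g.1 v) v) := fun v => by
    rw [← unit_symm, Isom.B_right]; simp
  obtain ⟨s, hs⟩ := hf.scalar_of_iso (by omega) fun a ha => (h5 a).trans (not_not.1 fun e => by
    obtain ⟨c, hc⟩ := step_of_B (g := g) ha (fun e' => e (by simp [e'])) one_ne_zero (by rw [map_one, one_add_one_eq_two, h2])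
    exact h0 ⟨_, _, _, _, hc, fun e' => e (by rw [one_mul] at e'; rw [e']; linear_combination l * frobq hF l * h2)⟩)
  have h6 : ∀ v, g.1 (g.1 v) = (l * l) • v + (s * l) • g.1 v := fun v => by
    have := hs (g.1 v)
    simp only [LinearMap.add_apply, LinearMap.smul_apply, LinearEquiv.coe_coe, Isom.inv_apply] at this
    linear_combination (norm := skip) l • this - h4 • g.1 (g.1 v) - h2 • ((l * l) • v)
    module
  have := (finrank_pos_iff (R := F) (M := V)).1 (by omega)
  obtain ⟨v, hv⟩ := hf.unit_exists_aniso (frobq_ne hF)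
  have h7 : frobq hF s = s := mul_right_cancel₀ hv (by
    have := h5 v
    rw [hs, B_smul_left] at this
    rw [← unit_B_self_fixed f v, ← map_mul, unit_B_self_fixed, this, map_add, map_mul, map_mul, frobq_frobq, frobq_frobq]
    ring)
  by_cases h8 : s = 0
  · simpa [h8] using h6
  obtain rfl : s = 1 := not_not.1 fun e => by have := three_le_q hF h7 h8 e; omega
  obtain ⟨w, w1, w2⟩ := exists_norm_one hF
  have w3 : w * w + w + 1 = 0 := mul_left_cancel₀ (a := w - 1) (sub_ne_zero.2 fun e => w2 (by simp [e])) (by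
    rw [frobq_apply, hq] at w1; linear_combination w1)
  have h9 : ∀ x : F, x ≠ 1 → finrank F (LinearMap.ker ((g.1 : V →ₗ[F] V) - (x * l) • 1)) < 2 := fun x hx => not_le.1 fun h => by
    obtain ⟨u, a1, a2, a3⟩ := exists_iso_mem (f := f) h
    obtain ⟨c, hc⟩ := hf.exists_hypPair ((unit_Q ..).trans a3) a2
    exact h0 ⟨_, _, _, _, step_of_eigen hc (sub_eq_zero.1 a1), by simpa [hl]⟩
  have a1 := h9 w fun e => w2 (by simp [e])
  have a2 := h9 _ w2
  have a3 := LinearMap.finrank_range_add_finrank_ker ((g.1 : V →ₗ[F] V) - (w * l) • 1)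
  have a4 := finrank_mono (show LinearMap.range ((g.1 : V →ₗ[F] V) - (w * l) • 1) ≤
      LinearMap.ker ((g.1 : V →ₗ[F] V) - (w * w * l) • 1) by
    rintro _ ⟨v, rfl⟩
    simp only [LinearMap.mem_ker, LinearMap.sub_apply, LinearMap.smul_apply, LinearEquiv.coe_coe, End.one_apply, map_sub,
      map_smul, h6]
    linear_combination (norm := skip) w3 • (((w - 1) * l * l) • v - l • g.1 v) + h2 • ((l * l) • v + l • g.1 v)
    module)
  omega

end Form

end Cfsg.Agent.Forms
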