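import Cfsg.Agent.Lib.Forms.UOre4

/-!
Ore's theorem for finite special unitary groups: the main induction-free case analysis.
-/

set_option autoImplicit false

namespace Cfsg.Agent.Forms

open Module Polynomial Matrix Submodule

universe u

variable {F : Type*} [Field F] [Fintype F] {q : ℕ} {hF : Fintype.card F = q ^ 2}
  {V : Type u} [AddCommGroup V] [Module F V] [FiniteDimensional F V] {f : Form (uP hF) V} {m : ℕ}

theorem eq_one_of_q (hq : q = 2) {x : F} (h : frobq hF x = x) (h0 : x ≠ 0) : x = 1 :=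
  not_not.1 fun e => by have := three_le_q hF h h0 e; omega

omit [Fintype F] in
theorem np_bord {x : F} (r : Fin m → F) {H : Matrix (Fin m) (Fin m) F} {b : Kc F} (h : b ∈ ev (toLin' H))
    (hb : b ≠ algebraMap F _ x) : Lev.NP (toLin' (SLn.bord x r 0 H)) :=
  ⟨x, by simp [ev_bord], b, by simp [ev_bord, h], hb⟩

omit [Fintype F] in
theorem exists_mem_ev' (H : Matrix (Fin (m + 1)) (Fin (m + 1)) F) : ∃ b, b ∈ ev (toLin' H) :=
  Multiset.card_pos_iff_exists_mem.1 (by simp [card_ev])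

namespace Form

variable {a c : Fin m → V}

theorem Frame.cm_lv (hf : f.Nondeg) (h : f.Frame a c) (g : f.SIsom) (hL : Lv q (HM g.1 a c))
    (hn : (2 * m = finrank F V ∧ m ≠ 1) ∨ 2 * m + 1 = finrank F V) : CM g :=
  let ⟨_, _, _, h1, h2, h3, h4, h5, h6⟩ := hL
  h.cm hf g h1 h2 h3 h4 h5 (hn.imp_left fun e => ⟨e.1, h6 e.2⟩)

theorem Frame.det_fixed (h : f.Frame a c) (hm : 2 * m = finrank F V) (g : f.SIsom) :
    frobq hF (HM g.1 a c).det = (HM g.1 a c).det := by
  simpa [show f.detHom g.1 = 1 from g.2] using h.det hm g.1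

theorem Frame.cm_np (hf : f.Nondeg) (h : f.Frame a c) (g : f.SIsom) (hm : 2 * m = finrank F V) (h1 : m ≠ 1)
    (h2 : Lev.NP (toLin' (HM g.1 a c))) (h3 : (HM g.1 a c).det ≠ 0) : CM g :=
  h.cm_lv hf g (lv_np hF h2 h3 (h.det_fixed hm g)) (.inl ⟨hm, h1⟩)

theorem Frame.ext {W : Type*} [AddCommGroup W] [Module F W] (h : f.Frame a c) (hm : 2 * m = finrank F V)
    {ψ : V →ₗ[F] W} (h1 : ∀ i, ψ (a i) = 0) (h2 : ∀ i, ψ (c i) = 0) : ψ = 0 :=
  (basisOfLinearIndependentOfCardEqFinrank' _ h.li (by simp [← hm, two_mul])).ext (by rintro (i | i) <;> simp [h1, h2])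

omit [FiniteDimensional F V] in
theorem Frame.B_span (h : f.Frame a c) {v : V} (hv : v ∈ span F (Set.range c)) (j : Fin m) : f.B v (c j) = 0 := by
  obtain ⟨t, rfl⟩ := (mem_span_range_iff_exists_fun F).1 hv
  simp [h.cc]

omit [FiniteDimensional F V] in
theorem Frame.HM_eq (h : f.Frame a c) {g : f.Isom} {l : F} (hg : ∀ v, g.1 v - l • v ∈ span F (Set.range c)) :
    HM g a c = l • 1 := by
  ext j i
  simpa [HM, h.ac, one_apply, eq_comm (a := j), sub_eq_zero] using h.B_span (hg (a i)) j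

theorem Nondeg.exists_frame_sq (hf : f.Nondeg) (hq : q = 2) (hm : 2 * m = finrank F V) {g : f.Isom} {l : F} (hl : l ≠ 0)
    (h : ∀ v, g.1 (g.1 v) = (l * l) • v) : ∃ a c : Fin m → V, f.Frame a c ∧ ∀ v, g.1 v - l • v ∈ span F (Set.range c) := by
  obtain ⟨a, c, h1, h2⟩ := exists_frame m (LinearMap.range ((g.1 : V →ₗ[F] V) - l • 1)) hf hm (by
    rintro _ ⟨v, rfl⟩ _ ⟨w, rfl⟩
    have := Isom.map_B g v (g.1 w)
    simp only [h, B_smul_right, Param.unit_σ, map_mul] at this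
    simp only [LinearMap.sub_apply, LinearMap.smul_apply, LinearEquiv.coe_coe, End.one_apply, B_sub_left, B_sub_right,
      B_smul_left, B_smul_right, Isom.map_B, Param.unit_σ, ← this]
    linear_combination (f.B v w - frobq hF l * f.B (g.1 v) w) * (norm_eq_one_of_q (hF := hF) hq hl + two_eq_zero_of_q hF hq))
  exact ⟨a, c, h1, fun v => h2 ⟨v, rfl⟩⟩

theorem Frame.exists_ne (h : f.Frame a c) (hm : 2 * m = finrank F V) {ψ : V →ₗ[F] F} (hψ : ψ ≠ 0) :
    ∃ a', f.Frame a' c ∧ (fun i => ψ (a' i)) ≠ 0 := by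
  by_cases h1 : (fun i => ψ (a i)) = 0
  · obtain ⟨t, t0, t1⟩ := exists_theta hF
    refine ⟨fun i => a i + t • c i, ⟨fun i j => ?_, h.cc, fun i j => by simp [h.ac, h.cc]⟩,
      fun e => hψ (h.ext hm (congrFun h1) fun i => by simpa [t0, show ψ (a i) = 0 from congrFun h1 i] using congrFun e i)⟩
    by_cases e : i = j <;> simp [h.aa, h.cc, h.ac, h.ca, e, t1, add_comm]
  · exact ⟨a, h, h1⟩

variable {u c : V} {l b : F}

theorem Step.nf (hf : f.Nondeg) (hq : q = 2) (hm : 2 * (m + 3) = finrank F V) {g : f.SIsom} (hg : ¬ CM g)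
    (h : Step g.1 u c l b) (z : f.orth (span F {u, c})) :
    g.1.1 z ∈ f.orth (span F {u, c}) ∧ g.1.1 (g.1.1 z) = (l * l) • z := by
  obtain ⟨k, hk⟩ := h.exists_red hf
  have h1 := h.hyp.restrict_orth_nondeg hf
  have h2 := h.hyp.finrank_orth hf
  rcases h1.dichotomy hq (by omega) k h.ne with ⟨u', c', l', b', h3, h4⟩ | h3
  · obtain ⟨a', c', h5, h6, h7⟩ := h3.cell (m := m + 1) h1 (by omega)
    refine (hg ((h5.cons0 h.hyp).cm_np hf g hm (by omega) ?_ ?_)).elim <;> rw [h.HM_cons0 hk]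
    · exact np_bord _ h7 fun e => h4 ((algebraMap F _).injective e)
    · simp [SLn.det_bord_col, h.ne, h6]
  obtain ⟨a', c', h4, h5⟩ := h1.exists_frame_sq (m := m + 2) hq (by omega) h.ne h3
  have h6 : ∀ z : f.orth (span F {u, c}), g.1.1 z = k.1 z := fun z => by
    by_contra e
    obtain ⟨a'', h6, h7⟩ := h4.exists_ne (by omega) (ψ := f.B.flip c ∘ₗ (g.1.1 : V →ₗ[F] V) ∘ₗ (f.orth _).subtype) fun e' =>
      e (by rw [hk, show f.B (g.1.1 z) c = 0 from congr($e' z)]; simp)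
    have h8 := (h6.cons0 h.hyp).det_fixed hm g
    refine hg ((h6.cons0 h.hyp).cm_lv hf g ?_ (.inl ⟨hm, by omega⟩))
    rw [h.HM_cons0 hk, h6.HM_eq h5] at h8 ⊢
    refine lv_tv hF hq ?_ h7
    rw [SLn.det_bord_col, det_smul, det_one, mul_one, Fintype.card_fin, ← pow_succ'] at h8
    exact eq_one_of_q hq h8 (pow_ne_zero _ h.ne)
  exact ⟨h6 z ▸ (k.1 z).2, by rw [h6, h6, h3]; rfl⟩

theorem Nondeg.cm_even (hf : f.Nondeg) (hm : 2 * (m + 2) = finrank F V) (g : f.SIsom) : CM g := by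
  have := (finrank_pos_iff (R := F) (M := V)).1 (by omega)
  by_cases h0 : ∃ s : F, ∀ v, g.1.1 v = s • v
  · exact hf.cm_scalar g h0.choose_spec
  obtain ⟨u, c, l, b, h, hb⟩ := hf.exists_step (by omega) h0
  by_cases hq : 3 ≤ q
  · obtain ⟨k, hk⟩ := h.exists_red hf
    obtain ⟨a', c', h1, h2⟩ := exists_cell (m + 1) k (h.hyp.restrict_orth_nondeg hf) (by have := h.hyp.finrank_orth hf; omega)
    obtain ⟨β, hβ⟩ := exists_mem_ev' (HM k a' c')
    obtain ⟨t, t0, t1⟩ := exists_theta hF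
    obtain ⟨κ, k1, k2, k3⟩ := exists_fixed hF hq
    obtain ⟨y, y1, y2, y3⟩ : ∃ y : F, frobq hF y = y ∧ l + b * (y * frobq hF t) ≠ 0 ∧
        β ≠ algebraMap F _ (l + b * (y * frobq hF t)) := by
      by_contra! e
      have a1 := e 0 (map_zero _) (by simpa using h.ne)
      have a2 := e 1 (map_one _)
      have a3 := e κ k1
      have a4 := mul_ne_zero hb ((map_ne_zero (frobq hF)).2 t0)
      rw [a1, (algebraMap F _).injective.eq_iff] at a2 a3
      have a5 : l + b * (1 * frobq hF t) = 0 := not_not.1 fun e => a4 (by linear_combination -a2 e)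
      have a6 : l + b * (κ * frobq hF t) = 0 := not_not.1 fun e => mul_ne_zero k2 a4 (by linear_combination -a3 e)
      exact mul_ne_zero (sub_ne_zero.2 k3) a4 (by linear_combination a6 - a5)
    refine (h1.cons h.hyp (y := y * t) (z := 0) (by simp) (by simp [y1, ← mul_add, t1])).cm_np hf g hm (by omega) ?_ ?_ <;>
      rw [h.HM_cons hk, map_mul, y1]
    · exact np_bord _ hβ y3
    · simp [SLn.det_bord_col, y2, h2]
  obtain hq : q = 2 := by have := two_le_q hF; omega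
  have h2 := two_eq_zero_of_q hF hq
  have h3 : ∀ x y : F, x * x = y * y → x = y := fun x y e =>
    sub_eq_zero.1 (pow_eq_zero_iff two_ne_zero |>.1 (by linear_combination e + (y * y - x * y) * h2))
  rcases m with _ | m
  · rcases hf.dichotomy hq (by omega) g.1 one_ne_zero with ⟨u, c, l, b, h4, h5⟩ | h4
    · obtain ⟨a, c, h6, h7, h8⟩ := h4.cell (m := 1) hf hm.le
      exact h6.cm_np hf g hm (by omega) (np_of_det h8 fun e => h5 (h3 _ _ (by
        rw [eq_one_of_q hq (h6.det_fixed hm g) h7] at e; linear_combination -e))) h7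
    · obtain ⟨a, c, h5, h6⟩ := hf.exists_frame_sq hq hm one_ne_zero h4
      exact h5.cm_lv hf g (by rw [h5.HM_eq h6, one_smul]; exact lv_one hF (.inl le_rfl)) (.inl ⟨hm, by omega⟩)
  by_contra hg
  rcases hf.dichotomy hq (by omega) g.1 h.ne with ⟨u', c', l', b', h4, h5⟩ | h4
  · have a1 := h.hyp.finrank_orth hf
    have a2 := h4.hyp.finrank_orth hf
    have a3 := finrank_sup_add_finrank_inf_eq (f.orth (span F {u, c})) (f.orth (span F {u', c'}))
    have a4 := finrank_le (f.orth (span F {u, c}) ⊔ f.orth (span F {u', c'}))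
    obtain ⟨z, z1, z2⟩ := (Submodule.ne_bot_iff _).1 (show f.orth (span F {u, c}) ⊓ f.orth (span F {u', c'}) ≠ ⊥ from fun e => by
      rw [e, finrank_bot] at a3; omega)
    exact h5 (h3 _ _ (smul_left_injective F z2 ((h4.nf hf hq hm hg ⟨z, z1.2⟩).2.symm.trans (h.nf hf hq hm hg ⟨z, z1.1⟩).2)))
  obtain ⟨a, c, h5, h6⟩ := hf.exists_frame_sq hq hm h.ne h4
  have h7 : ∀ v, (∀ i, f.B v (a i) = 0) → (∀ i, f.B v (c i) = 0) → v = 0 := fun v h7 h8 => hf.right v fun x =>
    congr($(h5.ext hm (ψ := f.B.flip v) (fun i => f.B_eq_zero_symm (h7 i)) fun i => f.B_eq_zero_symm (h8 i)) x)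
  have h8 : ∀ j, g.1.1 (c j) = l • c j := fun j => sub_eq_zero.1 (hf _ fun w => by
    have a1 := f.B_eq_zero_symm (h5.B_span (h6 w) j)
    have a2 := Isom.map_B g.1 (c j) (g.1.1 w)
    simp only [h4, B_smul_right, B_sub_right, Param.unit_σ, map_mul] at a1 a2
    rw [B_sub_left, B_smul_left]
    have a3 := norm_eq_one_of_q (hF := hF) hq h.ne
    linear_combination l * l * (a1 + a2) - (f.B (g.1.1 (c j)) w * (l * frobq hF l + 1) - l * f.B (c j) w) * a3)
  have h9 : ∀ i j, i ≠ j → f.B (g.1.1 (a j)) (a i) = 0 := fun i j e =>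
    (mem_orth_pair.1 ((step_of_eigen (u := c i) (c := a i) ⟨(unit_Q ..).trans (h5.cc ..), (unit_Q ..).trans (h5.aa ..), by simp [h5.ca]⟩ (h8 i)).nf hf hq hm hg
      ⟨a j, mem_orth_pair.2 ⟨by simp [h5.ac, e.symm], h5.aa ..⟩⟩).1).2
  have h10 : ∀ i j, f.B (g.1.1 (a j)) (a i) = 0 := fun i j => by
    rcases eq_or_ne i j with rfl | e
    · obtain ⟨j, e⟩ := exists_ne i
      simpa [h9 i j e.symm] using (mem_orth_pair.1 ((step_of_eigen (g := g.1) (l := l) (u := c i + c j) (c := a i)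
        ⟨by simp [unit_Q, h5.cc], (unit_Q ..).trans (h5.aa ..), by simp [h5.ca, e]⟩ (by simp [h8])).nf hf hq hm hg
        ⟨a j - a i, mem_orth_pair.2 ⟨by simp [h5.ac, e, e.symm], by simp [h5.aa]⟩⟩).1).2
    · exact h9 i j e
  exact h0 ⟨l, fun v => sub_eq_zero.1 (LinearMap.congr_fun (h5.ext hm (ψ := (g.1.1 : V →ₗ[F] V) - l • 1)
    (fun j => h7 _ (fun i => by simp [h10, h5.aa]) (h5.B_span (h6 _))) fun j => by simp [h8]) v)⟩

theorem Nondeg.exists_embed_le (hf : f.Nondeg) (K : Submodule F V) {j : ℕ} (h : j + finrank F V ≤ 2 * finrank F K) :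
    ∃ φ : (Fin j → F) →ₗ[F] V, IsIsom (uForm j hF) f φ ∧ ∀ w, φ w ∈ K := by
  obtain ⟨S, hS⟩ := Submodule.exists_isCompl ((f.orth K).comap K.subtype)
  have h1 : ((f.restrict K).restrict S).Nondeg := fun x hx => Subtype.ext (disjoint_def.1 hS.disjoint _ (fun y hy => by
    obtain ⟨r, hr, s, hs, e⟩ := mem_sup.1 (hS.sup_eq_top.ge (mem_top (x := (⟨y, hy⟩ : K))))
    rw [show y = r + s from congrArg Subtype.val e.symm, B_add_right, show f.B (K.subtype x) s = 0 from hx ⟨s, hs⟩, add_zero]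
    exact f.B_eq_zero_symm (hr _ x.1.2)) x.2)
  have h2 := finrank_add_eq_of_isCompl hS
  have h3 := hf.finrank_add_orth K
  have h4 := (K.subtype.restrict (p := (f.orth K).comap K.subtype) (q := f.orth K) fun _ h => h).finrank_le_finrank_of_injective
    fun x y e => Subtype.ext (Subtype.ext congr(($e).1))
  obtain ⟨φ, hφ⟩ := h1.unit_embed (uForm_nondeg j hF) (by simp; omega)
  exact ⟨K.subtype ∘ₗ S.subtype ∘ₗ φ, unit_isIsom hφ.map_B, fun w => (φ w).1.2⟩

theorem Nondeg.cm_odd (hf : f.Nondeg) (hm : 2 * (m + 1) + 1 = finrank F V) (hex : m = 0 → q ≠ 2) (g : f.SIsom) : CM g := by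
  have := (finrank_pos_iff (R := F) (M := V)).1 (by omega)
  by_cases h0 : ∃ s : F, ∀ v, g.1.1 v = s • v
  · exact hf.cm_scalar g h0.choose_spec
  obtain ⟨u, c, l, b, h, hb⟩ := hf.exists_step (by omega) h0
  obtain ⟨k, hk⟩ := h.exists_red hf
  have h1 := h.hyp.restrict_orth_nondeg hf
  have h2 := h.hyp.finrank_orth hf
  have key : ∀ a' c' : Fin m → f.orth (span F {u, c}), (f.restrict _).Frame a' c' → (HM k a' c').det ≠ 0 → ∀ y : F,
      frobq hF y = y → y ≠ 0 → ∀ β ∈ ev (toLin' (HM k a' c')), β ≠ algebraMap F _ (y / (HM k a' c').det) → CM g :=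
    fun a' c' h3 h4 y y1 y2 β b1 b2 => by
      obtain ⟨a, c, r, h5, h6⟩ := h.cell_odd hf hb hk h3 (by omega) (y / (HM k a' c').det)
      refine h5.cm_lv hf g (h6 ▸ lv_np hF (np_bord r b1 b2) ?_ ?_) (.inr hm) <;> rwa [SLn.det_bord_col, div_mul_cancel₀ _ h4]
  obtain ⟨a', c', h3, h4⟩ := exists_cell m k h1 (by omega)
  by_cases hq : 3 ≤ q
  · rcases m with _ | m
    · obtain ⟨a, c, r, h5, h6⟩ := h.cell_odd hf hb hk h3 (by omega) 1
      refine h5.cm_lv hf g ?_ (.inr hm)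
      rw [h6, Subsingleton.elim r 0, Subsingleton.elim (HM k a' c') 1, SLn.bord_one]
      exact lv_one hF (.inr ⟨rfl, hq⟩)
    obtain ⟨β, hβ⟩ := exists_mem_ev' (HM k a' c')
    obtain ⟨κ, k1, k2, k3⟩ := exists_fixed hF hq
    by_contra e
    exact k3 ((div_left_inj' h4).1 ((algebraMap F (Kc F)).injective
      ((not_not.1 fun e' => e (key _ _ h3 h4 κ k1 k2 β hβ e')).symm.trans
        (not_not.1 fun e' => e (key _ _ h3 h4 1 (map_one _) one_ne_zero β hβ e')))))
  obtain hq : q = 2 := by have := two_le_q hF; omega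
  obtain ⟨m, rfl⟩ : ∃ k, m = k + 1 := ⟨m - 1, by have := mt hex (not_not.2 hq); omega⟩
  by_cases h5 : ∃ s : F, ∀ v, k.1 v = s • v
  swap
  · obtain ⟨u', c'', l', b', h', hb'⟩ := h1.exists_step (by omega) h5
    obtain ⟨k', hk'⟩ := h'.exists_red h1
    obtain ⟨a2, c2, h6, h7⟩ := exists_cell m k' (h'.hyp.restrict_orth_nondeg h1) (by have := h'.hyp.finrank_orth h1; omega)
    obtain ⟨w, w1, w2⟩ := exists_norm_one hF
    obtain ⟨x, x0, x1⟩ : ∃ x : F, x ≠ 0 ∧ x * (x * (HM k' a2 c2).det) ≠ 1 := by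
      by_contra! e
      have := e w (left_ne_zero_of_mul_eq_one w1)
      rw [show (HM k' a2 c2).det = 1 by simpa using e 1 one_ne_zero, mul_one] at this
      exact w2 this
    obtain ⟨a3, c3, r, h8, h9⟩ := h'.cell_odd h1 hb' hk' h6 (by omega) x
    have h10 : (HM k a3 c3).det = x * (HM k' a2 c2).det := by rw [h9, SLn.det_bord_col]
    refine key a3 c3 h8 (h10 ▸ mul_ne_zero x0 h7) 1 (map_one _) one_ne_zero (algebraMap F _ x) (by simp [h9, ev_bord]) fun e => x1 ?_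
    rwa [(algebraMap F _).injective.eq_iff, h10, eq_div_iff (mul_ne_zero x0 h7)] at e
  obtain ⟨s, hs⟩ := h5
  have h6 : HM k a' c' = s • 1 := h3.HM_eq (by simp [hs])
  have h7 : (HM k a' c').det = s ^ (m + 1) := by simp [h6]
  have h8 : s ≠ 0 := by rintro rfl; simp [h7] at h4
  by_cases h9 : s ^ (m + 2) = 1
  swap
  · refine key a' c' h3 h4 1 (map_one _) one_ne_zero (algebraMap F _ s) ?_ fun e => h9 ?_
    · rw [h6, show s • (1 : Matrix _ _ F) = SLn.bord s 0 0 (s • 1) from SLn.bord_ext (by simp)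
        (by simp [one_apply, (Fin.succ_ne_zero _).symm]) (by simp) (by simp [one_apply])]
      simp [ev_bord]
    · rwa [(algebraMap F _).injective.eq_iff, eq_div_iff h4, h7, ← pow_succ'] at e
  obtain ⟨j, n, j0, j1, j2, j3⟩ : ∃ j n, 0 < j ∧ s ^ j = 1 ∧ j ≤ 2 * m + 1 ∧ 2 * (n + 2) + j = finrank F V := by
    by_cases e : s = 1
    · exact ⟨1, m, one_pos, by simp [e], by omega, by omega⟩
    have a1 : s ^ 3 = 1 := by simpa [frobq_apply, hq, pow_succ', mul_assoc] using norm_eq_one_of_q (hF := hF) hq h8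
    have := Fact.mk Nat.prime_three
    have a2 := orderOf_dvd_of_pow_eq_one h9
    rw [orderOf_eq_prime a1 e] at a2
    exact ⟨3, m - 1, by omega, a1, by omega, by omega⟩
  have a1 := LinearMap.finrank_range_add_finrank_ker (f.B.flip c ∘ₗ (g.1.1 : V →ₗ[F] V) ∘ₗ (f.orth (span F {u, c})).subtype)
  have a2 := finrank_le (LinearMap.range (f.B.flip c ∘ₗ (g.1.1 : V →ₗ[F] V) ∘ₗ (f.orth (span F {u, c})).subtype))
  rw [finrank_self] at a2
  obtain ⟨φ, a3, a4⟩ := h1.exists_embed_le (j := j)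
    (LinearMap.ker (f.B.flip c ∘ₗ (g.1.1 : V →ₗ[F] V) ∘ₗ (f.orth (span F {u, c})).subtype)) (by omega)
  have a5 : IsIsom (uForm j hF) f ((f.orth _).subtype ∘ₗ φ) := unit_isIsom a3.map_B
  have a6 := a5.comap_nondeg (uForm_nondeg j hF)
  have a7 := hf.finrank_orth_range a6
  have : Nonempty (Fin j) := ⟨⟨0, j0⟩⟩
  refine hf.cm_glue_su (uForm_nondeg j hF) a5 (g' := ⟨scalar _ s (norm_eq_one_of_q (hF := hF) hq h8), Units.ext ((detHom_scalar ..).trans (by simpa))⟩)
    (fun w => ?_) ((uForm_nondeg j hF).cm_scalar _ (s := s) fun _ => rfl) ((hf.restrict_orth_range a6).cm_even (m := n) (by simp at a7; omega))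
  exact (show _ = s • (φ w).1 by simpa [hs, show f.B (g.1.1 (φ w)) c = 0 from a4 w] using hk (φ w)).trans
    (map_smul ((f.orth _).subtype ∘ₗ φ) s w).symm

theorem Nondeg.cm_su (hf : f.Nondeg) (h3 : 3 ≤ finrank F V) (hex : ¬ (finrank F V = 3 ∧ q = 2)) (g : f.SIsom) : CM g := by
  rcases Nat.even_or_odd' (finrank F V) with ⟨m, h | h⟩
  · exact hf.cm_even (m := m - 2) (by omega) g
  · exact hf.cm_odd (m := m - 1) (by omega) (fun e e' => hex ⟨by omega, e'⟩) g

end Form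

end Cfsg.Agent.Forms
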