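import Cfsg.Agent.Lib.Forms.UBorel
import Cfsg.Agent.Lib.Forms.Card
import Cfsg.Agent.Lib.Forms.Orbit

/-!
Sylow `2`-subgroups of unitary groups in dimension a power of two, odd characteristic.
-/

set_option autoImplicit false

namespace Cfsg.Agent.Forms

open Matrix GLn

variable {F : Type*} [Field F] {ι κ : Type*} [Fintype ι] [DecidableEq ι] [Fintype κ]
  [DecidableEq κ]

/-- unitary matrices -/
def UM (ι : Type*) [Fintype ι] [DecidableEq ι] (σ : F →+* F) : Subgroup (GL ι F) where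
  carrier := {g | g.1ᵀ * g.1.map σ = 1}
  one_mem' := by simp
  mul_mem' {a b} (ha : _ = _) (hb : _ = _) := by
    change _ = _
    rw [Units.val_mul, transpose_mul, Matrix.map_mul, mul_assoc, ← mul_assoc a.1ᵀ, ha, one_mul, hb]
  inv_mem' {a} (ha : _ = _) := by
    change _ = _
    rw [← one_mul (a⁻¹.1.map σ), ← ha, mul_assoc, ← Matrix.map_mul, Units.mul_inv,
      Matrix.map_one _ σ.map_zero σ.map_one, mul_one, ← transpose_mul, Units.mul_inv, transpose_one, ha]

theorem mem_UM {σ : F →+* F} {g : GL ι F} : g ∈ UM ι σ ↔ g.1ᵀ * g.1.map σ = 1 := Iff.rfl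

theorem reindex_mem_UM {σ : F →+* F} (e : ι ≃ κ) {g : GL ι F} :
    reindexGL F e g ∈ UM κ σ ↔ g ∈ UM ι σ := by
  rw [mem_UM, mem_UM, coe_reindexGL, ← (reindex e e).injective.eq_iff (a := g.1ᵀ * _)]
  simp only [reindex_apply, transpose_submatrix, ← submatrix_map, submatrix_mul_equiv,
    submatrix_one_equiv]

theorem wr2_le_UM {σ : F →+* F} {S : Subgroup (GL ι F)} (h : S ≤ UM ι σ) :
    wr2 S ≤ UM (ι ⊕ ι) σ := by
  rintro g ⟨a, ha, b, hb, hg | hg⟩ <;>
    simp [mem_UM, hg, fromBlocks_transpose, fromBlocks_map, fromBlocks_multiply, mem_UM.1 (h ha),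
      mem_UM.1 (h hb)]

variable [Fintype F] {q : ℕ} (hF : Fintype.card F = q ^ 2)

theorem herm_iff {n : ℕ} (A : Matrix (Fin n) (Fin n) F) :
    (∀ u v, hermForm n F q (A *ᵥ u) (A *ᵥ v) = hermForm n F q u v) ↔
      Aᵀ * A.map (frobq hF) = 1 := by
  have key : ∀ u v, hermForm n F q (A *ᵥ u) (A *ᵥ v) =
      u ⬝ᵥ ((Aᵀ * A.map (frobq hF)) *ᵥ fun i => frobq hF (v i)) := by
    intro u v
    rw [← mulVec_mulVec, dotProduct_mulVec, vecMul_transpose]
    exact Finset.sum_congr rfl fun i _ => congrArg _ (RingHom.map_mulVec (frobq hF) A v i)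
  constructor
  · intro h
    ext i j
    have := h (Pi.single i 1) (Pi.single j 1)
    rw [key, ← uForm_B n hF, uForm_B'] at this
    simpa [Pi.single_apply, apply_ite (frobq hF), mulVec, dotProduct, one_apply, eq_comm] using this
  · intro h u v
    rw [key, h, one_mulVec]
    rfl

theorem GU_eq_UM (n : ℕ) : GU n F q = UM (Fin n) (frobq hF) :=
  Subgroup.ext fun g => herm_iff hF g.1

theorem card_UM : Nat.card (UM ι (frobq hF)) =
    ∏ i ∈ Finset.range (Fintype.card ι), q ^ i * qu q (i + 1) := by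
  have h1 : Nat.card (UM ι (frobq hF)) = Nat.card (UM (Fin (Fintype.card ι)) (frobq hF)) :=
    Nat.card_congr ((reindexGL F (Fintype.equivFin ι)).toEquiv.subtypeEquiv fun g =>
      (reindex_mem_UM _).symm)
  have h2 := (uForm_nondeg (Fintype.card ι) hF).card_gu (n := Fintype.card ι) (by simp)
  rw [← Nat.card_congr (guEquiv _ hF).toEquiv, GU_eq_UM hF, ← h1] at h2
  have h3 := congrArg Int.natAbs h2
  rw [Int.natAbs_natCast] at h3
  rw [h3, show Int.natAbs = Int.natAbsHom from rfl, map_prod]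
  refine Finset.prod_congr rfl fun i _ => ?_
  rw [map_mul, map_pow, qu, neg_pow (q : ℤ)]
  congr 1
  rcases neg_one_pow_eq_or ℤ (i + 1) with h | h <;> rw [h]
  · simp
  · rw [Int.natAbsHom_apply, ← Int.natAbs_neg]
    congr 1
    ring

theorem v2_qu (hq : 1 < q) (ho : Odd q) {i : ℕ} (hi : i ≠ 0) :
    padicValNat 2 (qu q i) + (if 2 ∣ i then 1 else 0) =
      padicValNat 2 (q + 1) + padicValNat 2 i + if 2 ∣ i then padicValNat 2 (q - 1) else 0 := by
  have h1 := v2_pow_sub_one hq ho hi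
  split_ifs at h1 ⊢ with h
  · rw [qu_of_even (by omega) (even_iff_two_dvd.2 h)]
    omega
  · have h2 := v2_pow_sub_one hq ho (i := i * 2) (by omega)
    have h3 := Nat.one_lt_pow hi hq
    rw [if_pos (dvd_mul_left 2 i), if_pos (dvd_mul_left 2 i), pow_mul, ← one_pow 2, Nat.sq_sub_sq,
      padicValNat.mul (by omega) (by omega), padicValNat.mul hi two_ne_zero, padicValNat_self] at h2
    rw [qu_of_odd (Nat.odd_iff.2 (by omega))]
    simp only [one_pow, padicValNat.eq_zero_of_not_dvd h] at h1 h2 ⊢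
    omega

theorem v2_card_UM (ho : Odd q) :
    padicValNat 2 (Nat.card (UM ι (frobq hF))) + Fintype.card ι / 2 =
      Fintype.card ι * padicValNat 2 (q + 1) + padicValNat 2 (Fintype.card ι).factorial +
        Fintype.card ι / 2 * padicValNat 2 (q - 1) := by
  have hq : 1 < q := two_le_q hF
  have h0 : ∀ i, qu q (i + 1) ≠ 0 := fun i => by
    rcases Nat.even_or_odd (i + 1) with h | h
    · rw [qu_of_even (by omega) h]
      exact (Nat.sub_pos_of_lt (Nat.one_lt_pow (Nat.succ_ne_zero i) hq)).ne'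
    · rw [qu_of_odd h]
      omega
  rw [card_UM]
  generalize Fintype.card ι = n
  induction n with
  | zero => simp
  | succ n ih =>
    have h1 := v2_qu hq ho (i := n + 1) (Nat.succ_ne_zero n)
    have h2 : ¬ 2 ∣ q ^ n := fun h =>
      (Nat.not_even_iff_odd.2 ho) (even_iff_two_dvd.2 (Nat.prime_two.dvd_of_dvd_pow h))
    rw [Finset.prod_range_succ, padicValNat.mul (Finset.prod_ne_zero_iff.2 fun i _ =>
      mul_ne_zero (by positivity) (h0 i)) (mul_ne_zero (by positivity) (h0 n)),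
      padicValNat.mul (by positivity) (h0 n), padicValNat.eq_zero_of_not_dvd h2,
      Nat.factorial_succ, padicValNat.mul (Nat.succ_ne_zero n) (Nat.factorial_ne_zero n),
      Nat.succ_div, add_mul, add_mul]
    simp only [Nat.succ_eq_add_one]
    split_ifs at h1 ⊢ <;> omega

theorem v2_card_UM_sum (ho : Odd q) {k : ℕ} (hι : Fintype.card ι = 2 ^ (k + 1)) :
    padicValNat 2 (Nat.card (UM (ι ⊕ ι) (frobq hF))) =
      2 * padicValNat 2 (Nat.card (UM ι (frobq hF))) + 1 := by
  have h1 := v2_card_UM (ι := ι) hF ho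
  have h2 := v2_card_UM (ι := ι ⊕ ι) hF ho
  have h3 := v2_factorial_two_pow (k + 1)
  have h4 := v2_factorial_two_pow (k + 2)
  rw [Fintype.card_sum, hι, ← two_mul, ← pow_succ'] at h2
  rw [hι] at h1
  rw [pow_succ' 2 (k + 1), pow_succ' 2 k] at *
  generalize 2 ^ k = m at *
  rw [Nat.mul_div_cancel_left _ two_pos] at h1 h2
  have h5 : 2 * (2 * m) * padicValNat 2 (q + 1) = 2 * (2 * m * padicValNat 2 (q + 1)) := by ring
  have h6 : 2 * m * padicValNat 2 (q - 1) = 2 * (m * padicValNat 2 (q - 1)) := by ring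
  omega

include hF in
theorem odd_card_of_odd (ho : Odd q) : Odd (Nat.card F) := by
  rw [Nat.card_eq_fintype_card, hF]
  exact ho.pow

theorem exists_skew_pair (ho : Odd q) :
    ∃ a b : F, frobq hF a = -a ∧ frobq hF b = -b ∧ a * a + b * b = -1 := by
  have h2 := two_ne_zero_of_odd (odd_card_of_odd hF ho)
  obtain ⟨i, hi⟩ : IsSquare (-1 : F) := FiniteField.isSquare_neg_one_iff.2 (by
    obtain ⟨k, rfl⟩ := ho
    rw [hF, show (2 * k + 1) ^ 2 = 4 * (k ^ 2 + k) + 1 by ring]
    omega)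
  have h1 : (frobq hF i - i) * (frobq hF i + i) = 0 := by
    have := congrArg (frobq hF) hi
    rw [map_neg, map_one, map_mul] at this
    linear_combination hi - this
  rcases mul_eq_zero.1 h1 with h | h
  · obtain ⟨d, hd⟩ := frobq_ne hF
    have h3 : frobq hF (d - frobq hF d) = -(d - frobq hF d) := by simp [frobq_frobq]
    have h4 : d - frobq hF d ≠ 0 := sub_ne_zero.2 hd.symm
    have h5 : i ≠ 0 := by rintro rfl; simp at hi
    generalize d - frobq hF d = c at h3 h4
    refine ⟨(c - c⁻¹) / 2, (c + c⁻¹) / (2 * i), ?_, ?_, ?_⟩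
    · simp only [map_div₀, map_sub, map_inv₀, h3, map_ofNat]
      field_simp
      ring
    · simp only [map_div₀, map_add, map_inv₀, h3, map_ofNat, map_mul, sub_eq_zero.1 h]
      field_simp
      ring
    · field_simp
      linear_combination -(c ^ 2 + 1) ^ 2 * hi
  · exact ⟨i, 0, eq_neg_of_add_eq_zero_left h, by simp, by simp [hi]⟩

theorem exists_good_two (ho : Odd q) : ∃ S : Subgroup (GL (Fin 2) F), S ≤ UM (Fin 2) (frobq hF) ∧
    Good S ∧ Nat.card S = 2 ^ padicValNat 2 (Nat.card (UM (Fin 2) (frobq hF))) := by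
  have h2 := two_ne_zero_of_odd (odd_card_of_odd hF ho)
  have hq : 1 < q := two_le_q hF
  obtain ⟨a, b, ha, hb, hab⟩ := exists_skew_pair hF ho
  have hd : (!![a, b; b, -a] : Matrix (Fin 2) (Fin 2) F).det = 1 := by
    rw [det_fin_two_of]; linear_combination -hab
  let s : UM (Fin 2) (frobq hF) := ⟨GeneralLinearGroup.mkOfDetNeZero !![0, 1; -1, 0] (by simp), by
    rw [mem_UM]
    ext i j
    fin_cases i <;> fin_cases j <;> simp [mul_apply, Fin.sum_univ_two]⟩
  let t : UM (Fin 2) (frobq hF) := ⟨GeneralLinearGroup.mkOfDetNeZero !![a, b; b, -a] (by simp [hd]),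
    by
    rw [mem_UM]
    ext i j
    fin_cases i <;> fin_cases j <;> simp [mul_apply, Fin.sum_univ_two, ha, hb] <;>
      first | linear_combination -hab | ring⟩
  have hs1 : s.1.1 = !![0, 1; -1, 0] := rfl
  have ht1 : t.1.1 = !![a, b; b, -a] := rfl
  have hs4 : s ^ 2 ^ 2 = 1 := Subtype.ext (Units.ext (by
    ext i j
    fin_cases i <;> fin_cases j <;> simp [pow_succ, hs1]))
  have ht2 : t.1.1 * t.1.1 = -1 := by
    ext i j
    fin_cases i <;> fin_cases j <;> simp [ht1] <;> first | linear_combination hab | ring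
  have ht4 : t ^ 2 ^ 2 = 1 := Subtype.ext (Units.ext (by
    rw [show 2 ^ 2 = 2 * 2 from rfl, pow_mul, sq, sq]
    simp [ht2]))
  have hts : t * s * t⁻¹ = s ^ 3 := by
    rw [mul_inv_eq_iff_eq_mul]
    refine Subtype.ext (Units.ext ?_)
    ext i j
    fin_cases i <;> fin_cases j <;> simp [pow_succ, hs1, ht1]
  obtain ⟨P, hP⟩ := (IsPGroup.to_sup_of_normal_left' (Alt.isPGroup_zpowers_of_pow hs4)
    (Alt.isPGroup_zpowers_of_pow ht4) (Subgroup.zpowers_le.2 (Subgroup.mem_normalizer_fintype (by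
      rintro _ ⟨k, rfl⟩
      rw [← conj_zpow, hts]
      exact zpow_mem (pow_mem (Subgroup.mem_zpowers s) 3) k)))).exists_le_sylow
  have hsP := hP (Subgroup.mem_sup_left (Subgroup.mem_zpowers s))
  have htP := hP (Subgroup.mem_sup_right (Subgroup.mem_zpowers t))
  have hc : Nat.card ((P : Subgroup (UM (Fin 2) (frobq hF))).map (UM (Fin 2) (frobq hF)).subtype) =
      2 ^ padicValNat 2 (Nat.card (UM (Fin 2) (frobq hF))) := by
    rw [Subgroup.card_map_of_injective (Subgroup.subtype_injective _), P.card_eq_multiplicity,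
      Nat.factorization_def _ Nat.prime_two]
  refine ⟨_, Subgroup.map_subtype_le _, good_of_fin_two h2 (P.isPGroup'.map _)
    ⟨t * t, mul_mem htP htP, Units.ext ht2⟩ ⟨_, ⟨s, hsP, rfl⟩, _, ⟨t, htP, rfl⟩, by simp [hs1], hd,
      fun h => ?_⟩ ?_, hc⟩
  · have h1 := congrArg Units.val h
    simp only [Subgroup.coe_subtype, Units.val_mul, hs1, ht1] at h1
    have h3 := congrFun (congrFun h1 0) 0
    have h4 := congrFun (congrFun h1 0) 1
    simp at h3 h4
    have h5 : (2 : F) * b = 0 := by linear_combination h3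
    have h6 : (2 : F) * a = 0 := by linear_combination -h4
    rw [(mul_eq_zero.1 h5).resolve_left h2, (mul_eq_zero.1 h6).resolve_left h2] at hab
    simp at hab
  · have hle := Subgroup.map_subtype_le (P : Subgroup (UM (Fin 2) (frobq hF)))
    generalize (P : Subgroup (UM (Fin 2) (frobq hF))).map (UM (Fin 2) (frobq hF)).subtype = S
      at hc hle
    have h1 : Nat.card (Subgroup.center (GL (Fin 2) F) ⊓ S : Subgroup (GL (Fin 2) F)) ∣ q + 1 := by
      refine (Subgroup.card_dvd_of_le (K := (powMonoidHom (q + 1) : Fˣ →* Fˣ).ker.map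
        (GeneralLinearGroup.scalar (Fin 2))) fun g hg => ?_).trans
        ((Subgroup.card_map_dvd _ _).trans ?_)
      · obtain ⟨hg, hg'⟩ := Subgroup.mem_inf.1 hg
        rw [GeneralLinearGroup.center_eq_range_scalar] at hg
        obtain ⟨c, rfl⟩ := hg
        refine ⟨c, Units.ext ?_, rfl⟩
        have := congrFun (congrFun (mem_UM.1 (hle hg')) 0) 0
        simpa [mul_apply, frobq_apply, pow_succ', GeneralLinearGroup.scalar] using this
      · rw [IsCyclic.card_powMonoidHom_ker]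
        exact Nat.gcd_dvd_right _ _
    have h3 := ((Subgroup.center (GL (Fin 2) F)).subgroupOf S).index_mul_card
    rw [hc, ← Subgroup.inf_subgroupOf_right,
      Nat.card_congr (Subgroup.subgroupOfEquivOfLe inf_le_right).toEquiv,
      Subgroup.inf_subgroupOf_right] at h3
    have h4 := v2_card_UM (ι := Fin 2) hF ho
    have h5 := v2_pow_sub_one hq ho two_ne_zero
    have h6 := (padicValNat_dvd_iff_le (p := 2) (n := 3) (a := q ^ 2 - 1)
      (Nat.sub_pos_of_lt (Nat.one_lt_pow two_ne_zero hq)).ne').1 (Nat.eight_dvd_sq_sub_one_of_odd ho)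
    have h7 : ((Subgroup.center (GL (Fin 2) F)).subgroupOf S).index ≠ 0 :=
      Subgroup.index_ne_zero_of_finite
    have h8 := (padicValNat_dvd_iff_le (mul_ne_zero h7 (Nat.succ_ne_zero q))).1
      (h3 ▸ Nat.mul_dvd_mul_left _ h1)
    rw [padicValNat.mul h7 (Nat.succ_ne_zero q)] at h8
    simp only [Fintype.card_fin, Nat.factorial_two, padicValNat_self, dvd_refl, if_true,
      Nat.succ_eq_add_one] at h4 h5 h8
    exact lt_of_lt_of_le (by norm_num) (Nat.le_of_dvd (Nat.pos_of_ne_zero h7)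
      ((padicValNat_dvd_iff_le (p := 2) (n := 3) h7).2 (by omega)))

theorem exists_good_UM (ho : Odd q) (k : ℕ) :
    ∃ (ι : Type) (_ : Fintype ι) (_ : DecidableEq ι) (S : Subgroup (GL ι F)),
      Fintype.card ι = 2 ^ (k + 1) ∧ S ≤ UM ι (frobq hF) ∧ Good S ∧
        Nat.card S = 2 ^ padicValNat 2 (Nat.card (UM ι (frobq hF))) := by
  induction k with
  | zero =>
    obtain ⟨S, hS⟩ := exists_good_two hF ho
    exact ⟨Fin 2, inferInstance, inferInstance, S, by simp, hS⟩
  | succ k ih =>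
    obtain ⟨ι, _, _, S, hι, hU, hS, hc⟩ := ih
    have : Nontrivial ι := Fintype.one_lt_card_iff_nontrivial.1
      (hι ▸ Nat.one_lt_two_pow (Nat.succ_ne_zero k))
    refine ⟨ι ⊕ ι, inferInstance, inferInstance, wr2 S, by rw [Fintype.card_sum, hι]; ring,
      wr2_le_UM hU, hS.wr2 (two_ne_zero_of_odd (odd_card_of_odd hF ho))
        (hι ▸ (Nat.even_pow.2 ⟨even_two, Nat.succ_ne_zero k⟩)), ?_⟩
    rw [card_wr2, hc, v2_card_UM_sum hF ho hι]
    ring

include hF in
/-- Sylow `2`-subgroups of `SU (2 ^ (k + 2))` are self-normalising for odd `q`. -/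
theorem normalizer_sylow_two_SU (ho : Odd q) (k : ℕ) (P : Sylow 2 (SU (2 ^ (k + 2)) F q)) :
    Subgroup.normalizer ((P : Subgroup (SU (2 ^ (k + 2)) F q)) : Set (SU (2 ^ (k + 2)) F q)) ≤ P := by
  obtain ⟨ι, _, _, S, hι, hU, hS, hc⟩ := exists_good_UM hF ho k
  have : Nontrivial ι := Fintype.one_lt_card_iff_nontrivial.1
    (hι ▸ Nat.one_lt_two_pow (Nat.succ_ne_zero k))
  have hev : Even (Fintype.card ι) := hι ▸ (Nat.even_pow.2 ⟨even_two, Nat.succ_ne_zero k⟩)
  have h2 := two_ne_zero_of_odd (odd_card_of_odd hF ho)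
  let W : Sylow 2 (UM (ι ⊕ ι) (frobq hF)) := Sylow.ofCard ((wr2 S).subgroupOf _) (by
    rw [Nat.card_congr (Subgroup.subgroupOfEquivOfLe (wr2_le_UM hU)).toEquiv, card_wr2, hc,
      Nat.factorization_def _ Nat.prime_two, v2_card_UM_sum hF ho hι]
    ring)
  let e : Fin (2 ^ (k + 2)) ≃ ι ⊕ ι := Fintype.equivOfCardEq (by
    rw [Fintype.card_sum, hι, Fintype.card_fin]; ring)
  let φ : SU (2 ^ (k + 2)) F q →* UM (ι ⊕ ι) (frobq hF) :=
    (((reindexGL F e).toMonoidHom.comp SpecialLinearGroup.toGL).comp (SU _ F q).subtype).codRestrict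
      _ fun g => (reindex_mem_UM e).2 ((herm_iff hF _).1 g.2)
  have hφ : Function.Injective φ := fun a b h => Subtype.ext (SpecialLinearGroup.toGL_injective
    ((reindexGL F e).injective (congrArg Subtype.val h)))
  have hφ' : ∀ s : UM (ι ⊕ ι) (frobq hF), s.1.1.det = 1 → ∃ y, φ y = s := fun s hs =>
    ⟨⟨⟨reindex e.symm e.symm s.1.1, by rw [det_reindex_self, hs]⟩,
      (herm_iff hF _).2 ((reindex_mem_UM e.symm).2 s.2)⟩, Subtype.ext (Units.ext (by
      change reindex e e (reindex e.symm e.symm s.1.1) = _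
      simp))⟩
  obtain ⟨Q, hQ⟩ := P.exists_comap_eq_of_injective hφ
  obtain ⟨a, rfl⟩ := MulAction.exists_smul_eq (UM (ι ⊕ ι) (frobq hF)) W Q
  have hmem : ∀ y, y ∈ (P : Subgroup (SU (2 ^ (k + 2)) F q)) ↔ (a⁻¹ * φ y * a).1 ∈ wr2 S := by
    intro y
    rw [← hQ, Subgroup.mem_comap, Sylow.coe_subgroup_smul,
      Subgroup.mem_pointwise_smul_iff_inv_smul_mem, MulAut.smul_def, MulAut.conj_inv_apply]
    rfl
  refine Alt.normalizer_sylow_le P fun g hg h => ?_
  have hg' : Odd (orderOf g) := Nat.coprime_two_left.1 hg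
  obtain ⟨c, hc⟩ := hS.wr2_odd h2 hev (a⁻¹ * φ g * a).1 (by
    rwa [Subgroup.orderOf_coe, ← MulAut.conj_inv_apply, MulEquiv.orderOf_eq,
      orderOf_injective φ hφ]) fun s hs hd => by
      obtain ⟨y, hy⟩ := hφ' (a * ⟨s, wr2_le_UM hU hs⟩ * a⁻¹) (by
        rw [Subgroup.coe_mul, Subgroup.coe_mul, Subgroup.coe_inv, Units.val_mul, Units.val_mul,
          det_units_conj, hd])
      have h1 := (hmem _).1 (h y ((hmem y).2 (by simpa [hy, mul_assoc] using hs)))
      simpa [hy, mul_assoc] using h1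
  have h3 : (φ g).1.1 = c • 1 := by
    have : φ g = a * (a⁻¹ * φ g * a) * a⁻¹ := by group
    rw [this, Subgroup.coe_mul, Subgroup.coe_mul, Units.val_mul, Units.val_mul, hc]
    simp
  have h4 : (φ g).1.1.det = 1 := (det_reindex_self e _).trans g.1.2
  rw [h3, det_smul, det_one, mul_one, Fintype.card_sum, hι, ← two_mul, ← pow_succ'] at h4
  have h5 : g ^ 2 ^ (k + 1 + 1) = 1 := hφ (Subtype.ext (Units.ext (by
    rw [map_pow, map_one, Subgroup.coe_pow, Units.val_pow_eq_pow_val, h3, smul_pow, h4]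
    simp)))
  exact orderOf_eq_one_iff.1 (Nat.eq_one_of_dvd_coprimes (hg.pow_left _)
    (orderOf_dvd_of_pow_eq_one h5) dvd_rfl)

end Cfsg.Agent.Forms
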